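import Mathlib

/-!
# The odd-product graph on a class of involutions
-/

set_option autoImplicit false

namespace Cfsg.Agent.Lib.InvolChar.OddGraph

variable {G : Type*} [Group G]

/-- Two involutions with odd product are conjugate. -/
lemma isConj_of_odd {a b : G} (ha : a ^ 2 = 1) (hb : b ^ 2 = 1) (h : Odd (orderOf (a * b))) :
    IsConj a b := by
  obtain ⟨k, hk⟩ := h
  have ha' : a * a = 1 := by rw [← pow_two, ha]
  have hb' : b * b = 1 := by rw [← pow_two, hb]
  set w := a * b with hw
  have hw1 : w ^ (2 * k + 1) = 1 := by rw [← hk]; exact pow_orderOf_eq_one w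
  have hwi : w⁻¹ = b * a := by
    rw [hw, mul_inv_rev]
    have e1 : b⁻¹ = b := inv_eq_of_mul_eq_one_left hb'
    have e2 : a⁻¹ = a := inv_eq_of_mul_eq_one_left ha'
    rw [e1, e2]
  have hinv : a * w⁻¹ = w * a := by
    rw [hwi, hw]; group
  have hinvk : ∀ n : ℕ, a * (w⁻¹) ^ n = w ^ n * a := by
    intro n
    induction n with
    | zero => simp
    | succ n ih =>
      calc a * (w⁻¹) ^ (n + 1) = (a * (w⁻¹) ^ n) * w⁻¹ := by rw [pow_succ, mul_assoc]
        _ = w ^ n * (a * w⁻¹) := by rw [ih, mul_assoc]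
        _ = w ^ (n + 1) * a := by rw [hinv, pow_succ]; exact (mul_assoc _ _ _).symm
  rw [isConj_iff]
  refine ⟨w ^ k, ?_⟩
  have e : w ^ (2 * k) = w⁻¹ := by
    rw [eq_inv_iff_mul_eq_one, ← pow_succ, hw1]
  calc w ^ k * a * (w ^ k)⁻¹ = w ^ k * (a * (w⁻¹) ^ k) := by rw [inv_pow, mul_assoc]
    _ = w ^ k * (w ^ k * a) := by rw [hinvk]
    _ = w ^ (2 * k) * a := by rw [two_mul, pow_add, mul_assoc]
    _ = b := by rw [e, hwi, mul_assoc, ha', mul_one]

lemma orderOf_comm (a b : G) : orderOf (b * a) = orderOf (a * b) := by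
  have : b * a = (MulAut.conj a⁻¹) (a * b) := by simp
  rw [this]
  exact MulEquiv.orderOf_eq _ _

open SimpleGraph in
/-- The odd-product graph on a class of involutions is connected of diameter two, as soon as
non-adjacent distinct vertices have a common neighbour and some such pair exists. -/
theorem graph_main (t : G) (ht : t ^ 2 = 1)
    (hcn : ∀ x y : G, IsConj t x → IsConj t y → x ≠ y → ¬ Odd (orderOf (x * y)) →
      ∃ z, z ^ 2 = 1 ∧ Odd (orderOf (x * z)) ∧ Odd (orderOf (y * z)))
    (hne : ∃ x y, IsConj t x ∧ IsConj t y ∧ x ≠ y ∧ ¬ Odd (orderOf (x * y))) :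
    (SimpleGraph.fromRel fun x y : {x : G // IsConj t x} => Odd (orderOf (x.1 * y.1))).Connected ∧
      (SimpleGraph.fromRel fun x y : {x : G // IsConj t x} => Odd (orderOf (x.1 * y.1))).diam = 2 := by
  set Γ := SimpleGraph.fromRel fun x y : {x : G // IsConj t x} => Odd (orderOf (x.1 * y.1)) with hΓ
  have hinv : ∀ x : {x : G // IsConj t x}, x.1 ^ 2 = 1 := by
    intro x
    obtain ⟨c, hc⟩ := isConj_iff.1 x.2
    rw [← hc, conj_pow, ht]; simp
  have hadj : ∀ x y : {x : G // IsConj t x}, x ≠ y → Odd (orderOf (x.1 * y.1)) → Γ.Adj x y := by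
    intro x y hxy h
    rw [hΓ, SimpleGraph.fromRel_adj]
    exact ⟨hxy, Or.inl h⟩
  have hle : ∀ x y : {x : G // IsConj t x}, Γ.edist x y ≤ 2 := by
    intro x y
    by_cases hxy : x = y
    · subst hxy; simp
    by_cases ho : Odd (orderOf (x.1 * y.1))
    · have := edist_eq_one_iff_adj.2 (hadj x y hxy ho)
      rw [this]; norm_num
    · have hne' : x.1 ≠ y.1 := fun h => hxy (Subtype.ext h)
      obtain ⟨z, hz, hxz, hyz⟩ := hcn x.1 y.1 x.2 y.2 hne' ho
      have hzc : IsConj t z := x.2.trans (isConj_of_odd (hinv x) hz hxz)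
      let z' : {x : G // IsConj t x} := ⟨z, hzc⟩
      have hxz' : x ≠ z' := by
        intro h
        have h' : x.1 = z := congrArg Subtype.val h
        apply ho
        rw [← h'] at hyz
        rwa [orderOf_comm] at hyz
      have hyz' : z' ≠ y := by
        intro h
        have h' : z = y.1 := congrArg Subtype.val h
        apply ho
        rw [h'] at hxz
        exact hxz
      have h1 : Γ.Adj x z' := hadj x z' hxz' hxz
      have h2 : Γ.Adj z' y := by
        apply hadj z' y hyz'
        show Odd (orderOf (z * y.1))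
        rw [orderOf_comm]; exact hyz
      let w : Γ.Walk x y := Walk.cons h1 (Walk.cons h2 Walk.nil)
      calc Γ.edist x y ≤ w.length := edist_le w
        _ = 2 := by simp [w]
  have hed : Γ.ediam ≤ 2 := ediam_le_of_edist_le hle
  have htop : Γ.ediam ≠ ⊤ := by
    intro h; rw [h] at hed; exact absurd hed (by decide)
  haveI : Nonempty {x : G // IsConj t x} := ⟨⟨t, IsConj.refl t⟩⟩
  refine ⟨connected_of_ediam_ne_top htop, ?_⟩
  obtain ⟨x, y, hx, hy, hxy, hodd⟩ := hne
  let x' : {x : G // IsConj t x} := ⟨x, hx⟩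
  let y' : {x : G // IsConj t x} := ⟨y, hy⟩
  have hconn : Γ.Connected := connected_of_ediam_ne_top htop
  have hd : 2 ≤ Γ.dist x' y' := by
    by_contra hlt
    push Not at hlt
    have hd0 : Γ.dist x' y' ≠ 0 := by
      intro h0
      have := hconn.dist_eq_zero_iff.1 h0
      exact hxy (congrArg Subtype.val this)
    have hd1 : Γ.dist x' y' = 1 := by omega
    have := dist_eq_one_iff_adj.1 hd1
    rw [hΓ, SimpleGraph.fromRel_adj] at this
    rcases this.2 with h | h
    · exact hodd h
    · apply hodd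
      have h' : Odd (orderOf (y * x)) := h
      rwa [orderOf_comm] at h'
  have hdi : Γ.dist x' y' ≤ Γ.diam := dist_le_diam htop
  have hup : Γ.diam ≤ 2 := by
    unfold SimpleGraph.diam
    have : Γ.ediam.toNat ≤ (2 : ℕ∞).toNat := ENat.toNat_le_toNat hed (by decide)
    simpa using this
  omega

end Cfsg.Agent.Lib.InvolChar.OddGraph
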