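import Cfsg.Agent.Lib.InvolChar.OddGraph

/-!
# Involutions of `PSL₂(F)` and orders of their products
-/

set_option autoImplicit false

namespace Cfsg.Agent.Lib.InvolChar.PSL2Odd

open Matrix

variable {F : Type*} [Field F]

/-- `SL₂(F)`. -/
abbrev SL2' (F : Type*) [Field F] := Matrix.SpecialLinearGroup (Fin 2) F
/-- `PSL₂(F)`. -/
abbrev PSL2' (F : Type*) [Field F] := Matrix.ProjectiveSpecialLinearGroup (Fin 2) F

/-- The projection `SL₂ → PSL₂`. -/
def pr : SL2' F →* PSL2' F := QuotientGroup.mk' (Subgroup.center (SL2' F))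

/-- The trace in coordinates. -/
def trc (g : SL2' F) : F := (g : Matrix (Fin 2) (Fin 2) F) 0 0 + (g : Matrix (Fin 2) (Fin 2) F) 1 1

lemma pr_surj (x : PSL2' F) : ∃ A : SL2' F, pr A = x := QuotientGroup.mk'_surjective _ x

lemma ext2 {x y : SL2' F} (h00 : (x : Matrix (Fin 2) (Fin 2) F) 0 0 = (y : Matrix (Fin 2) (Fin 2) F) 0 0)
    (h01 : (x : Matrix (Fin 2) (Fin 2) F) 0 1 = (y : Matrix (Fin 2) (Fin 2) F) 0 1)
    (h10 : (x : Matrix (Fin 2) (Fin 2) F) 1 0 = (y : Matrix (Fin 2) (Fin 2) F) 1 0)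
    (h11 : (x : Matrix (Fin 2) (Fin 2) F) 1 1 = (y : Matrix (Fin 2) (Fin 2) F) 1 1) : x = y := by
  apply Subtype.ext
  ext i j
  fin_cases i <;> fin_cases j <;> assumption

lemma det_eq (x : SL2' F) : (x : Matrix (Fin 2) (Fin 2) F) 0 0 * (x : Matrix (Fin 2) (Fin 2) F) 1 1
    - (x : Matrix (Fin 2) (Fin 2) F) 0 1 * (x : Matrix (Fin 2) (Fin 2) F) 1 0 = 1 := by
  have := x.2
  rwa [det_fin_two] at this

lemma mul_ent (x y : SL2' F) (i j : Fin 2) :
    ((x * y : SL2' F) : Matrix (Fin 2) (Fin 2) F) i j =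
      (x : Matrix (Fin 2) (Fin 2) F) i 0 * (y : Matrix (Fin 2) (Fin 2) F) 0 j
        + (x : Matrix (Fin 2) (Fin 2) F) i 1 * (y : Matrix (Fin 2) (Fin 2) F) 1 j := by
  simp [Matrix.mul_apply, Fin.sum_univ_two]

lemma mem_center_of (A : SL2' F) (h01 : (A : Matrix (Fin 2) (Fin 2) F) 0 1 = 0)
    (h10 : (A : Matrix (Fin 2) (Fin 2) F) 1 0 = 0)
    (h : (A : Matrix (Fin 2) (Fin 2) F) 0 0 = (A : Matrix (Fin 2) (Fin 2) F) 1 1) :
    A ∈ Subgroup.center (SL2' F) := by
  rw [Matrix.SpecialLinearGroup.mem_center_iff]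
  refine ⟨(A : Matrix (Fin 2) (Fin 2) F) 0 0, ?_, ?_⟩
  · have := det_eq A
    simp only [Fintype.card_fin]
    rw [h01, ← h] at this
    linear_combination this
  · ext i j
    fin_cases i <;> fin_cases j <;> simp [h01, h10, h]

lemma center_ent (A : SL2' F) (hA : A ∈ Subgroup.center (SL2' F)) :
    (A : Matrix (Fin 2) (Fin 2) F) 0 1 = 0 ∧ (A : Matrix (Fin 2) (Fin 2) F) 1 0 = 0 ∧
      (A : Matrix (Fin 2) (Fin 2) F) 0 0 = (A : Matrix (Fin 2) (Fin 2) F) 1 1 := by
  rw [Matrix.SpecialLinearGroup.mem_center_iff] at hA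
  obtain ⟨r, _, hr⟩ := hA
  rw [← hr]
  simp

lemma pr_eq_one_iff (A : SL2' F) : pr A = 1 ↔ A ∈ Subgroup.center (SL2' F) := by
  unfold pr
  rw [QuotientGroup.mk'_apply, QuotientGroup.eq_one_iff]

/-- Cayley–Hamilton in `SL₂`. -/
lemma sq_eq (g : SL2' F) : ((g : Matrix (Fin 2) (Fin 2) F)) * g =
    (trc g) • (g : Matrix (Fin 2) (Fin 2) F) - 1 := by
  have hd := det_eq g
  unfold trc
  ext i j
  fin_cases i <;> fin_cases j <;>
    simp [Matrix.mul_apply, Fin.sum_univ_two] <;> first | linear_combination hd | linear_combination -hd | ring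

/-- An involution of `PSL₂` comes from a trace-zero matrix. -/
lemma trc_zero_of_invol (A : SL2' F) (h1 : pr A ≠ 1) (h2 : (pr A) ^ 2 = 1) : trc A = 0 := by
  have hc : A * A ∈ Subgroup.center (SL2' F) := by
    rw [← pr_eq_one_iff, map_mul, ← pow_two, h2]
  obtain ⟨h01, h10, h00⟩ := center_ent _ hc
  simp only [mul_ent] at h01 h10 h00
  have hd := det_eq A
  by_contra hne
  unfold trc at hne
  apply h1
  rw [pr_eq_one_iff]
  have e01 : (A : Matrix (Fin 2) (Fin 2) F) 0 1 = 0 := by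
    have : (A : Matrix (Fin 2) (Fin 2) F) 0 1 * ((A : Matrix (Fin 2) (Fin 2) F) 0 0 + (A : Matrix (Fin 2) (Fin 2) F) 1 1) = 0 := by
      linear_combination h01
    exact (mul_eq_zero.1 this).resolve_right hne
  have e10 : (A : Matrix (Fin 2) (Fin 2) F) 1 0 = 0 := by
    have : (A : Matrix (Fin 2) (Fin 2) F) 1 0 * ((A : Matrix (Fin 2) (Fin 2) F) 0 0 + (A : Matrix (Fin 2) (Fin 2) F) 1 1) = 0 := by
      linear_combination h10
    exact (mul_eq_zero.1 this).resolve_right hne
  apply mem_center_of _ e01 e10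
  have : ((A : Matrix (Fin 2) (Fin 2) F) 0 0 - (A : Matrix (Fin 2) (Fin 2) F) 1 1) * ((A : Matrix (Fin 2) (Fin 2) F) 0 0 + (A : Matrix (Fin 2) (Fin 2) F) 1 1) = 0 := by
    linear_combination h00
  have := (mul_eq_zero.1 this).resolve_right hne
  linear_combination this

/-- A trace-zero element gives an element of square one in `PSL₂`. -/
lemma pr_sq_of_trc (C : SL2' F) (h : trc C = 0) : (pr C) ^ 2 = 1 := by
  rw [pow_two, ← map_mul, pr_eq_one_iff]
  unfold trc at h
  have h' : (C : Matrix (Fin 2) (Fin 2) F) 1 1 = - (C : Matrix (Fin 2) (Fin 2) F) 0 0 := by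
    linear_combination h
  have hd := det_eq C
  apply mem_center_of
  · simp only [mul_ent]; rw [h']; ring
  · simp only [mul_ent]; rw [h']; ring
  · simp only [mul_ent]; rw [h']; ring

/-- If a power of `g` is a scalar `ε` with `ε² = 1`, then the image of `g` in `PSL₂` has odd order
whenever the exponent is odd. -/
lemma odd_of_pow_scalar (g : SL2' F) (k : ℕ) (hk : Odd k) (ε : F)
    (h : ((g : Matrix (Fin 2) (Fin 2) F)) ^ k = ε • (1 : Matrix (Fin 2) (Fin 2) F)) :
    Odd (orderOf (pr g)) := by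
  have : (pr g) ^ k = 1 := by
    rw [← map_pow, pr_eq_one_iff]
    apply mem_center_of
    · rw [Matrix.SpecialLinearGroup.coe_pow, h]; simp
    · rw [Matrix.SpecialLinearGroup.coe_pow, h]; simp
    · rw [Matrix.SpecialLinearGroup.coe_pow, h]; simp
  exact Odd.of_dvd_nat hk (orderOf_dvd_of_pow_eq_one this)

/-- The Lucas sequence of the trace. -/
def luc (τ : F) : ℕ → F
  | 0 => 0
  | 1 => 1
  | (n + 2) => τ * luc τ (n + 1) - luc τ n

lemma pow_luc (g : SL2' F) (n : ℕ) :
    ((g : Matrix (Fin 2) (Fin 2) F)) ^ (n + 1) =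
      luc (trc g) (n + 1) • (g : Matrix (Fin 2) (Fin 2) F) - luc (trc g) n • (1 : Matrix (Fin 2) (Fin 2) F) := by
  induction n with
  | zero => simp [luc]
  | succ n ih =>
    rw [pow_succ, ih, sub_mul, Matrix.smul_mul, Matrix.smul_mul, sq_eq, Matrix.one_mul]
    simp only [luc]
    ext i j
    simp only [Matrix.sub_apply, Matrix.smul_apply, smul_eq_mul]
    ring

/-- If the Lucas number at an odd index vanishes, the image in `PSL₂` has odd order. -/
lemma odd_of_luc (g : SL2' F) (k : ℕ) (hk : Odd k) (h : luc (trc g) k = 0) :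
    Odd (orderOf (pr g)) := by
  obtain ⟨m, rfl⟩ := hk
  apply odd_of_pow_scalar g (2 * m + 1) ⟨m, rfl⟩ (- luc (trc g) (2 * m))
  rw [pow_luc, h]
  simp

lemma luc_two (ε : F) (hε : ε ^ 2 = 1) (n : ℕ) :
    luc (2 * ε) (n + 1) = ((n : F) + 1) * ε ^ n := by
  induction n using Nat.strong_induction_on with
  | _ n ih =>
    match n with
    | 0 => simp [luc]
    | 1 =>
      simp only [luc]
      push_cast; ring
    | (m + 2) =>
      have h1 := ih (m + 1) (by omega)
      have h2 := ih m (by omega)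
      change 2 * ε * luc (2 * ε) (m + 2) - luc (2 * ε) (m + 1) = _
      rw [h1, h2]
      push_cast
      have e1 : ε ^ (m + 2) = ε ^ m := by
        rw [pow_add, hε, mul_one]
      have e2 : ε * ε ^ (m + 1) = ε ^ m := by
        rw [← e1]; ring
      linear_combination (2 * ((m : F) + 1 + 1)) * e2 - ((m : F) + 1 + 1) * (ε ^ 0 * 0) - ((m : F) + 1) * (e2 - e2) - ((m : F) + 1) * 0 + (- ((m : F) + 1 + 1 + 1)) * e1

/-- Trace `2ε`, `ε² = 1`, in odd characteristic: odd order in `PSL₂`. -/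
lemma odd_of_trc_two [Fintype F] (g : SL2' F) (ε : F) (hε : ε ^ 2 = 1) (h : trc g = 2 * ε)
    (h2 : ringChar F ≠ 2) : Odd (orderOf (pr g)) := by
  have hp : (ringChar F).Prime := CharP.char_is_prime F _
  have hodd : Odd (ringChar F) := hp.odd_of_ne_two h2
  apply odd_of_luc g (ringChar F) hodd
  obtain ⟨n, hn⟩ : ∃ n, ringChar F = n + 1 := ⟨ringChar F - 1, by have := hp.pos; omega⟩
  rw [h, hn, luc_two ε hε]
  have : ((n : F) + 1) = 0 := by
    have := CharP.cast_eq_zero F (ringChar F)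
    rw [hn] at this
    push_cast at this
    exact this
  rw [this, zero_mul]

lemma luc_split (t : F) (ht : t ≠ 0) (n : ℕ) :
    (t - t⁻¹) * luc (t + t⁻¹) (n + 1) = t ^ (n + 1) - t⁻¹ ^ (n + 1) ∧
    (t - t⁻¹) * luc (t + t⁻¹) n = t ^ n - t⁻¹ ^ n := by
  induction n with
  | zero => simp [luc]
  | succ n ih =>
    refine ⟨?_, ih.1⟩
    change (t - t⁻¹) * ((t + t⁻¹) * luc (t + t⁻¹) (n + 1) - luc (t + t⁻¹) n) = _
    have h1 := ih.1
    have h2 := ih.2
    have e : t * t⁻¹ = 1 := mul_inv_cancel₀ ht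
    have e1 : t ^ (n + 1 + 1) = t ^ (n + 1) * t := by ring
    have e2 : t⁻¹ ^ (n + 1 + 1) = t⁻¹ ^ (n + 1) * t⁻¹ := by ring
    have e3 : t ^ (n + 1) * t⁻¹ = t ^ n := by
      rw [pow_succ, mul_assoc, e, mul_one]
    have e4 : t⁻¹ ^ (n + 1) * t = t⁻¹ ^ n := by
      rw [pow_succ, mul_assoc, mul_comm t⁻¹ t, e, mul_one]
    rw [e1, e2]
    linear_combination (t + t⁻¹) * h1 - h2 + e3 - e4

/-- Split-torus element in characteristic with `q ≡ 3 mod 4`: odd order in `PSL₂`. -/
lemma odd_of_trc_split [Fintype F] (g : SL2' F) (t : F) (ht : t ≠ 0) (ht2 : t ^ 2 ≠ 1)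
    (h : trc g = t + t⁻¹) (hq : Fintype.card F % 4 = 3) : Odd (orderOf (pr g)) := by
  obtain ⟨k, hk⟩ : ∃ k, Fintype.card F = 4 * k + 3 := ⟨Fintype.card F / 4, by omega⟩
  apply odd_of_luc g (2 * k + 1) ⟨k, rfl⟩
  have h1 : t ^ (Fintype.card F - 1) = 1 := FiniteField.pow_card_sub_one_eq_one t ht
  have h2 : (t ^ (2 * k + 1)) ^ 2 = 1 := by
    rw [← pow_mul, ← h1]
    congr 1
    omega
  have h3 : t⁻¹ ^ (2 * k + 1) = t ^ (2 * k + 1) := by
    rw [inv_pow]
    have hne : t ^ (2 * k + 1) ≠ 0 := pow_ne_zero _ ht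
    field_simp
    rw [h2]
  have hl := (luc_split t ht (2 * k)).1
  rw [h3, sub_self] at hl
  have hne : t - t⁻¹ ≠ 0 := by
    intro h0
    apply ht2
    have : t = t⁻¹ := by linear_combination h0
    field_simp at this
    linear_combination this
  rw [h]
  exact (mul_eq_zero.1 hl).resolve_left hne

/-- Characteristic two, nonzero trace: odd order in `PSL₂`. -/
lemma odd_of_trc_ne_zero [Finite F] (g : SL2' F) (h2 : (2 : F) = 0) (h : trc g ≠ 0) :
    Odd (orderOf (pr g)) := by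
  have hodd : Odd (orderOf g) := by
    by_contra hne
    rw [Nat.not_odd_iff_even] at hne
    obtain ⟨m, hm⟩ := hne
    have hpos : 0 < orderOf g := orderOf_pos g
    have hm0 : m ≠ 0 := by omega
    obtain ⟨m', rfl⟩ : ∃ m', m = m' + 1 := ⟨m - 1, by omega⟩
    have hv : (g ^ (m' + 1)) ^ 2 = 1 := by
      rw [← pow_mul, mul_two, ← hm, pow_orderOf_eq_one]
    set v := g ^ (m' + 1) with hv_def
    have hvv : (v : Matrix (Fin 2) (Fin 2) F) * v = 1 := by
      have : ((v * v : SL2' F) : Matrix (Fin 2) (Fin 2) F) = 1 := by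
        rw [← pow_two, hv]; simp
      simpa using this
    have hsq := sq_eq v
    rw [hvv] at hsq
    have htr0 : trc v = 0 := by
      by_contra hne
      have h0 : trc v • (v : Matrix (Fin 2) (Fin 2) F) = 0 := by
        have : trc v • (v : Matrix (Fin 2) (Fin 2) F) = (2 : F) • (1 : Matrix (Fin 2) (Fin 2) F) := by
          rw [two_smul]
          rw [eq_sub_iff_add_eq] at hsq
          exact hsq.symm
        rw [this, h2, zero_smul]
      have h1 : (v : Matrix (Fin 2) (Fin 2) F) = 0 := (smul_eq_zero.1 h0).resolve_left hne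
      have hd := det_eq v
      rw [h1] at hd
      simp at hd
    have hvm : (v : Matrix (Fin 2) (Fin 2) F) = luc (trc g) (m' + 1) • (g : Matrix (Fin 2) (Fin 2) F) - luc (trc g) m' • (1 : Matrix (Fin 2) (Fin 2) F) := by
      rw [hv_def, Matrix.SpecialLinearGroup.coe_pow, pow_luc]
    have hv00 : (v : Matrix (Fin 2) (Fin 2) F) 0 0 = luc (trc g) (m' + 1) * (g : Matrix (Fin 2) (Fin 2) F) 0 0 - luc (trc g) m' := by
      rw [hvm]; simp
    have hv11 : (v : Matrix (Fin 2) (Fin 2) F) 1 1 = luc (trc g) (m' + 1) * (g : Matrix (Fin 2) (Fin 2) F) 1 1 - luc (trc g) m' := by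
      rw [hvm]; simp
    have hv01 : (v : Matrix (Fin 2) (Fin 2) F) 0 1 = luc (trc g) (m' + 1) * (g : Matrix (Fin 2) (Fin 2) F) 0 1 := by
      rw [hvm]; simp
    have hv10 : (v : Matrix (Fin 2) (Fin 2) F) 1 0 = luc (trc g) (m' + 1) * (g : Matrix (Fin 2) (Fin 2) F) 1 0 := by
      rw [hvm]; simp
    have hu0 : luc (trc g) (m' + 1) = 0 := by
      have : luc (trc g) (m' + 1) * trc g = 0 := by
        have htv : (v : Matrix (Fin 2) (Fin 2) F) 0 0 + (v : Matrix (Fin 2) (Fin 2) F) 1 1 = 0 := htr0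
        rw [hv00, hv11] at htv
        have e2 : luc (trc g) m' * 2 = 0 := by
          rw [h2, mul_zero]
        have e0 : trc g = (g : Matrix (Fin 2) (Fin 2) F) 0 0 + (g : Matrix (Fin 2) (Fin 2) F) 1 1 := rfl
        linear_combination htv + e2 + luc (trc g) (m' + 1) * e0
      exact (mul_eq_zero.1 this).resolve_right h
    rw [hu0, zero_mul] at hv01 hv10
    rw [hu0, zero_mul] at hv00 hv11
    have hd := det_eq v
    rw [hv00, hv11, hv01] at hd
    have hv1 : v = 1 := by
      have ha : (luc (trc g) m' - 1) ^ 2 = 0 := by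
        linear_combination hd + (1 - luc (trc g) m') * h2
      have ha' : luc (trc g) m' = 1 := by
        have := pow_eq_zero_iff (two_ne_zero) |>.1 ha
        linear_combination this
      apply ext2
      · rw [hv00, ha']
        simp
        linear_combination -h2
      · rw [hv01]; simp
      · rw [hv10]; simp
      · rw [hv11, ha']
        simp
        linear_combination -h2
    have : orderOf g ∣ m' + 1 := orderOf_dvd_of_pow_eq_one hv1
    have := Nat.le_of_dvd (by omega) this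
    omega
  exact Odd.of_dvd_nat hodd (orderOf_map_dvd pr g)

end Cfsg.Agent.Lib.InvolChar.PSL2Odd
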