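import Mathlib
import Cfsg.Agent.Lib.PGroups.Basic

/-!
Finite 2-groups with a maximal subgroup `C` of the centre such that `S/C` has a unique involution.
The elementwise content of that hypothesis is recorded in the predicate `Good`.
-/

set_option autoImplicit false

namespace Cfsg.Agent.Lib.InvolChar.QuatQuot

open Subgroup

variable {S : Type*} [Group S]

/-- `C` behaves like a maximal subgroup of the centre such that `S/C` has a unique involution. -/
structure Good (C : Subgroup S) : Prop where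
  le_center : C ≤ center S
  exists_out : ∃ w ∈ center S, w ∉ C
  mul_mem_of_out : ∀ z ∈ center S, ∀ w ∈ center S, z ∉ C → w ∉ C → z * w ∈ C
  center_of_sq : ∀ g : S, g ^ 2 ∈ C → g ∈ center S

theorem Good.sq_mem {C : Subgroup S} (h : Good C) {z : S} (hz : z ∈ center S) : z ^ 2 ∈ C := by
  by_cases hzC : z ∈ C
  · exact C.pow_mem hzC 2
  · rw [pow_two]
    exact h.mul_mem_of_out z hz z hz hzC hzC

theorem map_center_mem (φ : S ≃* S) {z : S} (hz : z ∈ center S) : φ z ∈ center S := by
  rw [mem_center_iff] at hz ⊢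
  intro g
  have h1 := hz (φ.symm g)
  have h2 := congrArg φ h1
  simpa using h2

theorem symm_center_mem (φ : S ≃* S) {z : S} (hz : φ z ∈ center S) : z ∈ center S := by
  have := map_center_mem φ.symm hz
  simpa using this

theorem Good.map {C : Subgroup S} (h : Good C) (φ : S ≃* S) : Good (C.map φ.toMonoidHom) := by
  have hmem : ∀ x : S, φ x ∈ C.map φ.toMonoidHom ↔ x ∈ C := by
    intro x
    constructor
    · rintro ⟨y, hy, hxy⟩
      have : y = x := φ.injective hxy
      rwa [← this]
    · intro hx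
      exact ⟨x, hx, rfl⟩
  refine ⟨?_, ?_, ?_, ?_⟩
  · rintro _ ⟨y, hy, rfl⟩
    exact map_center_mem φ (h.le_center hy)
  · obtain ⟨w, hw, hwC⟩ := h.exists_out
    exact ⟨φ w, map_center_mem φ hw, by rwa [hmem]⟩
  · intro z hz w hw hzC hwC
    have h1 : φ.symm z ∉ C := by
      rw [← hmem]; simpa using hzC
    have h2 : φ.symm w ∉ C := by
      rw [← hmem]; simpa using hwC
    have h3 := h.mul_mem_of_out _ (map_center_mem φ.symm hz) _ (map_center_mem φ.symm hw) h1 h2
    rw [← hmem] at h3
    simpa using h3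
  · intro g hg
    have h1 : φ.symm g ^ 2 ∈ C := by
      rw [← hmem]; simpa using hg
    have h2 := map_center_mem φ (h.center_of_sq _ h1)
    simpa using h2

theorem good_of_coatom [Finite S] (hS : IsPGroup 2 S) (D : Subgroup (center S)) (hD : IsCoatom D)
    [(D.map (center S).subtype).Normal]
    (hu : ∃! x : S ⧸ D.map (center S).subtype, orderOf x = 2) :
    Good (D.map (center S).subtype) := by
  classical
  haveI : Fact (Nat.Prime 2) := ⟨Nat.prime_two⟩
  set C := D.map (center S).subtype with hC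
  have hmem : ∀ z : center S, (z : S) ∈ C ↔ z ∈ D := by
    intro z
    constructor
    · rintro ⟨y, hy, hzy⟩
      have : y = z := Subtype.ext hzy
      rwa [← this]
    · intro hz
      exact ⟨z, hz, rfl⟩
  have hle : C ≤ center S := by
    rintro _ ⟨y, _, rfl⟩
    exact y.2
  have hZp : IsPGroup 2 (center S) := hS.to_subgroup _
  have hidx : D.index = 2 := Cfsg.Agent.Lib.PGroups.Basic.index_eq_of_isCoatom hZp hD
  have hout : ∃ w ∈ center S, w ∉ C := by
    obtain ⟨w, hw⟩ : ∃ w, w ∉ D := by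
      by_contra hcon
      push Not at hcon
      exact hD.1 (eq_top_iff.mpr fun x _ => hcon x)
    exact ⟨w.1, w.2, by rwa [hmem]⟩
  have hmul : ∀ z ∈ center S, ∀ w ∈ center S, z ∉ C → w ∉ C → z * w ∈ C := by
    intro z hz w hw hzC hwC
    have h1 : (⟨z, hz⟩ : center S) ∉ D := by rwa [← hmem]
    have h2 : (⟨w, hw⟩ : center S) ∉ D := by rwa [← hmem]
    have h3 := (mul_mem_iff_of_index_two hidx).mpr (iff_of_false h1 h2)
    have h4 := (hmem _).2 h3
    exact h4
  refine ⟨hle, hout, hmul, ?_⟩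
  intro g hg
  obtain ⟨w, hw, hwC⟩ := hout
  obtain ⟨t, ht, huniq⟩ := hu
  have hw2 : w * w ∈ C := hmul w hw w hw hwC hwC
  have hwo : orderOf (w : S ⧸ C) = 2 := by
    apply orderOf_eq_prime
    · rw [← QuotientGroup.mk_pow, QuotientGroup.eq_one_iff, pow_two]; exact hw2
    · rw [Ne, QuotientGroup.eq_one_iff]; exact hwC
  by_cases hgC : g ∈ C
  · exact hle hgC
  have hgo : orderOf (g : S ⧸ C) = 2 := by
    apply orderOf_eq_prime
    · rw [← QuotientGroup.mk_pow, QuotientGroup.eq_one_iff]; exact hg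
    · rw [Ne, QuotientGroup.eq_one_iff]; exact hgC
  have h1 : (g : S ⧸ C) = (w : S ⧸ C) := (huniq _ hgo).trans (huniq _ hwo).symm
  have h2 : g⁻¹ * w ∈ C := QuotientGroup.eq.1 h1
  have h3 : g = w * (g⁻¹ * w)⁻¹ := by group
  rw [h3]
  exact mul_mem hw (inv_mem (hle h2))

/-- If `S` is a non-abelian 2-group, there is `g ∉ Z(S)` with `g² ∈ Z(S)`. -/
theorem exists_sq_mem_center (hS : IsPGroup 2 S) (hnc : ¬ IsMulCommutative S) :
    ∃ g : S, g ∉ center S ∧ g ^ 2 ∈ center S := by
  classical
  obtain ⟨g, hg⟩ : ∃ g : S, g ∉ center S := by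
    by_contra hcon
    push Not at hcon
    exact hnc (center_eq_top_iff.mp (eq_top_iff.mpr fun x _ => hcon x))
  have hex : ∃ k : ℕ, g ^ (2 ^ k) ∈ center S := by
    obtain ⟨k, hk⟩ := hS g
    exact ⟨k, by rw [hk]; exact one_mem _⟩
  have hk0 : Nat.find hex ≠ 0 := by
    intro h0
    have := Nat.find_spec hex
    rw [h0] at this
    simp at this
    exact hg this
  obtain ⟨k, hk⟩ := Nat.exists_eq_succ_of_ne_zero hk0
  refine ⟨g ^ (2 ^ k), ?_, ?_⟩
  · apply Nat.find_min hex
    omega
  · have := Nat.find_spec hex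
    rw [hk] at this
    rw [← pow_mul, ← pow_succ]
    exact this

/-- In an abelian group, if `|A^{2^j}| = |Ω₁(A)|` and `A` has exponent dividing `2^{j+1}`,
the kernel of the `2^j`-power map is exactly `A²`. -/
theorem exists_sq_of_pow_eq_one {A : Type*} [CommGroup A] [Finite A] (j : ℕ)
    (h1 : ∀ z : A, z ^ (2 ^ (j + 1)) = 1)
    (h4 : Nat.card (powMonoidHom (2 ^ j) : A →* A).range = Nat.card (powMonoidHom 2 : A →* A).ker)
    (z : A) (hz : z ^ (2 ^ j) = 1) : ∃ w : A, w ^ 2 = z := by
  have hle : (powMonoidHom 2 : A →* A).range ≤ (powMonoidHom (2 ^ j) : A →* A).ker := by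
    rintro _ ⟨w, rfl⟩
    rw [MonoidHom.mem_ker, powMonoidHom_apply, powMonoidHom_apply, ← pow_mul, ← pow_succ']
    exact h1 w
  have hc1 := (powMonoidHom (2 ^ j) : A →* A).ker.card_mul_index
  have hc2 := (powMonoidHom 2 : A →* A).ker.card_mul_index
  rw [Subgroup.index_ker] at hc1 hc2
  have hc3 : Nat.card (powMonoidHom (2 ^ j) : A →* A).ker = Nat.card (powMonoidHom 2 : A →* A).range := by
    have hpos : 0 < Nat.card (powMonoidHom 2 : A →* A).ker := Nat.card_pos
    apply Nat.eq_of_mul_eq_mul_right hpos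
    calc Nat.card (powMonoidHom (2 ^ j) : A →* A).ker * Nat.card (powMonoidHom 2 : A →* A).ker
        = Nat.card (powMonoidHom (2 ^ j) : A →* A).ker * Nat.card (powMonoidHom (2 ^ j) : A →* A).range := by
          rw [h4]
      _ = Nat.card A := hc1
      _ = Nat.card (powMonoidHom 2 : A →* A).ker * Nat.card (powMonoidHom 2 : A →* A).range := hc2.symm
      _ = Nat.card (powMonoidHom 2 : A →* A).range * Nat.card (powMonoidHom 2 : A →* A).ker := by ring
  have heq := Subgroup.eq_of_le_of_card_ge hle hc3.le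
  have hzk : z ∈ (powMonoidHom (2 ^ j) : A →* A).ker := by
    rw [MonoidHom.mem_ker]; exact hz
  rw [← heq] at hzk
  obtain ⟨w, hw⟩ := hzk
  exact ⟨w, hw⟩

end Cfsg.Agent.Lib.InvolChar.QuatQuot
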