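import Mathlib

/-!
# A quadratic form lemma for the free `F₂D₈`-module of rank one

`V` is an elementary abelian 2-group with involutory additive maps `a`, `b` satisfying `abab = baba`.
The form `s` is invariant and the subgroup `(a-1)(b-1)V + (b-1)(a-1)V` is totally singular
as soon as the polar form satisfies the vanishing conditions listed below.
-/

set_option autoImplicit false

namespace Cfsg.Agent.Lib.InvolChar.RuQuad

variable {V : Type*} [AddCommGroup V]

/-- The hypotheses. -/
structure QuadData (a b : V →+ V) (s : V → ZMod 2) (c : V → V → ZMod 2) : Prop where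
  two : ∀ x : V, x + x = 0
  aa : ∀ x, a (a x) = x
  bb : ∀ x, b (b x) = x
  ab4 : ∀ x, a (b (a (b x))) = b (a (b (a x)))
  polar : ∀ x y, s (x + y) = s x + s y + c x y
  csymm : ∀ x y, c x y = c y x
  cadd : ∀ x y z, c (x + y) z = c x z + c y z
  sa : ∀ x, s (a x) = s x
  sb : ∀ x, s (b x) = s x
  h1 : ∀ x, c x (b x) = 0
  h2 : ∀ x, c x (a (b (a x))) = 0
  h3 : ∀ x, c x (a (b (a (b x)))) = 0

/-- `A = a + 1`. -/
def opA (a : V →+ V) : V →+ V := a + AddMonoidHom.id V

lemma opA_apply (a : V →+ V) (x : V) : opA a x = a x + x := rfl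

variable {a b : V →+ V} {s : V → ZMod 2} {c : V → V → ZMod 2}

lemma z2 (x : ZMod 2) : x + x = 0 := CharTwo.add_self_eq_zero x

namespace QuadData

variable (D : QuadData a b s c)
include D

lemma cadd' (x y z : V) : c x (y + z) = c x y + c x z := by
  rw [D.csymm, D.cadd, D.csymm y, D.csymm z]

lemma c_zero (x : V) : c 0 x = 0 := by
  have := D.cadd 0 0 x
  rw [add_zero] at this
  have h2 := z2 (c 0 x)
  rw [← this] at h2
  simpa using h2

lemma s_zero : s 0 = 0 := by
  have := D.polar 0 0
  rw [add_zero, D.c_zero, add_zero, z2] at this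
  exact this

lemma c_self (x : V) : c x x = 0 := by
  have := D.polar x x
  rw [D.two, D.s_zero, z2, zero_add] at this
  exact this.symm

lemma ca (x y : V) : c (a x) (a y) = c x y := by
  have h1 := D.polar (a x) (a y)
  have h2 := D.polar x y
  rw [← map_add, D.sa, D.sa, D.sa] at h1
  have h3 : c (a x) (a y) = c x y := by
    have : s x + s y + c (a x) (a y) = s x + s y + c x y := by rw [← h1, h2]
    exact add_left_cancel this
  exact h3

lemma cb (x y : V) : c (b x) (b y) = c x y := by
  have h1 := D.polar (b x) (b y)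
  have h2 := D.polar x y
  rw [← map_add, D.sb, D.sb, D.sb] at h1
  have : s x + s y + c (b x) (b y) = s x + s y + c x y := by rw [← h1, h2]
  exact add_left_cancel this

lemma ca' (x y : V) : c (a x) y = c x (a y) := by
  have := D.ca x (a y)
  rwa [D.aa] at this

lemma cb' (x y : V) : c (b x) y = c x (b y) := by
  have := D.cb x (a y)
  have h2 := D.cb x (b y)
  rwa [D.bb] at h2

lemma a_eq (y : V) : a y = opA a y + y := by
  rw [opA_apply, add_assoc, D.two, add_zero]

lemma b_eq (y : V) : b y = opA b y + y := by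
  rw [opA_apply, add_assoc, D.two, add_zero]

lemma a_A (x : V) : a (opA a x) = opA a x := by
  simp only [opA_apply, map_add, D.aa, add_comm]

lemma b_B (x : V) : b (opA b x) = opA b x := by
  simp only [opA_apply, map_add, D.bb, add_comm]

lemma A_A (x : V) : opA a (opA a x) = 0 := by
  rw [opA_apply, D.a_A, D.two]

lemma B_B (x : V) : opA b (opA b x) = 0 := by
  rw [opA_apply, D.b_B, D.two]

/-- Expansion of the norm `BABA`. -/
lemma N_expand (x : V) : opA b (opA a (opA b (opA a x))) =
    b (a (b (a x))) + b (a (b x)) + a (b (a x)) + b (a x) + a (b x) + a x + b x + x := by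
  simp only [opA_apply, map_add, D.aa, D.bb]
  have h1 := D.two x
  have h2 := D.two (a x)
  have h3 := D.two (b x)
  have h5 := D.two (b (a x))
  calc _ = b (a (b (a x))) + b (a (b x)) + a (b (a x)) + b (a x) + a (b x) + a x + b x + x +
        (x + x) + (a x + a x) + (b x + b x) + (b (a x) + b (a x)) := by abel
    _ = _ := by rw [h1, h2, h3, h5]; simp

lemma N_expand' (x : V) : opA a (opA b (opA a (opA b x))) =
    a (b (a (b x))) + a (b (a x)) + b (a (b x)) + a (b x) + b (a x) + b x + a x + x := by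
  simp only [opA_apply, map_add, D.aa, D.bb]
  have h1 := D.two x
  have h2 := D.two (a x)
  have h3 := D.two (b x)
  have h4 := D.two (a (b x))
  calc _ = a (b (a (b x))) + a (b (a x)) + b (a (b x)) + a (b x) + b (a x) + b x + a x + x +
        (x + x) + (a x + a x) + (b x + b x) + (a (b x) + a (b x)) := by abel
    _ = _ := by rw [h1, h2, h3, h4]; simp

lemma N_sym (x : V) : opA a (opA b (opA a (opA b x))) = opA b (opA a (opA b (opA a x))) := by
  rw [D.N_expand, D.N_expand', D.ab4]
  abel

/-- `A N = 0`. -/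
lemma A_N (x : V) : opA a (opA b (opA a (opA b (opA a x)))) = 0 := by
  rw [D.N_sym, D.A_A]
  simp only [map_zero]

/-- `B N = 0`. -/
lemma B_N (x : V) : opA b (opA b (opA a (opA b (opA a x)))) = 0 := D.B_B _

lemma s_A (x : V) : s (opA a x) = c (a x) x := by
  rw [opA_apply, D.polar, D.sa, z2, zero_add]

lemma s_B (x : V) : s (opA b x) = c (b x) x := by
  rw [opA_apply, D.polar, D.sb, z2, zero_add]

lemma c_A_left (x y : V) : c (opA a x) y = c x (opA a y) := by
  rw [opA_apply, opA_apply, D.cadd, D.cadd', D.ca']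

lemma c_B_left (x y : V) : c (opA b x) y = c x (opA b y) := by
  rw [opA_apply, opA_apply, D.cadd, D.cadd', D.cb']

lemma c_A_A (x y : V) : c (opA a x) (opA a y) = 0 := by
  rw [D.c_A_left, D.A_A, D.csymm, D.c_zero]

lemma c_B_B (x y : V) : c (opA b x) (opA b y) = 0 := by
  rw [D.c_B_left, D.B_B, D.csymm, D.c_zero]

/-- The mixed term `c (a b w) w` equals `c (a w) (b w)`. -/
lemma c_ab (w : V) : c (a (b w)) w = c (a w) (b w) := by
  rw [D.ca', D.csymm]

lemma c_ba (w : V) : c (b (a w)) w = c (a w) (b w) := by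
  rw [D.cb']

lemma s_AB_aux (w : V) : s (opA a (opA b w)) = c (b (a (b w))) w + c (a w) w := by
  rw [D.s_A]
  simp only [opA_apply, map_add, D.cadd, D.cadd']
  have e1 : c (a (b w)) (b w) = c (b (a (b w))) w := by
    rw [← D.cb (a (b w)) (b w), D.bb]
  rw [e1, D.c_ab]
  generalize c (b (a (b w))) w = p
  generalize c (a w) (b w) = q
  generalize c (a w) w = r
  revert p q r
  decide

lemma s_BA (w : V) : s (opA b (opA a w)) = 0 := by
  rw [D.s_B]
  simp only [opA_apply, map_add, D.cadd, D.cadd']
  have e1 : c (b (a w)) (a w) = c (a (b (a w))) w := by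
    rw [← D.ca (b (a w)) (a w), D.aa]
  rw [e1, D.c_ba, D.csymm (a (b (a w))), D.h2, D.csymm (b w) (a w), D.csymm (b w) w, D.h1]
  simp [z2]

/-- The consequence of the vanishing on the socle. -/
theorem s_AB (hN : ∀ x y, c (opA b (opA a (opA b (opA a x)))) y = 0) (w : V) :
    s (opA a (opA b w)) = 0 := by
  rw [D.s_AB_aux]
  have h := hN w w
  rw [D.N_expand] at h
  simp only [D.cadd] at h
  rw [← D.ab4, D.csymm _ w, D.h3, D.csymm (a (b (a w))) w, D.h2, D.c_ba, D.c_ab,
    D.csymm (b w) w, D.h1, D.c_self] at h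
  generalize c (b (a (b w))) w = p at *
  generalize c (a w) (b w) = q at *
  generalize c (a w) w = r at *
  revert p q r
  decide

/-- Total singularity. -/
theorem singular (hN : ∀ x y, c (opA b (opA a (opA b (opA a x)))) y = 0) (v v' w w' : V) :
    s (opA a (opA b v) + opA b (opA a v')) = 0 ∧
    c (opA a (opA b v) + opA b (opA a v')) (opA a (opA b w) + opA b (opA a w')) = 0 := by
  have mixed : ∀ p q, c (opA a (opA b p)) (opA b (opA a q)) = 0 := by
    intro p q
    rw [D.c_A_left, D.c_B_left]
    rw [D.csymm]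
    exact hN q p
  constructor
  · rw [D.polar, D.s_AB hN, D.s_BA, mixed]
    simp
  · simp only [D.cadd, D.cadd']
    rw [D.c_A_A, D.c_B_B, mixed, D.csymm (opA b (opA a v')), mixed]
    simp

/-- The subgroup `(AB)V + (BA)V`. -/
def subL (a b : V →+ V) : AddSubgroup V :=
  ((opA a).comp (opA b)).range ⊔ ((opA b).comp (opA a)).range

omit D in
lemma mem_subL {a b : V →+ V} {x : V} :
    x ∈ subL a b ↔ ∃ v v', x = opA a (opA b v) + opA b (opA a v') := by
  rw [subL, AddSubgroup.mem_sup]
  constructor
  · rintro ⟨_, ⟨v, rfl⟩, _, ⟨v', rfl⟩, rfl⟩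
    exact ⟨v, v', rfl⟩
  · rintro ⟨v, v', rfl⟩
    exact ⟨_, ⟨v, rfl⟩, _, ⟨v', rfl⟩, rfl⟩

lemma a_subL {x : V} (hx : x ∈ subL a b) : a x ∈ subL a b := by
  have : subL a b ≤ (subL a b).comap a := by
    apply sup_le
    · rintro _ ⟨v, rfl⟩
      rw [AddSubgroup.mem_comap, AddMonoidHom.comp_apply, D.a_A]
      exact AddSubgroup.mem_sup_left ⟨v, rfl⟩
    · rintro _ ⟨v, rfl⟩
      rw [AddSubgroup.mem_comap, AddMonoidHom.comp_apply]
      have e : a (opA b (opA a v)) = opA a (opA b (opA a v)) + opA b (opA a v) := D.a_eq _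
      rw [e]
      exact add_mem (AddSubgroup.mem_sup_left ⟨_, rfl⟩) (AddSubgroup.mem_sup_right ⟨_, rfl⟩)
  exact this hx

lemma b_subL {x : V} (hx : x ∈ subL a b) : b x ∈ subL a b := by
  have : subL a b ≤ (subL a b).comap b := by
    apply sup_le
    · rintro _ ⟨v, rfl⟩
      rw [AddSubgroup.mem_comap, AddMonoidHom.comp_apply]
      have e : b (opA a (opA b v)) = opA b (opA a (opA b v)) + opA a (opA b v) := D.b_eq _
      rw [e]
      exact add_mem (AddSubgroup.mem_sup_right ⟨_, rfl⟩) (AddSubgroup.mem_sup_left ⟨_, rfl⟩)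
    · rintro _ ⟨v, rfl⟩
      rw [AddSubgroup.mem_comap, AddMonoidHom.comp_apply, D.b_B]
      exact AddSubgroup.mem_sup_right ⟨v, rfl⟩
  exact this hx

end QuadData

/-- Adding an element with vanishing double at most doubles the index. -/
lemma index_step [Finite V] (L : AddSubgroup V) (x : V) (hx : x + x = 0) :
    L.index ≤ 2 * (L ⊔ AddSubgroup.zmultiples x).index := by
  classical
  set L' := L ⊔ AddSubgroup.zmultiples x with hL'
  have hLL' : L ≤ L' := le_sup_left
  have h1 := AddSubgroup.relIndex_mul_index hLL'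
  have hmem : ∀ y ∈ L', y ∈ L ∨ y + x ∈ L := by
    intro y hy
    rw [hL', AddSubgroup.mem_sup] at hy
    obtain ⟨l, hl, m, ⟨n, rfl⟩, rfl⟩ := hy
    have hn : ∀ n : ℤ, n • x = 0 ∨ n • x = x := by
      intro n
      rcases Int.even_or_odd' n with ⟨k, rfl | rfl⟩
      · left
        rw [mul_comm, mul_zsmul, two_zsmul, hx, zsmul_zero]
      · right
        rw [add_zsmul, mul_comm, mul_zsmul, two_zsmul, hx, zsmul_zero, zero_add, one_zsmul]
    rcases hn n with h | h
    · left
      simp only [h, add_zero]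
      exact hl
    · right
      simp only at h ⊢
      rw [h, add_assoc, hx, add_zero]
      exact hl
  have h2 : L.relIndex L' ≤ 2 := by
    let f : ↥L' → Bool := fun y => decide ((y : V) ∈ L)
    have inj : Function.Injective (fun q : ↥L' ⧸ L.addSubgroupOf L' => f q.out) := by
      intro q₁ q₂ hq
      simp only [f, decide_eq_decide] at hq
      rw [← QuotientAddGroup.out_eq' q₁, ← QuotientAddGroup.out_eq' q₂]
      apply QuotientAddGroup.eq.mpr
      rw [AddSubgroup.mem_addSubgroupOf]
      set o₁ := q₁.out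
      set o₂ := q₂.out
      by_cases h₁ : (o₁ : V) ∈ L
      · simp only [AddSubgroup.coe_add, NegMemClass.coe_neg]
        exact add_mem (neg_mem h₁) (hq.mp h₁)
      · have h₂ : (o₂ : V) ∉ L := fun h => h₁ (hq.mpr h)
        have a₁ := (hmem _ o₁.2).resolve_left h₁
        have a₂ := (hmem _ o₂.2).resolve_left h₂
        simp only [AddSubgroup.coe_add, NegMemClass.coe_neg]
        have e : -(o₁ : V) + o₂ = -((o₁ : V) + x) + ((o₂ : V) + x) := by abel
        rw [e]
        exact add_mem (neg_mem a₁) a₂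
    have := Nat.card_le_card_of_injective _ inj
    simpa [AddSubgroup.relIndex, AddSubgroup.index] using this
  calc L.index = L.relIndex L' * L'.index := h1.symm
    _ ≤ 2 * L'.index := Nat.mul_le_mul_right _ h2

/-- The index bound, given that `e` generates `V` as a module. -/
theorem QuadData.index_subL [Finite V] (D : QuadData a b s c) (e : V)
    (hgen : ∀ K : AddSubgroup V, e ∈ K → (∀ x ∈ K, a x ∈ K) → (∀ x ∈ K, b x ∈ K) → K = ⊤) :
    (QuadData.subL a b).index ≤ 8 := by
  set L := QuadData.subL a b with hL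
  set L₁ := L ⊔ AddSubgroup.zmultiples e with hL₁
  set L₂ := L₁ ⊔ AddSubgroup.zmultiples (opA a e) with hL₂
  set L₃ := L₂ ⊔ AddSubgroup.zmultiples (opA b e) with hL₃
  have h₁ : L.index ≤ 2 * L₁.index := index_step L e (D.two e)
  have h₂ : L₁.index ≤ 2 * L₂.index := index_step L₁ (opA a e) (D.two _)
  have h₃ : L₂.index ≤ 2 * L₃.index := index_step L₂ (opA b e) (D.two _)
  have mL : L ≤ L₃ := le_sup_left.trans (le_sup_left.trans le_sup_left)
  have me : e ∈ L₃ := (le_sup_left.trans le_sup_left : L₁ ≤ L₃)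
    ((le_sup_right : AddSubgroup.zmultiples e ≤ L₁) (AddSubgroup.mem_zmultiples e))
  have mA : opA a e ∈ L₃ := (le_sup_left : L₂ ≤ L₃)
    ((le_sup_right : AddSubgroup.zmultiples (opA a e) ≤ L₂) (AddSubgroup.mem_zmultiples _))
  have mB : opA b e ∈ L₃ :=
    (le_sup_right : AddSubgroup.zmultiples (opA b e) ≤ L₃) (AddSubgroup.mem_zmultiples _)
  have mABe : opA a (opA b e) ∈ L₃ := mL (QuadData.mem_subL.mpr ⟨e, 0, by simp⟩)
  have mBAe : opA b (opA a e) ∈ L₃ := mL (QuadData.mem_subL.mpr ⟨0, e, by simp⟩)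
  have inva : L₃ ≤ L₃.comap a := by
    refine sup_le (sup_le (sup_le ?_ ?_) ?_) ?_
    · intro x hx
      exact mL (D.a_subL hx)
    · rw [AddSubgroup.zmultiples_le]
      have : a e = opA a e + e := by rw [opA_apply, add_assoc, D.two, add_zero]
      rw [AddSubgroup.mem_comap, this]
      exact add_mem mA me
    · rw [AddSubgroup.zmultiples_le, AddSubgroup.mem_comap, D.a_A]
      exact mA
    · rw [AddSubgroup.zmultiples_le]
      have : a (opA b e) = opA a (opA b e) + opA b e := D.a_eq _
      rw [AddSubgroup.mem_comap, this]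
      exact add_mem mABe mB
  have invb : L₃ ≤ L₃.comap b := by
    refine sup_le (sup_le (sup_le ?_ ?_) ?_) ?_
    · intro x hx
      exact mL (D.b_subL hx)
    · rw [AddSubgroup.zmultiples_le]
      have : b e = opA b e + e := by rw [opA_apply, add_assoc, D.two, add_zero]
      rw [AddSubgroup.mem_comap, this]
      exact add_mem mB me
    · rw [AddSubgroup.zmultiples_le]
      have : b (opA a e) = opA b (opA a e) + opA a e := D.b_eq _
      rw [AddSubgroup.mem_comap, this]
      exact add_mem mBAe mA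
    · rw [AddSubgroup.zmultiples_le, AddSubgroup.mem_comap, D.b_B]
      exact mB
  have htop : L₃ = ⊤ := hgen L₃ me (fun x hx => inva hx) (fun x hx => invb hx)
  rw [htop, AddSubgroup.index_top] at h₃
  omega

end Cfsg.Agent.Lib.InvolChar.RuQuad
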