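import Mathlib
import Cfsg.Agent.Lib.PGroups.Basic

/-!
# Rudvalis-type Sylow 2-groups: the structure of `T`, first stage

`T` is a 2-group of order at least `2^14`, `|Z₄(T)| = 16`, `W = C_T(Z₃(T))`, `|Φ(W)| ≤ 8` and every
subgroup of `W` of index at most 16 contains `Φ(W)`.
-/

set_option autoImplicit false

namespace Cfsg.Agent.Lib.InvolChar.RuSylow

open scoped commutatorElement
open Cfsg.Agent.Lib.PGroups.Basic

variable {T : Type*} [Group T]

/-- Bounding an index by a map separating cosets. -/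
lemma index_le_of_map [Finite T] {H : Subgroup T} {α : Type*} [Finite α] (f : T → α)
    (hf : ∀ x y, f x = f y → x⁻¹ * y ∈ H) : H.index ≤ Nat.card α := by
  have inj : Function.Injective (fun q : T ⧸ H => f q.out) := by
    intro q₁ q₂ h
    have := hf _ _ h
    rw [← QuotientGroup.out_eq' q₁, ← QuotientGroup.out_eq' q₂]
    exact QuotientGroup.eq.mpr this
  exact Nat.card_le_card_of_injective _ inj

lemma upper_stable {i : ℕ} (h : Subgroup.upperCentralSeries T i = Subgroup.upperCentralSeries T (i + 1)) (j : ℕ) :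
    Subgroup.upperCentralSeries T (i + j) = Subgroup.upperCentralSeries T i := by
  induction j with
  | zero => rfl
  | succ j ih =>
    ext x
    rw [← add_assoc, mem_upperCentralSeries_succ_iff, ih, ← mem_upperCentralSeries_succ_iff, ← h]

/-- The hypotheses. -/
structure Hyp (W : Subgroup T) : Prop where
  hT : IsPGroup 2 T
  ha : 2 ^ 14 ≤ Nat.card T
  hb : Nat.card ↥(Subgroup.upperCentralSeries T 4) = 16
  hW : W = Subgroup.centralizer ((Subgroup.upperCentralSeries T 3 : Subgroup T) : Set T)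
  hc : Nat.card ↥(frattini ↥W) ≤ 8
  hd : ∀ U : Subgroup ↥W, U.index ≤ 16 → frattini ↥W ≤ U

variable {W : Subgroup T}

lemma Hyp.upper_ne [Finite T] (h : Hyp W) {i : ℕ} (hi : i ≤ 3) :
    Subgroup.upperCentralSeries T i ≠ Subgroup.upperCentralSeries T (i + 1) := by
  intro hs
  haveI : Fact (Nat.Prime 2) := ⟨Nat.prime_two⟩
  haveI := h.hT.isNilpotent
  have hn : Subgroup.upperCentralSeries T (Group.nilpotencyClass T) = ⊤ :=
    Subgroup.upperCentralSeries_nilpotencyClass
  have hle : ∀ n, Subgroup.upperCentralSeries T n ≤ Subgroup.upperCentralSeries T 4 := by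
    intro n
    rcases le_total n i with hni | hin
    · exact upperCentralSeries_mono T (hni.trans (by omega))
    · obtain ⟨j, rfl⟩ := Nat.exists_eq_add_of_le hin
      rw [upper_stable hs]
      exact upperCentralSeries_mono T (by omega)
  have ht : Subgroup.upperCentralSeries T 4 = ⊤ := top_le_iff.mp (hn ▸ hle _)
  have := h.hb
  rw [ht] at this
  simp only [Subgroup.card_top] at this
  have := h.ha
  omega

lemma two_mul_card_le [Finite T] {H K : Subgroup T} (hHK : H ≤ K) (hne : H ≠ K) :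
    2 * Nat.card H ≤ Nat.card K := by
  have hd : Nat.card H ∣ Nat.card K := Subgroup.card_dvd_of_le hHK
  obtain ⟨k, hk⟩ := hd
  have hpos : 0 < Nat.card H := Nat.card_pos
  have hlt : Nat.card H < Nat.card K := card_lt_of_lt (lt_of_le_of_ne hHK hne)
  rw [hk] at hlt ⊢
  have : 1 < k := by
    by_contra hcon
    have : k ≤ 1 := by omega
    have : Nat.card H * k ≤ Nat.card H * 1 := Nat.mul_le_mul_left _ this
    omega
  rw [mul_comm]
  exact Nat.mul_le_mul_left _ this

lemma Hyp.card_upper [Finite T] (h : Hyp W) :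
    Nat.card ↥(Subgroup.upperCentralSeries T 1) = 2 ∧ Nat.card ↥(Subgroup.upperCentralSeries T 2) = 4 ∧
      Nat.card ↥(Subgroup.upperCentralSeries T 3) = 8 := by
  have h0 := two_mul_card_le (upperCentralSeries_mono T (show 0 ≤ 0 + 1 by omega)) (h.upper_ne (i := 0) (by omega))
  have h1 := two_mul_card_le (upperCentralSeries_mono T (show 1 ≤ 1 + 1 by omega)) (h.upper_ne (i := 1) (by omega))
  have h2 := two_mul_card_le (upperCentralSeries_mono T (show 2 ≤ 2 + 1 by omega)) (h.upper_ne (i := 2) (by omega))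
  have h3 := two_mul_card_le (upperCentralSeries_mono T (show 3 ≤ 3 + 1 by omega)) (h.upper_ne (i := 3) (by omega))
  simp only [Nat.reduceAdd, upperCentralSeries_zero] at h0 h1 h2 h3
  rw [h.hb] at h3
  simp only [Subgroup.card_bot] at h0
  omega

lemma Hyp.card_upper' [Finite T] (h : Hyp W) {i : ℕ} (hi : i ≤ 4) :
    Nat.card ↥(Subgroup.upperCentralSeries T i) = 2 ^ i := by
  obtain ⟨h1, h2, h3⟩ := h.card_upper
  interval_cases i
  · simp
  · simpa using h1
  · simpa using h2
  · simpa using h3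
  · simpa using h.hb

/-- `N ≠ ⊥` normal in a nilpotent group: `[N, G] < N`. -/
lemma commutator_top_lt [Finite T] (hT : IsPGroup 2 T) {N : Subgroup T} [N.Normal] (hN : N ≠ ⊥) :
    ⁅N, (⊤ : Subgroup T)⁆ < N := by
  haveI : Fact (Nat.Prime 2) := ⟨Nat.prime_two⟩
  haveI := hT.isNilpotent
  refine lt_of_le_of_ne (Subgroup.commutator_le_left _ _) ?_
  intro hs
  obtain ⟨n, hn⟩ := (Subgroup.nilpotent_iff_lowerCentralSeries (G := T)).mp ‹_›
  apply hN
  have key : ∀ k, N ≤ Subgroup.lowerCentralSeries (⊤ : Subgroup T) k := by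
    intro k
    induction k with
    | zero => simp
    | succ k ih =>
      rw [← hs]
      exact Subgroup.commutator_mono ih le_rfl
  exact le_bot_iff.mp (hn ▸ key n)

lemma le_upper [Finite T] (hT : IsPGroup 2 T) (e : ℕ) : ∀ N : Subgroup T, N.Normal →
    Nat.card N ≤ 2 ^ e → N ≤ Subgroup.upperCentralSeries T e := by
  induction e with
  | zero =>
    intro N _ hN
    have : Nat.card N = 1 := by
      have : 0 < Nat.card N := Nat.card_pos
      simp at hN
      omega
    rw [Subgroup.card_eq_one] at this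
    simp [this]
  | succ e ih =>
    intro N hNn hN
    by_cases hb : N = ⊥
    · simp [hb]
    have hlt := commutator_top_lt hT hb
    have hL : ⁅N, (⊤ : Subgroup T)⁆.Normal := inferInstance
    have hc := two_mul_card_le hlt.le hlt.ne
    have hc' : Nat.card ↥⁅N, (⊤ : Subgroup T)⁆ ≤ 2 ^ e := by
      rw [pow_succ] at hN
      omega
    have := ih _ hL hc'
    intro x hx
    rw [mem_upperCentralSeries_succ_iff]
    intro y
    exact this (Subgroup.commutator_mem_commutator hx (Subgroup.mem_top y))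

/-- If `y ∈ K` and `x ∈ K ∖ H` and `|K| = 2 |H|`, then `y ∈ H` or `x⁻¹ y ∈ H`. -/
lemma mem_or_of_two [Finite T] {H K : Subgroup T} (hHK : H ≤ K) (hc : Nat.card K = 2 * Nat.card H)
    {x y : T} (hxK : x ∈ K) (hxH : x ∉ H) (hy : y ∈ K) : y ∈ H ∨ x⁻¹ * y ∈ H := by
  have hi : (H.subgroupOf K).index = 2 := by
    have h1 := Subgroup.card_mul_index (H.subgroupOf K)
    have h2 : Nat.card ↥(H.subgroupOf K) = Nat.card H := by
      rw [Nat.card_congr (Subgroup.subgroupOfEquivOfLe hHK).toEquiv]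
    rw [h2, hc] at h1
    have hpos : 0 < Nat.card H := Nat.card_pos
    nlinarith
  by_cases hyH : y ∈ H
  · exact Or.inl hyH
  right
  have := (Subgroup.mul_mem_iff_of_index_two hi (a := ⟨x⁻¹, K.inv_mem hxK⟩) (b := ⟨y, hy⟩)).mpr
  rw [Subgroup.mem_subgroupOf] at this
  apply this
  simp only [Subgroup.mem_subgroupOf]
  constructor
  · intro h
    exact absurd (by simpa using H.inv_mem h) hxH
  · intro h
    exact absurd h hyH


/-! ### Stage 1 -/

lemma Hyp.normal [Finite T] (h : Hyp W) : W.Normal := by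
  rw [h.hW]
  exact Subgroup.normal_centralizer

/-- Central elements modulo a normal subgroup. -/
lemma exists_central_mod [Finite T] (hT : IsPGroup 2 T) {L N : Subgroup T} [L.Normal] [N.Normal]
    (hLN : L < N) : ∃ n ∈ N, n ∉ L ∧ ∀ τ : T, ⁅n, τ⁆ ∈ L := by
  haveI : Fact (Nat.Prime 2) := ⟨Nat.prime_two⟩
  have hQ : IsPGroup 2 (T ⧸ L) := hT.to_quotient L
  have hne : N.map (QuotientGroup.mk' L) ≠ ⊥ := by
    intro hb
    obtain ⟨x, hxN, hxL⟩ := SetLike.exists_of_lt hLN
    apply hxL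
    have : (QuotientGroup.mk' L x) ∈ N.map (QuotientGroup.mk' L) := Subgroup.mem_map_of_mem _ hxN
    rw [hb, Subgroup.mem_bot] at this
    exact (QuotientGroup.eq_one_iff x).mp this
  obtain ⟨w, hwN, hwc, hwo⟩ := exists_central_orderOf_eq hQ _ hne
  obtain ⟨n, hn, rfl⟩ := hwN
  refine ⟨n, hn, ?_, ?_⟩
  · intro hnL
    have : (QuotientGroup.mk' L n) = 1 := (QuotientGroup.eq_one_iff n).mpr hnL
    rw [this, orderOf_one] at hwo
    omega
  · intro τ
    rw [← QuotientGroup.eq_one_iff]
    have hc := (Subgroup.mem_center_iff.mp hwc) (τ : T ⧸ L)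
    have : ((⁅n, τ⁆ : T) : T ⧸ L) = ⁅(n : T ⧸ L), (τ : T ⧸ L)⁆ := rfl
    rw [this, commutatorElement_def]
    have hc' : (τ : T ⧸ L) * (n : T ⧸ L) = (n : T ⧸ L) * (τ : T ⧸ L) := hc
    rw [← hc']
    group

lemma map_char_normal {W : Subgroup T} [W.Normal] (K : Subgroup ↥W) [hK : K.Characteristic] :
    (K.map W.subtype).Normal := by
  constructor
  rintro _ ⟨x, hx, rfl⟩ g
  have h := (Subgroup.characteristic_iff_comap_eq.mp hK) (MulAut.conjNormal g)
  have hm : (MulAut.conjNormal g : MulAut ↥W) x ∈ K := by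
    have : x ∈ K.comap (MulAut.conjNormal g : MulAut ↥W).toMonoidHom := by rw [h]; exact hx
    exact this
  exact ⟨_, hm, by simp [MulAut.conjNormal_apply]⟩

section stage1

variable [Finite T]

/-- `z, u, v` filter `Z₃`. -/
lemma Hyp.exists_zuv (h : Hyp W) : ∃ z u v : T,
    z ∈ Subgroup.upperCentralSeries T 1 ∧ z ≠ 1 ∧
    u ∈ Subgroup.upperCentralSeries T 2 ∧ u ∉ Subgroup.upperCentralSeries T 1 ∧
    v ∈ Subgroup.upperCentralSeries T 3 ∧ v ∉ Subgroup.upperCentralSeries T 2 := by
  obtain ⟨h1, h2, h3⟩ := h.card_upper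
  have l0 : (⊥ : Subgroup T) < Subgroup.upperCentralSeries T 1 := by
    rw [bot_lt_iff_ne_bot]
    intro hb
    rw [hb] at h1
    simp at h1
  have l1 : Subgroup.upperCentralSeries T 1 < Subgroup.upperCentralSeries T 2 :=
    lt_of_le_of_ne (Subgroup.upperCentralSeries_mono T (by omega)) (h.upper_ne (i := 1) (by omega))
  have l2 : Subgroup.upperCentralSeries T 2 < Subgroup.upperCentralSeries T 3 :=
    lt_of_le_of_ne (Subgroup.upperCentralSeries_mono T (by omega)) (h.upper_ne (i := 2) (by omega))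
  obtain ⟨z, hz, hz'⟩ := SetLike.exists_of_lt l0
  obtain ⟨u, hu, hu'⟩ := SetLike.exists_of_lt l1
  obtain ⟨v, hv, hv'⟩ := SetLike.exists_of_lt l2
  exact ⟨z, u, v, hz, by simpa using hz', hu, hu', hv, hv'⟩

lemma mem_center_of_one {z : T} (hz : z ∈ Subgroup.upperCentralSeries T 1) (g : T) :
    g * z = z * g := by
  rw [Subgroup.upperCentralSeries_one] at hz
  exact (Subgroup.mem_center_iff.mp hz) g

lemma comm_mem_upper {i : ℕ} {x : T} (hx : x ∈ Subgroup.upperCentralSeries T (i + 1)) (τ : T) :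
    τ * x * τ⁻¹ * x⁻¹ ∈ Subgroup.upperCentralSeries T i := by
  have := (Subgroup.mem_upperCentralSeries_succ_iff.mp hx) τ
  have h2 := inv_mem this
  rw [commutatorElement_inv] at h2
  exact h2

/-- Commuting with `u` and `v` forces being in `W`. -/
lemma Hyp.mem_W_of_comm (h : Hyp W) {u v : T}
    (hu : u ∈ Subgroup.upperCentralSeries T 2) (hu' : u ∉ Subgroup.upperCentralSeries T 1)
    (hv : v ∈ Subgroup.upperCentralSeries T 3) (hv' : v ∉ Subgroup.upperCentralSeries T 2)
    {g : T} (hgu : g * u = u * g) (hgv : g * v = v * g) : g ∈ W := by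
  have c1 := h.card_upper' (i := 1) (by omega)
  have c2 := h.card_upper' (i := 2) (by omega)
  have c3 := h.card_upper' (i := 3) (by omega)
  have key1 : ∀ t ∈ Subgroup.upperCentralSeries T 1, t * g = g * t :=
    fun t ht => (mem_center_of_one ht g).symm
  have key2 : ∀ t ∈ Subgroup.upperCentralSeries T 2, t * g = g * t := by
    intro t ht
    rcases mem_or_of_two (Subgroup.upperCentralSeries_mono T (show 1 ≤ 2 by omega))
      (by rw [c1, c2]; norm_num) hu hu' ht with h1 | h1
    · exact key1 t h1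
    · have := key1 _ h1
      have e : t = u * (u⁻¹ * t) := by group
      rw [e, mul_assoc, this, ← mul_assoc, ← hgu, mul_assoc]
  rw [h.hW, Subgroup.mem_centralizer_iff]
  intro t ht
  rcases mem_or_of_two (Subgroup.upperCentralSeries_mono T (show 2 ≤ 3 by omega))
    (by rw [c2, c3]; norm_num) hv hv' ht with h1 | h1
  · exact key2 t h1
  · have := key2 _ h1
    have e : t = v * (v⁻¹ * t) := by group
    rw [e, mul_assoc, this, ← mul_assoc, ← hgv, mul_assoc]

/-- The map `τ ↦ ([τ,u],[τ,v])`. -/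
def fmap {u v : T} (hu : u ∈ Subgroup.upperCentralSeries T 2)
    (hv : v ∈ Subgroup.upperCentralSeries T 3) (τ : T) :
    ↥(Subgroup.upperCentralSeries T 1) × ↥(Subgroup.upperCentralSeries T 2) :=
  (⟨τ * u * τ⁻¹ * u⁻¹, comm_mem_upper hu τ⟩, ⟨τ * v * τ⁻¹ * v⁻¹, comm_mem_upper hv τ⟩)

lemma fmap_eq {u v : T} (hu : u ∈ Subgroup.upperCentralSeries T 2)
    (hv : v ∈ Subgroup.upperCentralSeries T 3) {x y : T} (hxy : fmap hu hv x = fmap hu hv y) :
    (x⁻¹ * y) * u = u * (x⁻¹ * y) ∧ (x⁻¹ * y) * v = v * (x⁻¹ * y) := by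
  have h1 : x * u * x⁻¹ * u⁻¹ = y * u * y⁻¹ * u⁻¹ := congrArg (fun p => (p.1 : T)) hxy
  have h2 : x * v * x⁻¹ * v⁻¹ = y * v * y⁻¹ * v⁻¹ := congrArg (fun p => (p.2 : T)) hxy
  have h1' : x * u * x⁻¹ = y * u * y⁻¹ := mul_right_cancel h1
  have h2' : x * v * x⁻¹ = y * v * y⁻¹ := mul_right_cancel h2
  constructor
  · calc x⁻¹ * y * u = x⁻¹ * (y * u * y⁻¹) * y := by group
      _ = x⁻¹ * (x * u * x⁻¹) * y := by rw [h1']
      _ = u * (x⁻¹ * y) := by group
  · calc x⁻¹ * y * v = x⁻¹ * (y * v * y⁻¹) * y := by group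
      _ = x⁻¹ * (x * v * x⁻¹) * y := by rw [h2']
      _ = v * (x⁻¹ * y) := by group

lemma Hyp.index_le (h : Hyp W) : W.index ≤ 8 := by
  obtain ⟨z, u, v, hz, hz', hu, hu', hv, hv'⟩ := h.exists_zuv
  have c1 := h.card_upper' (i := 1) (by omega)
  have c2 := h.card_upper' (i := 2) (by omega)
  have hle := index_le_of_map (H := W) (fmap hu hv) (fun x y hxy => by
    obtain ⟨h1, h2⟩ := fmap_eq hu hv hxy
    exact h.mem_W_of_comm hu hu' hv hv' h1 h2)
  rw [Nat.card_prod, c1, c2] at hle
  simpa using hle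

lemma Hyp.card_W (h : Hyp W) : 2 ^ 11 ≤ Nat.card W := by
  have h1 := W.card_mul_index
  have h2 := h.index_le
  have h3 := h.ha
  have hpos : 0 < Nat.card W := Nat.card_pos
  by_contra hcon
  have : Nat.card W * W.index ≤ (2 ^ 11 - 1) * 8 := Nat.mul_le_mul (by omega) h2
  omega

lemma Hyp.pW (h : Hyp W) : IsPGroup 2 ↥W := h.hT.to_subgroup W

lemma Hyp.card_frattini (h : Hyp W) :
    Nat.card ↥((frattini ↥W).map W.subtype) = Nat.card ↥(frattini ↥W) := by
  exact Nat.card_congr (Subgroup.equivMapOfInjective _ _ W.subtype_injective).symm.toEquiv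

/-- The core statement: some maximal subgroup of `W` has core `Φ(W)`. -/
theorem Hyp.exists_core (h : Hyp W) [W.Normal] : ∃ M : Subgroup ↥W, IsCoatom M ∧
    (⨅ τ : T, M.comap (MulAut.conjNormal τ : MulAut ↥W).toMonoidHom) = frattini ↥W := by
  classical
  haveI : Fact (Nat.Prime 2) := ⟨Nat.prime_two⟩
  have pW := h.pW
  -- `|Φ| = 2^e`
  obtain ⟨e, he⟩ := (IsPGroup.iff_card (p := 2) (G := ↥(frattini ↥W))).mp
    (pW.to_subgroup (frattini ↥W))
  have he3 : e ≤ 3 := by
    have := h.hc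
    rw [he] at this
    by_contra hcon
    have h16 : 2 ^ 4 ≤ 2 ^ e := Nat.pow_le_pow_right (by omega) (by omega)
    omega
  have hcZ := h.card_upper' (i := e) (by omega)
  have hcZ' := h.card_upper' (i := e + 1) (by omega)
  haveI hnormal : ((frattini ↥W).map W.subtype).Normal := map_char_normal _
  have hFZ : (frattini ↥W).map W.subtype = Subgroup.upperCentralSeries T e := by
    apply Subgroup.eq_of_le_of_card_ge
    · exact le_upper h.hT e _ hnormal (by rw [h.card_frattini, he])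
    · rw [h.card_frattini, he, hcZ]
  -- nontriviality of `W`
  have hWnt : Nontrivial ↥W := by
    rw [← Finite.one_lt_card_iff_nontrivial]
    have := h.card_W
    omega
  -- choose `M`
  have hM : ∃ M : Subgroup ↥W, IsCoatom M ∧ ∀ n : ↥W,
      (n : T) ∈ Subgroup.upperCentralSeries T (e + 1) → n ∉ frattini ↥W → n ∉ M := by
    by_cases hw : ∃ w₀ : ↥W, (w₀ : T) ∈ Subgroup.upperCentralSeries T (e + 1) ∧ w₀ ∉ frattini ↥W
    · obtain ⟨w₀, hw₀, hw₀'⟩ := hw
      have : ∃ M : Subgroup ↥W, IsCoatom M ∧ w₀ ∉ M := by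
        by_contra hcon
        push Not at hcon
        apply hw₀'
        unfold frattini Order.radical
        rw [Subgroup.mem_iInf]
        intro M
        rw [Subgroup.mem_iInf]
        intro hM
        exact hcon M hM
      obtain ⟨M, hMc, hw₀M⟩ := this
      refine ⟨M, hMc, fun n hn hn' hnM => ?_⟩
      have hw₀Z : (w₀ : T) ∉ Subgroup.upperCentralSeries T e := by
        rw [← hFZ]
        rintro ⟨x, hx, hxe⟩
        apply hw₀'
        have : x = w₀ := Subtype.ext hxe
        rwa [← this]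
      have hnZ : (n : T) ∉ Subgroup.upperCentralSeries T e := by
        rw [← hFZ]
        rintro ⟨x, hx, hxe⟩
        apply hn'
        have : x = n := Subtype.ext hxe
        rwa [← this]
      rcases mem_or_of_two (Subgroup.upperCentralSeries_mono T (show e ≤ e + 1 by omega))
        (by rw [hcZ, hcZ']; ring) hw₀ hw₀Z hn with h1 | h1
      · exact hnZ h1
      · rw [← hFZ] at h1
        obtain ⟨x, hx, hxe⟩ := h1
        have hxeq : x = w₀⁻¹ * n := Subtype.ext (by simpa using hxe)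
        have hxM : x ∈ M := frattini_le_coatom hMc hx
        apply hw₀M
        have e2 : w₀ = n * x⁻¹ := by rw [hxeq]; group
        rw [e2]
        exact mul_mem hnM (inv_mem hxM)
    · push Not at hw
      obtain h0 | ⟨M, hMc, -⟩ := eq_top_or_exists_le_coatom (⊥ : Subgroup ↥W)
      · exact absurd h0 bot_ne_top
      · exact ⟨M, hMc, fun n hn hn' => absurd (hw n hn) hn'⟩
  obtain ⟨M, hMc, hMn⟩ := hM
  refine ⟨M, hMc, ?_⟩
  haveI hMnormal : M.Normal := normal_of_isCoatom pW hMc
  set Nn : Subgroup ↥W := ⨅ τ : T, M.comap (MulAut.conjNormal τ : MulAut ↥W).toMonoidHom with hNn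
  have memNn : ∀ x : ↥W, x ∈ Nn ↔ ∀ τ : T, (MulAut.conjNormal τ : MulAut ↥W) x ∈ M := by
    intro x
    rw [hNn, Subgroup.mem_iInf]
    rfl
  have hFN : frattini ↥W ≤ Nn := by
    intro x hx
    rw [memNn]
    intro τ
    have hch := (Subgroup.characteristic_iff_comap_eq.mp (inferInstance : (frattini ↥W).Characteristic))
      (MulAut.conjNormal τ)
    have : x ∈ (frattini ↥W).comap (MulAut.conjNormal τ : MulAut ↥W).toMonoidHom := by
      rw [hch]; exact hx
    exact frattini_le_coatom hMc this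
  -- normality of the image of `Nn`
  haveI hNnn : (Nn.map W.subtype).Normal := by
    constructor
    rintro _ ⟨x, hx, rfl⟩ g
    refine ⟨(MulAut.conjNormal g : MulAut ↥W) x, ?_, by simp [MulAut.conjNormal_apply]⟩
    change _ ∈ Nn
    have hx' : x ∈ Nn := hx
    rw [memNn] at hx' ⊢
    intro τ
    have := hx' (τ * g)
    rwa [map_mul, MulAut.mul_apply] at this
  by_contra hne
  have hlt : (frattini ↥W).map W.subtype < Nn.map W.subtype := by
    refine lt_of_le_of_ne (Subgroup.map_mono hFN) ?_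
    intro heq
    apply hne
    exact (Subgroup.map_injective W.subtype_injective heq).symm
  obtain ⟨n, ⟨n', hn'N, rfl⟩, hn2, hn3⟩ := exists_central_mod h.hT hlt
  have hnZ : (n' : T) ∈ Subgroup.upperCentralSeries T (e + 1) := by
    rw [Subgroup.mem_upperCentralSeries_succ_iff]
    intro y
    rw [← hFZ]
    exact hn3 y
  have hnF : n' ∉ frattini ↥W := fun hx => hn2 ⟨n', hx, rfl⟩
  apply hMn n' hnZ hnF
  have := (memNn n').mp hn'N 1
  simpa using this

lemma Hyp.frattini_index_le (h : Hyp W) [hWn : W.Normal] : (frattini ↥W).index ≤ 2 ^ W.index := by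
  classical
  haveI : Fact (Nat.Prime 2) := ⟨Nat.prime_two⟩
  have pW := h.pW
  obtain ⟨M, hMc, hM⟩ := h.exists_core
  haveI hMnormal : M.Normal := normal_of_isCoatom pW hMc
  have hMi : M.index = 2 := index_eq_of_isCoatom pW hMc
  haveI : Fintype (T ⧸ W) := Fintype.ofFinite _
  have hle : (⨅ q : T ⧸ W, M.comap (MulAut.conjNormal (q.out : T) : MulAut ↥W).toMonoidHom) ≤
      frattini ↥W := by
    rw [← hM]
    intro x hx
    rw [Subgroup.mem_iInf] at hx ⊢
    intro τ
    have h1 := hx (τ : T ⧸ W)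
    -- `τ = w * out`
    have hmk : ((τ : T ⧸ W)).out⁻¹ * τ ∈ W := by
      have := QuotientGroup.eq.mp (QuotientGroup.out_eq' (τ : T ⧸ W))
      exact this
    set o := (τ : T ⧸ W).out with ho
    have hw : τ * o⁻¹ ∈ W := by
      have := hWn.conj_mem _ hmk o
      have e : o * (o⁻¹ * τ) * o⁻¹ = τ * o⁻¹ := by group
      rwa [e] at this
    have h2 : (MulAut.conjNormal o : MulAut ↥W) x ∈ M := h1
    have h3 : (⟨τ * o⁻¹, hw⟩ : ↥W) * ((MulAut.conjNormal o : MulAut ↥W) x) * (⟨τ * o⁻¹, hw⟩ : ↥W)⁻¹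
        ∈ M := hMnormal.conj_mem _ h2 _
    change (MulAut.conjNormal τ : MulAut ↥W) x ∈ M
    convert h3 using 1
    apply Subtype.ext
    simp only [MulAut.conjNormal_apply, Subgroup.coe_mul, InvMemClass.coe_inv]
    group
  have h1 := Subgroup.index_antitone hle
  have h2 := Subgroup.index_iInf_le
    (fun q : T ⧸ W => M.comap (MulAut.conjNormal (q.out : T) : MulAut ↥W).toMonoidHom)
  have h3 : ∀ q : T ⧸ W, (M.comap (MulAut.conjNormal (q.out : T) : MulAut ↥W).toMonoidHom).index = 2 := by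
    intro q
    rw [Subgroup.index_comap_of_surjective _ (MulEquiv.surjective _), hMi]
  have hne : (⨅ q : T ⧸ W, M.comap (MulAut.conjNormal (q.out : T) : MulAut ↥W).toMonoidHom).index ≠ 0 :=
    Subgroup.index_ne_zero_of_finite
  simp only [h3, Finset.prod_const, Finset.card_univ] at h2
  rw [Fintype.card_eq_nat_card] at h2
  exact h1.trans h2

/-- The numerics. -/
theorem Hyp.counts (h : Hyp W) [W.Normal] : W.index = 8 ∧ (frattini ↥W).index = 2 ^ 8 ∧
    Nat.card ↥(frattini ↥W) = 8 ∧ Nat.card T = 2 ^ 14 := by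
  have h1 := h.index_le
  have h2 := h.frattini_index_le
  have h3 := h.hc
  have h4 := h.ha
  have c1 := W.card_mul_index
  have c2 := (frattini ↥W).card_mul_index
  have pos1 : 0 < Nat.card ↥(frattini ↥W) := Nat.card_pos
  have pos2 : 0 < (frattini ↥W).index := Nat.pos_of_ne_zero Subgroup.index_ne_zero_of_finite
  have pos3 : 0 < W.index := Nat.pos_of_ne_zero Subgroup.index_ne_zero_of_finite
  generalize W.index = i at *
  generalize (frattini ↥W).index = x at *
  generalize Nat.card ↥(frattini ↥W) = f at *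
  rw [← c2] at c1
  rw [← c1] at h4 ⊢
  have hi : i = 8 := by
    by_contra hne
    have hi7 : i ≤ 7 := by omega
    have hp : 2 ^ i ≤ 2 ^ 7 := Nat.pow_le_pow_right (by omega) hi7
    have hb : f * x * i ≤ 8 * 2 ^ 7 * 7 :=
      Nat.mul_le_mul (Nat.mul_le_mul h3 (h2.trans hp)) hi7
    omega
  subst hi
  have hb1 : f * x ≤ 8 * 2 ^ 8 := Nat.mul_le_mul h3 h2
  have hb2 : 2 ^ 11 ≤ f * x := by omega
  have hf : f = 8 := by
    by_contra hne
    have : f ≤ 7 := by omega
    have : f * x ≤ 7 * 2 ^ 8 := Nat.mul_le_mul this h2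
    omega
  subst hf
  have hx : x = 2 ^ 8 := by omega
  subst hx
  exact ⟨rfl, rfl, rfl, by norm_num⟩

theorem Hyp.map_frattini (h : Hyp W) [W.Normal] :
    (frattini ↥W).map W.subtype = Subgroup.upperCentralSeries T 3 := by
  haveI hnormal : ((frattini ↥W).map W.subtype).Normal := map_char_normal _
  have c := h.counts.2.2.1
  have c3 := h.card_upper' (i := 3) (by omega)
  apply Subgroup.eq_of_le_of_card_ge
  · exact le_upper h.hT 3 _ hnormal (by rw [h.card_frattini, c]; norm_num)
  · rw [h.card_frattini, c, c3]; norm_num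

lemma Hyp.mem_Z3_of_frattini (h : Hyp W) [W.Normal] {x : ↥W} (hx : x ∈ frattini ↥W) :
    (x : T) ∈ Subgroup.upperCentralSeries T 3 := by
  rw [← h.map_frattini]
  exact ⟨x, hx, rfl⟩

lemma Hyp.frattini_of_mem_Z3 (h : Hyp W) [W.Normal] {x : T} (hx : x ∈ Subgroup.upperCentralSeries T 3) :
    ∃ hw : x ∈ W, (⟨x, hw⟩ : ↥W) ∈ frattini ↥W := by
  rw [← h.map_frattini] at hx
  obtain ⟨y, hy, rfl⟩ := hx
  exact ⟨y.2, hy⟩

/-- Elements of `W` commute with `Z₃`. -/
lemma Hyp.comm_Z3 (h : Hyp W) {y t : T} (hy : y ∈ W) (ht : t ∈ Subgroup.upperCentralSeries T 3) :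
    t * y = y * t := by
  rw [h.hW, Subgroup.mem_centralizer_iff] at hy
  exact hy t ht

lemma Hyp.frattini_central (h : Hyp W) [W.Normal] {x : ↥W} (hx : x ∈ frattini ↥W) (y : ↥W) :
    y * x = x * y := by
  apply Subtype.ext
  exact (h.comm_Z3 y.2 (h.mem_Z3_of_frattini hx)).symm

/-- A subgroup containing squares and commutators has an index-two overgroup avoiding a given element. -/
lemma exists_index_two {S : Type*} [Group S] [Finite S] (D : Subgroup S)
    (hsq : ∀ x : S, x ^ 2 ∈ D) (hcomm : ∀ x y : S, ⁅x, y⁆ ∈ D) {z : S} (hz : z ∉ D) :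
    ∃ M : Subgroup S, D ≤ M ∧ z ∉ M ∧ M.index = 2 := by
  classical
  let P : Subgroup S → Prop := fun M => D ≤ M ∧ z ∉ M
  have hP : P D := ⟨le_rfl, hz⟩
  haveI : Finite (Subgroup S) := inferInstance
  obtain ⟨M, -, hM⟩ := Finite.exists_le_maximal hP
  have hDM := hM.prop.1
  have hzM := hM.prop.2
  have hMn : M.Normal := by
    constructor
    intro n hn g
    have h1 : ⁅g, n⁆ ∈ M := hDM (hcomm g n)
    have h2 : g * n * g⁻¹ = ⁅g, n⁆ * n := by
      rw [commutatorElement_def]
      group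
    rw [h2]
    exact mul_mem h1 hn
  have key : ∀ y : S, y ∉ M → z * y⁻¹ ∈ M := by
    intro y hy
    have hyy : y ^ 2 ∈ M := hDM (hsq y)
    let M' : Subgroup S :=
      { carrier := {w | w ∈ M ∨ w * y⁻¹ ∈ M}
        mul_mem' := by
          intro w w' hw hw'
          simp only [Set.mem_setOf_eq] at hw hw' ⊢
          rcases hw with hw | hw <;> rcases hw' with hw' | hw'
          · exact Or.inl (mul_mem hw hw')
          · right
            rw [mul_assoc]
            exact mul_mem hw hw'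
          · right
            have e : w * w' * y⁻¹ = (w * y⁻¹) * (y * w' * y⁻¹) := by group
            rw [e]
            exact mul_mem hw (hMn.conj_mem _ hw' y)
          · left
            have e : w * w' = (w * y⁻¹) * (y * (w' * y⁻¹) * y⁻¹) * y ^ 2 := by group
            rw [e]
            exact mul_mem (mul_mem hw (hMn.conj_mem _ hw' y)) hyy
        one_mem' := Or.inl (one_mem _)
        inv_mem' := by
          intro w hw
          simp only [Set.mem_setOf_eq] at hw ⊢
          rcases hw with hw | hw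
          · exact Or.inl (inv_mem hw)
          · right
            have e : w⁻¹ * y⁻¹ = (y * (w * y⁻¹) * y⁻¹ * y ^ 2)⁻¹ := by group
            rw [e]
            exact inv_mem (mul_mem (hMn.conj_mem _ hw y) hyy) }
    have hMM' : M ≤ M' := fun x hx => Or.inl hx
    have hyM' : y ∈ M' := Or.inr (by simp)
    have hnP : ¬ P M' := by
      intro hP'
      have := hM.le_of_ge hP' hMM'
      exact hy (this hyM')
    have hzM' : z ∈ M' := by
      by_contra hcon
      exact hnP ⟨hDM.trans hMM', hcon⟩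
    rcases hzM' with h1 | h1
    · exact absurd h1 hzM
    · exact h1
  refine ⟨M, hDM, hzM, ?_⟩
  rw [Subgroup.index_eq_two_iff]
  refine ⟨z, fun b => ?_⟩
  by_cases hb : b ∈ M
  · right
    refine ⟨hb, fun hbz => hzM ?_⟩
    have e : z = b⁻¹ * (b * z) := by group
    rw [e]
    exact mul_mem (inv_mem hb) hbz
  · left
    refine ⟨?_, hb⟩
    have h1 := key b hb
    have h2 : z ^ 2 ∈ M := hDM (hsq z)
    have e : b * z = (z * b⁻¹)⁻¹ * z ^ 2 := by group
    rw [e]
    exact mul_mem (inv_mem h1) h2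

/-- The main consequence of hypothesis `hd`. -/
theorem Hyp.frattini_le_of_small (h : Hyp W) (S D : Subgroup ↥W) (hDS : D ≤ S) (hS : S.index ≤ 8)
    (hsq : ∀ x ∈ S, x ^ 2 ∈ D) (hcomm : ∀ x ∈ S, ∀ y ∈ S, ⁅x, y⁆ ∈ D) : frattini ↥W ≤ D := by
  intro z hz
  by_contra hzD
  have hzS : z ∈ S := (h.hd S (by omega)) hz
  obtain ⟨M, hDM, hzM, hMi⟩ := exists_index_two (S := ↥S) (D.subgroupOf S)
    (fun x => by
      rw [Subgroup.mem_subgroupOf]
      simpa using hsq x x.2)
    (fun x y => by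
      rw [Subgroup.mem_subgroupOf]
      exact hcomm x x.2 y y.2)
    (z := ⟨z, hzS⟩) (by rw [Subgroup.mem_subgroupOf]; exact hzD)
  have hU : (M.map S.subtype).index ≤ 16 := by
    rw [Subgroup.index_map_subtype, hMi]
    omega
  have := (h.hd _ hU) hz
  obtain ⟨x, hx, hxe⟩ := this
  have : x = ⟨z, hzS⟩ := Subtype.ext hxe
  exact hzM (this ▸ hx)

/-! ### Stage 2: `W' = Φ(W)` -/

lemma sq_mul_of_central {G : Type*} [Group G] {x y : G} (hc : ∀ g : G, g * ⁅y, x⁆ = ⁅y, x⁆ * g) :
    (x * y) ^ 2 = x ^ 2 * y ^ 2 * ⁅y, x⁆ := by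
  have h1 : y * x = ⁅y, x⁆ * (x * y) := by
    rw [commutatorElement_def]; group
  calc (x * y) ^ 2 = x * (y * x) * y := by rw [pow_two]; group
    _ = x * (⁅y, x⁆ * (x * y)) * y := by rw [h1]
    _ = (x * ⁅y, x⁆) * x * y * y := by group
    _ = ⁅y, x⁆ * x * x * y * y := by rw [hc x]
    _ = (x ^ 2 * y ^ 2) * ⁅y, x⁆ := by
      rw [hc (x ^ 2 * y ^ 2)]
      simp only [pow_two, mul_assoc]

lemma Hyp.comm_le_frattini (h : Hyp W) : commutator ↥W ≤ frattini ↥W := by
  haveI : Fact (Nat.Prime 2) := ⟨Nat.prime_two⟩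
  exact commutator_le_frattini h.pW

lemma Hyp.commEl_mem (h : Hyp W) (x y : ↥W) : ⁅x, y⁆ ∈ frattini ↥W :=
  h.comm_le_frattini (Subgroup.commutator_mem_commutator (Subgroup.mem_top x) (Subgroup.mem_top y))

lemma Hyp.sq_mem (h : Hyp W) (x : ↥W) : x ^ 2 ∈ frattini ↥W := by
  haveI : Fact (Nat.Prime 2) := ⟨Nat.prime_two⟩
  exact pow_mem_frattini h.pW x

/-- `W' = Φ(W)`. -/
theorem Hyp.commutator_eq (h : Hyp W) [W.Normal] : commutator ↥W = frattini ↥W := by
  classical
  haveI : Fact (Nat.Prime 2) := ⟨Nat.prime_two⟩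
  by_contra hne
  have hlt : commutator ↥W < frattini ↥W := lt_of_le_of_ne h.comm_le_frattini hne
  have pF : IsPGroup 2 ↥(frattini ↥W) := h.pW.to_subgroup _
  have hD₀ : (commutator ↥W).subgroupOf (frattini ↥W) ≠ ⊤ := by
    intro ht
    rw [Subgroup.subgroupOf_eq_top] at ht
    exact hlt.not_ge ht
  obtain h0 | ⟨D₁, hD₁, hD₀₁⟩ := eq_top_or_exists_le_coatom ((commutator ↥W).subgroupOf (frattini ↥W))
  · exact hD₀ h0
  have hi : D₁.index = 2 := index_eq_of_isCoatom pF hD₁
  let D : Subgroup ↥W := D₁.map (frattini ↥W).subtype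
  have memD : ∀ x (hx : x ∈ frattini ↥W), x ∈ D ↔ (⟨x, hx⟩ : ↥(frattini ↥W)) ∈ D₁ := by
    intro x hx
    constructor
    · rintro ⟨y, hy, hye⟩
      have : y = ⟨x, hx⟩ := Subtype.ext hye
      rwa [← this]
    · intro hy
      exact ⟨_, hy, rfl⟩
  have hDF : D ≤ frattini ↥W := by
    rintro _ ⟨y, -, rfl⟩
    exact y.2
  have hcD : ∀ x y : ↥W, ⁅x, y⁆ ∈ D := by
    intro x y
    rw [memD _ (h.commEl_mem x y)]
    apply hD₀₁
    rw [Subgroup.mem_subgroupOf]
    exact Subgroup.commutator_mem_commutator (Subgroup.mem_top x) (Subgroup.mem_top y)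
  have hcen : ∀ (x y g : ↥W), g * ⁅y, x⁆ = ⁅y, x⁆ * g := fun x y g =>
    h.frattini_central (h.commEl_mem y x) g
  let S : Subgroup ↥W :=
    { carrier := {x | x ^ 2 ∈ D}
      mul_mem' := by
        intro x y hx hy
        simp only [Set.mem_setOf_eq] at hx hy ⊢
        rw [sq_mul_of_central (hcen x y)]
        exact mul_mem (mul_mem hx hy) (hcD y x)
      one_mem' := by simp
      inv_mem' := by
        intro x hx
        simp only [Set.mem_setOf_eq] at hx ⊢
        rw [inv_pow]
        exact inv_mem hx }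
  have memS : ∀ x, x ∈ S ↔ x ^ 2 ∈ D := fun x => Iff.rfl
  have hS2 : S.index ≤ 2 := by
    have := index_le_of_map (H := S) (fun x : ↥W => decide (x ^ 2 ∈ D)) (fun x y hxy => by
      rw [memS, sq_mul_of_central (hcen x⁻¹ y)]
      refine mul_mem ?_ (hcD y x⁻¹)
      rw [inv_pow]
      simp only [decide_eq_decide] at hxy
      by_cases hx : x ^ 2 ∈ D
      · exact mul_mem (inv_mem hx) (hxy.mp hx)
      · have hy : y ^ 2 ∉ D := fun hy => hx (hxy.mpr hy)
        have hxF := h.sq_mem x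
        have hyF := h.sq_mem y
        rw [memD _ hxF] at hx
        rw [memD _ hyF] at hy
        have hm := (Subgroup.mul_mem_iff_of_index_two hi (a := (⟨x ^ 2, hxF⟩ : ↥(frattini ↥W))⁻¹)
          (b := ⟨y ^ 2, hyF⟩)).mpr ⟨fun hc => absurd (by simpa using inv_mem hc) hx,
            fun hc => absurd hc hy⟩
        exact ⟨_, hm, rfl⟩)
    simpa using this
  have hDS : D ≤ S := by
    intro d hd
    rw [memS]
    rw [pow_two]
    exact mul_mem hd hd
  have hFD := h.frattini_le_of_small S D hDS (by omega) (fun x hx => hx) (fun x _ y _ => hcD x y)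
  apply hD₁.1
  rw [eq_top_iff]
  rintro ⟨x, hx⟩ -
  exact (memD x hx).mp (hFD hx)

/-- Elements of `Z₃` are involutions or trivial. -/
theorem Hyp.sq_Z3 (h : Hyp W) [W.Normal] {z : T} (hz : z ∈ Subgroup.upperCentralSeries T 3) :
    z ^ 2 = 1 := by
  obtain ⟨hzw, hzF⟩ := h.frattini_of_mem_Z3 hz
  let E : Subgroup ↥W :=
    { carrier := {g | g ∈ frattini ↥W ∧ g ^ 2 = 1}
      mul_mem' := by
        rintro a b ⟨ha, ha2⟩ ⟨hb, hb2⟩
        refine ⟨mul_mem ha hb, ?_⟩
        have hcm : Commute a b := (h.frattini_central ha b).symm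
        rw [hcm.mul_pow, ha2, hb2, one_mul]
      one_mem' := ⟨one_mem _, one_pow 2⟩
      inv_mem' := by
        rintro a ⟨ha, ha2⟩
        exact ⟨inv_mem ha, by rw [inv_pow, ha2, inv_one]⟩ }
  have hle : commutator ↥W ≤ E := by
    rw [commutator_def, Subgroup.commutator_le]
    intro x _ y _
    refine ⟨h.commEl_mem x y, ?_⟩
    set t := ⁅x, y⁆ with ht
    have htc : ∀ g : ↥W, g * t = t * g := fun g => h.frattini_central (h.commEl_mem x y) g
    have hty : x * y * x⁻¹ = t * y := by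
      rw [ht, commutatorElement_def]; group
    have hx2 : y * x ^ 2 = x ^ 2 * y := h.frattini_central (h.sq_mem x) y
    have e1 : x ^ 2 * y * (x ^ 2)⁻¹ = y := by
      rw [← hx2]; group
    have e2 : x ^ 2 * y * (x ^ 2)⁻¹ = t ^ 2 * y := by
      calc x ^ 2 * y * (x ^ 2)⁻¹ = x * (x * y * x⁻¹) * x⁻¹ := by rw [pow_two]; group
        _ = x * (t * y) * x⁻¹ := by rw [hty]
        _ = (x * t) * y * x⁻¹ := by group
        _ = (t * x) * y * x⁻¹ := by rw [htc x]
        _ = t * (x * y * x⁻¹) := by group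
        _ = t * (t * y) := by rw [hty]
        _ = t ^ 2 * y := by rw [pow_two, mul_assoc]
    rw [e1] at e2
    have : t ^ 2 * y = 1 * y := by rw [one_mul]; exact e2.symm
    exact mul_right_cancel this
  rw [← h.commutator_eq] at hzF
  have := (hle hzF).2
  have h2 := congrArg Subtype.val this
  simpa using h2

end stage1

end Cfsg.Agent.Lib.InvolChar.RuSylow
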