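import Cfsg.Agent.Lib.InvolChar.RuSylow
import Cfsg.Agent.Lib.InvolChar.RuQuad
import Cfsg.Agent.Lib.TwoGroups.Present

/-!
# Rudvalis-type Sylow 2-groups: second stage

Generators of `T` modulo `W`, the dihedral quotient, and the module `W/W'`.
-/

set_option autoImplicit false

namespace Cfsg.Agent.Lib.InvolChar.RuSylow

open scoped commutatorElement
open Cfsg.Agent.Lib.PGroups.Basic
open Cfsg.Agent.Lib.InvolChar.RuQuad

variable {T : Type*} [Group T] [Finite T] {W : Subgroup T}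

/-- Elements of `T` adapted to the series `Z₁ < Z₂ < Z₃`. -/
structure Gens (W : Subgroup T) (z u v a b : T) : Prop where
  hz : z ∈ Subgroup.upperCentralSeries T 1
  hz1 : z ≠ 1
  hu : u ∈ Subgroup.upperCentralSeries T 2
  hu1 : u ∉ Subgroup.upperCentralSeries T 1
  hv : v ∈ Subgroup.upperCentralSeries T 3
  hv2 : v ∉ Subgroup.upperCentralSeries T 2
  au : a * u * a⁻¹ = u * z
  av : a * v * a⁻¹ = v
  bu : b * u * b⁻¹ = u
  bv : b * v * b⁻¹ = v * u

lemma Hyp.fmap_surj (h : Hyp W) [W.Normal] {u v : T} (hu : u ∈ Subgroup.upperCentralSeries T 2)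
    (hu' : u ∉ Subgroup.upperCentralSeries T 1) (hv : v ∈ Subgroup.upperCentralSeries T 3)
    (hv' : v ∉ Subgroup.upperCentralSeries T 2) : Function.Surjective (fmap hu hv) := by
  have inj : Function.Injective (fun q : T ⧸ W => fmap hu hv q.out) := by
    intro q₁ q₂ hq
    obtain ⟨h1, h2⟩ := fmap_eq hu hv hq
    have := h.mem_W_of_comm hu hu' hv hv' h1 h2
    rw [← QuotientGroup.out_eq' q₁, ← QuotientGroup.out_eq' q₂]
    exact QuotientGroup.eq.mpr this
  have c1 := h.card_upper' (i := 1) (by omega)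
  have c2 := h.card_upper' (i := 2) (by omega)
  have hcard : Nat.card (↥(Subgroup.upperCentralSeries T 1) × ↥(Subgroup.upperCentralSeries T 2))
      ≤ Nat.card (T ⧸ W) := by
    rw [Nat.card_prod, c1, c2]
    have := h.counts.1
    rw [Subgroup.index] at this
    rw [this]
    norm_num
  have bij := inj.bijective_of_nat_card_le hcard
  intro p
  obtain ⟨q, hq⟩ := bij.2 p
  exact ⟨_, hq⟩

lemma Hyp.Z3_le_W (h : Hyp W) [W.Normal] {t : T} (ht : t ∈ Subgroup.upperCentralSeries T 3) :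
    t ∈ W := (h.frattini_of_mem_Z3 ht).1

lemma Hyp.Z3_comm (h : Hyp W) [W.Normal] {s t : T} (hs : s ∈ Subgroup.upperCentralSeries T 3)
    (ht : t ∈ Subgroup.upperCentralSeries T 3) : s * t = t * s :=
  h.comm_Z3 (h.Z3_le_W ht) hs

theorem Hyp.exists_gens (h : Hyp W) [W.Normal] : ∃ z u v a b : T, Gens W z u v a b := by
  obtain ⟨z, u, v, hz, hz', hu, hu', hv, hv'⟩ := h.exists_zuv
  have surj := h.fmap_surj hu hu' hv hv'
  obtain ⟨a, ha⟩ := surj (⟨z, hz⟩, 1)
  obtain ⟨b, hb⟩ := surj (1, ⟨u, hu⟩)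
  have a1 : a * u * a⁻¹ * u⁻¹ = z := congrArg (fun p => (p.1 : T)) ha
  have a2 : a * v * a⁻¹ * v⁻¹ = 1 := congrArg (fun p => (p.2 : T)) ha
  have b1 : b * u * b⁻¹ * u⁻¹ = 1 := congrArg (fun p => (p.1 : T)) hb
  have b2 : b * v * b⁻¹ * v⁻¹ = u := congrArg (fun p => (p.2 : T)) hb
  refine ⟨z, u, v, a, b, hz, hz', hu, hu', hv, hv', ?_, ?_, ?_, ?_⟩
  · rw [mul_inv_eq_iff_eq_mul] at a1
    rw [a1]
    exact (mem_center_of_one hz u).symm
  · rwa [mul_inv_eq_one] at a2
  · rwa [mul_inv_eq_one] at b1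
  · rw [mul_inv_eq_iff_eq_mul] at b2
    rw [b2]
    exact h.Z3_comm (Subgroup.upperCentralSeries_mono T (show 2 ≤ 3 by omega) hu) hv

namespace Gens

variable {z u v a b : T} (g : Gens W z u v a b)

section
include g

lemma conj_a_u : MulAut.conj a u = u * z := g.au
lemma conj_a_v : MulAut.conj a v = v := g.av
lemma conj_b_u : MulAut.conj b u = u := g.bu
lemma conj_b_v : MulAut.conj b v = v * u := g.bv
lemma conj_z (c : T) : MulAut.conj c z = z := by
  have := mem_center_of_one g.hz c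
  show c * z * c⁻¹ = z
  rw [this]
  group

lemma hu3 : u ∈ Subgroup.upperCentralSeries T 3 :=
  Subgroup.upperCentralSeries_mono T (show 2 ≤ 3 by omega) g.hu
lemma hz3 : z ∈ Subgroup.upperCentralSeries T 3 :=
  Subgroup.upperCentralSeries_mono T (show 1 ≤ 3 by omega) g.hz

end

variable (h : Hyp W) [W.Normal]
include g h

/-- A package of rewriting rules for `Z₃`. -/
lemma rules :
    (z * z = 1 ∧ u * u = 1 ∧ v * v = 1) ∧ (z * u = u * z ∧ z * v = v * z ∧ u * v = v * u) := by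
  refine ⟨⟨?_, ?_, ?_⟩, ?_, ?_, ?_⟩
  · rw [← pow_two]; exact h.sq_Z3 g.hz3
  · rw [← pow_two]; exact h.sq_Z3 g.hu3
  · rw [← pow_two]; exact h.sq_Z3 g.hv
  · exact h.Z3_comm g.hz3 g.hu3
  · exact h.Z3_comm g.hz3 g.hv
  · exact h.Z3_comm g.hu3 g.hv

/-- The conjugation table: each coset of `W` is determined by where `u`, `v` go. -/
lemma same_coset {p q : T} (h1 : MulAut.conj p u = MulAut.conj q u)
    (h2 : MulAut.conj p v = MulAut.conj q v) : p⁻¹ * q ∈ W := by
  have e1 : p * u * p⁻¹ = q * u * q⁻¹ := h1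
  have e2 : p * v * p⁻¹ = q * v * q⁻¹ := h2
  apply h.mem_W_of_comm g.hu g.hu1 g.hv g.hv2
  · calc p⁻¹ * q * u = p⁻¹ * (q * u * q⁻¹) * q := by group
      _ = p⁻¹ * (p * u * p⁻¹) * q := by rw [e1]
      _ = u * (p⁻¹ * q) := by group
  · calc p⁻¹ * q * v = p⁻¹ * (q * v * q⁻¹) * q := by group
      _ = p⁻¹ * (p * v * p⁻¹) * q := by rw [e2]
      _ = v * (p⁻¹ * q) := by group

lemma mem_W_of_conj {p : T} (h1 : MulAut.conj p u = u) (h2 : MulAut.conj p v = v) : p ∈ W := by
  have := g.same_coset h (p := 1) (q := p) (by simp [h1]) (by simp [h2])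
  simpa using this

/-- The table. -/
lemma tbl :
    (MulAut.conj (a * b) u = u * z ∧ MulAut.conj (a * b) v = v * (u * z)) ∧
    (MulAut.conj (b * a) u = u * z ∧ MulAut.conj (b * a) v = v * u) ∧
    (MulAut.conj (a * b * a) u = u ∧ MulAut.conj (a * b * a) v = v * (u * z)) ∧
    (MulAut.conj (b * a * b) u = u * z ∧ MulAut.conj (b * a * b) v = v * z) ∧
    (MulAut.conj (a * b * a * b) u = u ∧ MulAut.conj (a * b * a * b) v = v * z) ∧
    (MulAut.conj (b * a * b * a) u = u ∧ MulAut.conj (b * a * b * a) v = v * z) := by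
  obtain ⟨⟨zz, uu, vv⟩, zu, zv, uv⟩ := g.rules h
  have zz' : ∀ x, z * (z * x) = x := fun x => by rw [← mul_assoc, zz, one_mul]
  have uu' : ∀ x, u * (u * x) = x := fun x => by rw [← mul_assoc, uu, one_mul]
  have zu' : ∀ x, z * (u * x) = u * (z * x) := fun x => by rw [← mul_assoc, zu, mul_assoc]
  have zv' : ∀ x, z * (v * x) = v * (z * x) := fun x => by rw [← mul_assoc, zv, mul_assoc]
  have uv' : ∀ x, u * (v * x) = v * (u * x) := fun x => by rw [← mul_assoc, uv, mul_assoc]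
  have Au := g.conj_a_u
  have Av := g.conj_a_v
  have Bu := g.conj_b_u
  have Bv := g.conj_b_v
  have Cz := g.conj_z
  simp only [map_mul, MulAut.mul_apply, Au, Av, Bu, Bv, Cz, mul_assoc, zz, uu, zz', uu', zu, zv, uv,
    zu', zv', uv', mul_one, and_self]

lemma aa_mem : a * a ∈ W := by
  obtain ⟨⟨zz, uu, vv⟩, zu, zv, uv⟩ := g.rules h
  apply g.mem_W_of_conj h
  · simp only [map_mul, MulAut.mul_apply, g.conj_a_u, g.conj_z, mul_assoc, zz, mul_one]
  · simp only [map_mul, MulAut.mul_apply, g.conj_a_v]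

lemma bb_mem : b * b ∈ W := by
  obtain ⟨⟨zz, uu, vv⟩, zu, zv, uv⟩ := g.rules h
  apply g.mem_W_of_conj h
  · simp only [map_mul, MulAut.mul_apply, g.conj_b_u]
  · simp only [map_mul, MulAut.mul_apply, g.conj_b_v, g.conj_b_u, mul_assoc, uu, mul_one]

lemma abab_baba : (a * b * a * b)⁻¹ * (b * a * b * a) ∈ W := by
  obtain ⟨-, -, -, -, ⟨h1, h2⟩, h3, h4⟩ := g.tbl h
  exact g.same_coset h (by rw [h1, h3]) (by rw [h2, h4])

/-- Every element of `T` is a word in `a`, `b` modulo `W`. -/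
theorem exists_word (τ : T) : ∃ q ∈ ({1, a, b, a * b, b * a, a * b * a, b * a * b, a * b * a * b} : Set T),
    q⁻¹ * τ ∈ W := by
  obtain ⟨⟨t1, t2⟩, ⟨t3, t4⟩, ⟨t5, t6⟩, ⟨t7, t8⟩, ⟨t9, t10⟩, -⟩ := g.tbl h
  have c1 := h.card_upper' (i := 1) (by omega)
  have c2 := h.card_upper' (i := 2) (by omega)
  have hZ1 : ∀ t ∈ Subgroup.upperCentralSeries T 1, t = 1 ∨ t = z := by
    intro t ht
    rcases mem_or_of_two (H := ⊥) (bot_le) (by rw [c1]; simp) g.hz (by simpa using g.hz1) ht with h1 | h1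
    · left; simpa using h1
    · right
      have : z⁻¹ * t = 1 := by simpa using h1
      rw [inv_mul_eq_one] at this
      exact this.symm
  have hZ2 : ∀ t ∈ Subgroup.upperCentralSeries T 2, t = 1 ∨ t = z ∨ t = u ∨ t = u * z := by
    intro t ht
    rcases mem_or_of_two (Subgroup.upperCentralSeries_mono T (show 1 ≤ 2 by omega))
      (by rw [c1, c2]; norm_num) g.hu g.hu1 ht with h1 | h1
    · rcases hZ1 t h1 with h2 | h2
      · exact Or.inl h2
      · exact Or.inr (Or.inl h2)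
    · rcases hZ1 _ h1 with h2 | h2
      · right; right; left
        rw [inv_mul_eq_one] at h2
        exact h2.symm
      · right; right; right
        rw [inv_mul_eq_iff_eq_mul] at h2
        exact h2
  obtain ⟨⟨zz, uu, vv⟩, zu, zv, uv⟩ := g.rules h
  have hτu : MulAut.conj τ u = u ∨ MulAut.conj τ u = u * z := by
    have := comm_mem_upper g.hu τ
    rcases hZ1 _ this with h1 | h1
    · left
      rw [mul_inv_eq_one] at h1
      exact h1
    · right
      rw [mul_inv_eq_iff_eq_mul] at h1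
      show τ * u * τ⁻¹ = u * z
      rw [h1, zu]
  have hτv : MulAut.conj τ v = v ∨ MulAut.conj τ v = v * z ∨ MulAut.conj τ v = v * u ∨
      MulAut.conj τ v = v * (u * z) := by
    have := comm_mem_upper g.hv τ
    have e : τ * v * τ⁻¹ = (τ * v * τ⁻¹ * v⁻¹) * v := by group
    have hvc : ∀ t ∈ Subgroup.upperCentralSeries T 2, t * v = v * t := fun t ht =>
      h.Z3_comm (Subgroup.upperCentralSeries_mono T (show 2 ≤ 3 by omega) ht) g.hv
    have e' : MulAut.conj τ v = v * (τ * v * τ⁻¹ * v⁻¹) := by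
      show τ * v * τ⁻¹ = _
      rw [← hvc _ this]
      exact e
    rcases hZ2 _ this with h1 | h1 | h1 | h1
    · left; rw [e', h1, mul_one]
    · right; left; rw [e', h1]
    · right; right; left; rw [e', h1]
    · right; right; right; rw [e', h1]
  have one_u : MulAut.conj (1 : T) u = u := by simp
  have one_v : MulAut.conj (1 : T) v = v := by simp
  have Au := g.conj_a_u
  have Av := g.conj_a_v
  have Bu := g.conj_b_u
  have Bv := g.conj_b_v
  rcases hτu with hu | hu <;> rcases hτv with hv | hv | hv | hv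
  · exact ⟨1, by simp, g.same_coset h (by rw [one_u, hu]) (by rw [one_v, hv])⟩
  · exact ⟨a * b * a * b, by simp, g.same_coset h (by rw [t9, hu]) (by rw [t10, hv])⟩
  · exact ⟨b, by simp, g.same_coset h (by rw [Bu, hu]) (by rw [Bv, hv])⟩
  · exact ⟨a * b * a, by simp, g.same_coset h (by rw [t5, hu]) (by rw [t6, hv])⟩
  · exact ⟨a, by simp, g.same_coset h (by rw [Au, hu]) (by rw [Av, hv])⟩
  · exact ⟨b * a * b, by simp, g.same_coset h (by rw [t7, hu]) (by rw [t8, hv])⟩
  · exact ⟨b * a, by simp, g.same_coset h (by rw [t3, hu]) (by rw [t4, hv])⟩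
  · exact ⟨a * b, by simp, g.same_coset h (by rw [t1, hu]) (by rw [t2, hv])⟩

/-- Induction over `T`: `W`, `a`, `b` generate. -/
theorem induct_T (P : T → Prop) (hW : ∀ w ∈ W, P w) (ha : ∀ τ, P τ → P (a * τ))
    (hb : ∀ τ, P τ → P (b * τ)) (τ : T) : P τ := by
  obtain ⟨q, hq, hqw⟩ := g.exists_word h τ
  have e : τ = q * (q⁻¹ * τ) := by group
  rw [e]
  have hw := hW _ hqw
  simp only [Set.mem_insert_iff, Set.mem_singleton_iff] at hq
  rcases hq with rfl | rfl | rfl | rfl | rfl | rfl | rfl | rfl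
  · simpa using hw
  · exact ha _ hw
  · exact hb _ hw
  · rw [mul_assoc]; exact ha _ (hb _ hw)
  · rw [mul_assoc]; exact hb _ (ha _ hw)
  · rw [mul_assoc, mul_assoc]; exact ha _ (hb _ (ha _ hw))
  · rw [mul_assoc, mul_assoc]; exact hb _ (ha _ (hb _ hw))
  · rw [mul_assoc, mul_assoc, mul_assoc]; exact ha _ (hb _ (ha _ (hb _ hw)))

/-- Conjugation on `Z₃` only depends on the coset of `W`. -/
lemma conj_eq_of_coset {p q t : T} (hpq : p⁻¹ * q ∈ W) (ht : t ∈ Subgroup.upperCentralSeries T 3) :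
    MulAut.conj p t = MulAut.conj q t := by
  have hc := h.comm_Z3 hpq ht
  have e : q = p * (p⁻¹ * q) := by group
  show p * t * p⁻¹ = q * t * q⁻¹
  calc p * t * p⁻¹ = p * (t * (p⁻¹ * q)) * (p⁻¹ * q)⁻¹ * p⁻¹ := by group
    _ = p * ((p⁻¹ * q) * t) * (p⁻¹ * q)⁻¹ * p⁻¹ := by rw [hc]
    _ = q * t * q⁻¹ := by group

/-- The quotient `T/W` is dihedral of order 8. -/
theorem dihedral : Nonempty (T ⧸ W ≃* DihedralGroup 4) := by
  haveI : Fact (Nat.Prime 2) := ⟨Nat.prime_two⟩
  obtain ⟨⟨t1, t2⟩, ⟨t3, t4⟩, ⟨t5, t6⟩, ⟨t7, t8⟩, ⟨t9, t10⟩, -⟩ := g.tbl h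
  obtain ⟨⟨zz, uu, vv⟩, zu, zv, uv⟩ := g.rules h
  have hvu : v * u * z ≠ v * u := by
    intro hc
    exact g.hz1 (mul_left_cancel (a := v * u) (by rw [hc, mul_one]))
  have hAA : (a : T ⧸ W) * (a : T ⧸ W) = 1 := (QuotientGroup.eq_one_iff (a * a)).mpr (g.aa_mem h)
  have hBB : (b : T ⧸ W) * (b : T ⧸ W) = 1 := (QuotientGroup.eq_one_iff (b * b)).mpr (g.bb_mem h)
  have hsym : ((a : T ⧸ W) * (b : T ⧸ W)) * ((a : T ⧸ W) * (b : T ⧸ W))
      = ((b : T ⧸ W) * (a : T ⧸ W)) * ((b : T ⧸ W) * (a : T ⧸ W)) := by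
    have := QuotientGroup.eq.mpr (g.abab_baba h)
    simpa [mul_assoc] using this
  have hAi : (a : T ⧸ W)⁻¹ = (a : T ⧸ W) := inv_eq_of_mul_eq_one_left hAA
  have hBi : (b : T ⧸ W)⁻¹ = (b : T ⧸ W) := inv_eq_of_mul_eq_one_left hBB
  generalize hA : (a : T ⧸ W) = A at *
  generalize hB : (b : T ⧸ W) = B at *
  have hx4 : (A * B) ^ (2 ^ (1 + 1)) = 1 := by
    have e1 : (A * B) ^ (2 ^ (1 + 1)) = (A * B) * (A * B) * ((B * A) * (B * A)) := by
      rw [← hsym, show (2 ^ (1 + 1) : ℕ) = 4 from rfl]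
      simp only [pow_succ, pow_zero, one_mul, mul_assoc]
    rw [e1]
    calc A * B * (A * B) * (B * A * (B * A)) = A * B * A * (B * B) * A * B * A := by group
      _ = A * B * (A * A) * B * A := by rw [hBB]; group
      _ = A * (B * B) * A := by rw [hAA]; group
      _ = 1 := by rw [hBB, mul_one, hAA]
  have hx2 : ¬ (A * B) ^ (2 ^ 1) = 1 := by
    intro hc
    have e : (A * B) ^ (2 ^ 1) = (((a * b * a * b : T)) : T ⧸ W) := by
      rw [← hA, ← hB]
      simp [pow_two, mul_assoc]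
    rw [e, QuotientGroup.eq_one_iff] at hc
    have := g.conj_eq_of_coset h (p := 1) (q := a * b * a * b) (t := v) (by simpa using hc) g.hv
    rw [t10] at this
    simp only [map_one, MulAut.one_apply] at this
    apply g.hz1
    exact mul_left_cancel (a := v) (by rw [← this, mul_one])
  have hord : orderOf (A * B) = 2 ^ (1 + 1) := orderOf_eq_prime_pow hx2 hx4
  haveI : NeZero 4 := ⟨by norm_num⟩
  have hnc : A * B ≠ B * A := by
    intro hc
    rw [← hA, ← hB] at hc
    have e := QuotientGroup.eq.mp (show ((a * b : T) : T ⧸ W) = ((b * a : T) : T ⧸ W) from hc)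
    have := g.conj_eq_of_coset h e g.hv
    rw [t2, t4] at this
    apply hvu
    rw [mul_assoc]
    exact this
  have hcard : Nat.card (T ⧸ W) = 2 * 4 := by
    have := h.counts.1
    rw [Subgroup.index] at this
    rw [this]
  refine Cfsg.Agent.Lib.TwoGroups.Present.nonempty_dihedral (a := A * B) (b := A) (m := 4)
    (by simpa using hord) hAA ?_ ?_ hcard
  · rw [hAi, mul_inv_rev, hAi, hBi]
    calc A * (A * B) * A = (A * A) * B * A := by group
      _ = B * A := by rw [hAA, one_mul]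
  · rintro ⟨k, hk⟩
    simp only at hk
    have hc : Commute ((A * B) ^ k) (A * B) := (Commute.refl _).zpow_left k
    rw [hk] at hc
    apply hnc
    have h1 : A * (A * B) = (A * B) * A := hc
    rw [← mul_assoc, hAA, one_mul] at h1
    calc A * B = A * (A * B * A) := by rw [← h1]
      _ = (A * A) * (B * A) := by group
      _ = B * A := by rw [hAA, one_mul]

end Gens

end Cfsg.Agent.Lib.InvolChar.RuSylow
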