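import Cfsg.Agent.Lib.InvolChar.RuSylow2

/-!
# Rudvalis-type Sylow 2-groups: the module `W/W'`
-/

set_option autoImplicit false

namespace Cfsg.Agent.Lib.InvolChar.RuSylow

open scoped commutatorElement
open Cfsg.Agent.Lib.PGroups.Basic
open Cfsg.Agent.Lib.InvolChar.RuQuad

variable {T : Type*} [Group T] {W : Subgroup T}

/-- `W/W'`, written additively. -/
abbrev VV (W : Subgroup T) := Additive (Abelianization ↥W)

/-- The projection. -/
def ofV (x : ↥W) : VV W := Additive.ofMul (Abelianization.of x)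

lemma ofV_mul (x y : ↥W) : ofV (x * y) = ofV x + ofV y := by
  simp [ofV]

lemma ofV_one : ofV (1 : ↥W) = 0 := by
  simp [ofV]

lemma ofV_inv (x : ↥W) : ofV x⁻¹ = - ofV x := by
  simp [ofV]

lemma ofV_surj : Function.Surjective (ofV (W := W)) := by
  intro y
  obtain ⟨x, hx⟩ := QuotientGroup.mk_surjective (Additive.toMul y)
  exact ⟨x, congrArg Additive.ofMul hx⟩

lemma ofV_eq_zero_iff {x : ↥W} : ofV x = 0 ↔ x ∈ commutator ↥W := by
  have h1 : ofV x = 0 ↔ (Abelianization.of x) = 1 := Iff.rfl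
  rw [h1]
  exact QuotientGroup.eq_one_iff x

lemma ofV_eq_iff {x y : ↥W} : ofV x = ofV y ↔ x⁻¹ * y ∈ commutator ↥W := by
  rw [← ofV_eq_zero_iff, ofV_mul, ofV_inv]
  constructor
  · intro h; rw [h]; simp
  · intro h
    rw [neg_add_eq_zero] at h
    exact h

section act
variable [W.Normal]

/-- The action of `T` on `W/W'`. -/
noncomputable def act (τ : T) : VV W →+ VV W :=
  MonoidHom.toAdditive (Abelianization.map (MulAut.conjNormal τ : MulAut ↥W).toMonoidHom)

lemma act_ofV (τ : T) (x : ↥W) : act τ (ofV x) = ofV ((MulAut.conjNormal τ : MulAut ↥W) x) := rfl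

lemma act_mul (σ τ : T) (y : VV W) : act (σ * τ) y = act σ (act τ y) := by
  obtain ⟨x, rfl⟩ := ofV_surj y
  simp only [act_ofV, map_mul, MulAut.mul_apply]

lemma act_of_mem {τ : T} (hτ : τ ∈ W) (y : VV W) : act τ y = y := by
  obtain ⟨x, rfl⟩ := ofV_surj y
  rw [act_ofV]
  have e : (MulAut.conjNormal τ : MulAut ↥W) x = ⟨τ, hτ⟩ * x * (⟨τ, hτ⟩ : ↥W)⁻¹ := by
    apply Subtype.ext
    simp [MulAut.conjNormal_apply]
  rw [e, ofV_mul, ofV_mul, ofV_inv]
  abel

lemma act_one (y : VV W) : act (1 : T) y = y := act_of_mem (one_mem _) y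

lemma act_eq_of_coset {p q : T} (hpq : p⁻¹ * q ∈ W) (y : VV W) : act p y = act q y := by
  have e : q = p * (p⁻¹ * q) := by group
  rw [e, act_mul, act_of_mem hpq]

end act

open Classical in
/-- The functional on `Z₃` with kernel `Z₂`. -/
noncomputable def theta (t : T) : ZMod 2 := if t ∈ Subgroup.upperCentralSeries T 2 then 0 else 1

lemma theta_eq_zero {t : T} : theta t = 0 ↔ t ∈ Subgroup.upperCentralSeries T 2 := by
  unfold theta
  split_ifs with h
  · simp [h]
  · simp [h]

lemma theta_ne {t : T} (ht : t ∉ Subgroup.upperCentralSeries T 2) : theta t = 1 := by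
  unfold theta
  simp [ht]

lemma theta_one : theta (1 : T) = 0 := theta_eq_zero.mpr (one_mem _)

lemma theta_conj (g t : T) : theta (g * t * g⁻¹) = theta t := by
  have : g * t * g⁻¹ ∈ Subgroup.upperCentralSeries T 2 ↔ t ∈ Subgroup.upperCentralSeries T 2 := by
    haveI : (Subgroup.upperCentralSeries T 2).Normal := inferInstance
    constructor
    · intro h
      have := Subgroup.Normal.conj_mem this _ h g⁻¹
      simpa [mul_assoc] using this
    · intro h
      exact Subgroup.Normal.conj_mem this _ h g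
  by_cases ht : t ∈ Subgroup.upperCentralSeries T 2
  · rw [theta_eq_zero.mpr ht, theta_eq_zero.mpr (this.mpr ht)]
  · rw [theta_ne ht, theta_ne (fun hc => ht (this.mp hc))]

section hyp
variable [Finite T] (h : Hyp W)
include h

lemma theta_mul {s t : T} (hs : s ∈ Subgroup.upperCentralSeries T 3)
    (ht : t ∈ Subgroup.upperCentralSeries T 3) : theta (s * t) = theta s + theta t := by
  have hle : Subgroup.upperCentralSeries T 2 ≤ Subgroup.upperCentralSeries T 3 :=
    Subgroup.upperCentralSeries_mono T (by omega)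
  have c2 := h.card_upper' (i := 2) (by omega)
  have c3 := h.card_upper' (i := 3) (by omega)
  have hi : ((Subgroup.upperCentralSeries T 2).subgroupOf (Subgroup.upperCentralSeries T 3)).index = 2 := by
    have h1 := Subgroup.card_mul_index ((Subgroup.upperCentralSeries T 2).subgroupOf (Subgroup.upperCentralSeries T 3))
    have h2 : Nat.card ↥((Subgroup.upperCentralSeries T 2).subgroupOf (Subgroup.upperCentralSeries T 3)) = 4 := by
      rw [Nat.card_congr (Subgroup.subgroupOfEquivOfLe hle).toEquiv, c2]; norm_num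
    rw [h2, c3] at h1
    omega
  have key := Subgroup.mul_mem_iff_of_index_two hi (a := ⟨s, hs⟩) (b := ⟨t, ht⟩)
  simp only [Subgroup.mem_subgroupOf, Subgroup.coe_mul] at key
  unfold theta
  by_cases h1 : s ∈ Subgroup.upperCentralSeries T 2 <;> by_cases h2 : t ∈ Subgroup.upperCentralSeries T 2
    <;> simp [key, h1, h2]
  decide

end hyp

lemma zmod2_cases (c : ZMod 2) : c = 0 ∨ c = 1 := by
  revert c
  decide

lemma zmod2_one_add : (0 : ZMod 2) = 1 + 1 := by decide

lemma eq_of_add_eq_zero_of_two {V : Type*} [AddCommGroup V] {x y : V} (h : x + y = 0)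
    (hy : y + y = 0) : x = y := by
  have : x + y = y + y := by rw [h, hy]
  exact add_right_cancel this

section quad
variable [Finite T] [W.Normal] (h : Hyp W)

/-- A quadratic form on `W/W'`: the square map read by `theta`. -/
noncomputable def sV (y : VV W) : ZMod 2 :=
  theta (((Function.surjInv (ofV_surj (W := W)) y) ^ 2 : ↥W) : T)

/-- Its polar form. -/
noncomputable def cV (y y' : VV W) : ZMod 2 := sV (y + y') + sV y + sV y'

include h

lemma coe_sq_mem (x : ↥W) : (((x ^ 2 : ↥W)) : T) ∈ Subgroup.upperCentralSeries T 3 :=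
  h.mem_Z3_of_frattini (h.sq_mem x)

lemma coe_comm_mem (x y : ↥W) : (((⁅x, y⁆ : ↥W)) : T) ∈ Subgroup.upperCentralSeries T 3 :=
  h.mem_Z3_of_frattini (h.commEl_mem x y)

lemma sq_mul_frattini {x t : ↥W} (ht : t ∈ frattini ↥W) : (x * t) ^ 2 = x ^ 2 := by
  have hc : Commute x t := (h.frattini_central ht x)
  rw [hc.mul_pow]
  have ht2 : t ^ 2 = 1 := by
    have := h.sq_Z3 (h.mem_Z3_of_frattini ht)
    exact Subtype.ext (by simpa using this)
  rw [ht2, mul_one]

lemma sV_ofV (x : ↥W) : sV (ofV x) = theta ((x ^ 2 : ↥W) : T) := by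
  unfold sV
  have hs := Function.surjInv_eq (ofV_surj (W := W)) (ofV x)
  set x' := Function.surjInv (ofV_surj (W := W)) (ofV x) with hx'
  rw [ofV_eq_iff] at hs
  rw [h.commutator_eq] at hs
  have e := sq_mul_frattini h (x := x) hs
  have e' : x * (x'⁻¹ * x) = x * x'⁻¹ * x := by group
  -- `x'⁻¹ * x` is central
  have hcomm : x' = x * (x'⁻¹ * x)⁻¹ := by group
  rw [hcomm, sq_mul_frattini h (inv_mem hs)]

lemma cV_ofV (x y : ↥W) : cV (ofV x) (ofV y) = theta ((⁅y, x⁆ : ↥W) : T) := by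
  unfold cV
  rw [← ofV_mul, sV_ofV h, sV_ofV h, sV_ofV h]
  have hc : ∀ g : ↥W, g * ⁅y, x⁆ = ⁅y, x⁆ * g := fun g => h.frattini_central (h.commEl_mem y x) g
  rw [sq_mul_of_central hc]
  have e : (((x ^ 2 * y ^ 2 * ⁅y, x⁆ : ↥W)) : T) = ((x ^ 2 : ↥W) : T) * ((y ^ 2 : ↥W) : T) * ((⁅y, x⁆ : ↥W) : T) := rfl
  rw [e, theta_mul h (mul_mem (coe_sq_mem h x) (coe_sq_mem h y)) (coe_comm_mem h y x),
    theta_mul h (coe_sq_mem h x) (coe_sq_mem h y)]
  generalize theta ((x ^ 2 : ↥W) : T) = p
  generalize theta ((y ^ 2 : ↥W) : T) = q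
  generalize theta ((⁅y, x⁆ : ↥W) : T) = r
  revert p q r
  decide

lemma sV_act (τ : T) (y : VV W) : sV (act τ y) = sV y := by
  obtain ⟨x, rfl⟩ := ofV_surj y
  rw [act_ofV, sV_ofV h, sV_ofV h, ← map_pow, MulAut.conjNormal_apply]
  exact theta_conj _ _

lemma comm_mul_of_central (x y₁ y₂ : ↥W) :
    ⁅x, y₁ * y₂⁆ = ⁅x, y₁⁆ * ⁅x, y₂⁆ := by
  have hc : y₁ * ⁅x, y₂⁆ = ⁅x, y₂⁆ * y₁ := h.frattini_central (h.commEl_mem x y₂) y₁
  have e : ⁅x, y₁ * y₂⁆ = ⁅x, y₁⁆ * (y₁ * ⁅x, y₂⁆ * y₁⁻¹) := by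
    simp only [commutatorElement_def]
    group
  rw [e, hc]
  group

lemma cV_add (y₁ y₂ y₃ : VV W) : cV (y₁ + y₂) y₃ = cV y₁ y₃ + cV y₂ y₃ := by
  obtain ⟨x₁, rfl⟩ := ofV_surj y₁
  obtain ⟨x₂, rfl⟩ := ofV_surj y₂
  obtain ⟨x₃, rfl⟩ := ofV_surj y₃
  rw [← ofV_mul, cV_ofV h, cV_ofV h, cV_ofV h, comm_mul_of_central h]
  exact theta_mul h (coe_comm_mem h _ _) (coe_comm_mem h _ _)

lemma V_two (y : VV W) : y + y = 0 := by
  obtain ⟨x, rfl⟩ := ofV_surj y
  rw [← ofV_mul, ofV_eq_zero_iff, h.commutator_eq, ← pow_two]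
  exact h.sq_mem x

lemma comm_Z2 {u p : T} (hu : u ∈ Subgroup.upperCentralSeries T 2)
    (hu1 : u ∉ Subgroup.upperCentralSeries T 1) (hp : p * u = u * p) {r : T}
    (hr : r ∈ Subgroup.upperCentralSeries T 2) : p * r = r * p := by
  have c1 := h.card_upper' (i := 1) (by omega)
  have c2 := h.card_upper' (i := 2) (by omega)
  rcases mem_or_of_two (Subgroup.upperCentralSeries_mono T (show 1 ≤ 2 by omega))
    (by rw [c1, c2]; norm_num) hu hu1 hr with h1 | h1
  · exact mem_center_of_one h1 p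
  · have hc := mem_center_of_one h1 p
    have e : r = u * (u⁻¹ * r) := by group
    rw [e, ← mul_assoc, hp, mul_assoc, hc]
    group

/-- The key vanishing statement: if `p` centralizes `Z₂` but not `v`, and `p² ∈ W`, then
`c(y, py) = 0`. -/
theorem cV_fix {u v p : T} (hu : u ∈ Subgroup.upperCentralSeries T 2)
    (hu1 : u ∉ Subgroup.upperCentralSeries T 1) (hv : v ∈ Subgroup.upperCentralSeries T 3)
    (hv2 : v ∉ Subgroup.upperCentralSeries T 2) (hpu : p * u = u * p) (hpv : p * v * p⁻¹ ≠ v)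
    (hpp : p * p ∈ W) (y : VV W) : cV y (act p y) = 0 := by
  obtain ⟨x, rfl⟩ := ofV_surj y
  rw [act_ofV, cV_ofV h]
  set x₁ := (MulAut.conjNormal p : MulAut ↥W) x with hx₁
  set t : ↥W := ⁅x₁, x⁆ with ht
  have hF : t ∈ frattini ↥W := h.commEl_mem _ _
  have hZ3 : (t : T) ∈ Subgroup.upperCentralSeries T 3 := h.mem_Z3_of_frattini hF
  have ht2 : t ^ 2 = 1 := Subtype.ext (by simpa using h.sq_Z3 hZ3)
  have htinv : t⁻¹ = t := inv_eq_of_mul_eq_one_left (by rw [← pow_two]; exact ht2)
  -- `p` fixes `t`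
  have hx₂ : (MulAut.conjNormal p : MulAut ↥W) x₁ = x * (x⁻¹ * ⟨p * p, hpp⟩ * x * (⟨p * p, hpp⟩ : ↥W)⁻¹) := by
    apply Subtype.ext
    simp only [hx₁, MulAut.conjNormal_apply, Subgroup.coe_mul, InvMemClass.coe_inv]
    group
  have hr : (x⁻¹ * ⟨p * p, hpp⟩ * x * (⟨p * p, hpp⟩ : ↥W)⁻¹) ∈ frattini ↥W := by
    have : (x⁻¹ * ⟨p * p, hpp⟩ * x * (⟨p * p, hpp⟩ : ↥W)⁻¹) = ⁅x⁻¹, (⟨p * p, hpp⟩ : ↥W)⁆ := by
      rw [commutatorElement_def]
      group
    rw [this]
    exact h.commEl_mem _ _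
  have hpt : (MulAut.conjNormal p : MulAut ↥W) t = t := by
    have e1 : (MulAut.conjNormal p : MulAut ↥W) t = ⁅(MulAut.conjNormal p : MulAut ↥W) x₁, x₁⁆ := by
      rw [ht, map_commutatorElement]
    rw [e1, hx₂]
    set r := (x⁻¹ * ⟨p * p, hpp⟩ * x * (⟨p * p, hpp⟩ : ↥W)⁻¹) with hrr
    have hrc : ∀ g : ↥W, g * r = r * g := fun g => h.frattini_central hr g
    have e2 : ⁅x * r, x₁⁆ = ⁅x, x₁⁆ := by
      simp only [commutatorElement_def]
      have e3 : x * r * x₁ * (x * r)⁻¹ * x₁⁻¹ = x * (r * x₁) * (r⁻¹ * x⁻¹) * x₁⁻¹ := by group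
      rw [e3, ← hrc x₁]
      group
    rw [e2, ht, ← commutatorElement_inv, ← ht, htinv]
  have hpt' : p * (t : T) * p⁻¹ = t := by
    have := congrArg Subtype.val hpt
    simpa [MulAut.conjNormal_apply] using this
  -- conclude
  rw [theta_eq_zero]
  by_contra hcon
  have c2 := h.card_upper' (i := 2) (by omega)
  have c3 := h.card_upper' (i := 3) (by omega)
  rcases mem_or_of_two (Subgroup.upperCentralSeries_mono T (show 2 ≤ 3 by omega))
    (by rw [c2, c3]; norm_num) hv hv2 hZ3 with h1 | h1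
  · exact hcon h1
  · apply hpv
    have hcr := comm_Z2 h hu hu1 hpu h1
    have e : (t : T) = v * (v⁻¹ * t) := by group
    set r : T := v⁻¹ * (t : T) with hr'
    have e1 : p * (v * r) * p⁻¹ = (p * v * p⁻¹) * r := by
      calc p * (v * r) * p⁻¹ = (p * v * p⁻¹) * (p * r) * p⁻¹ := by group
        _ = (p * v * p⁻¹) * r := by rw [hcr]; group
    rw [← e, hpt', e] at e1
    exact (mul_right_cancel e1).symm

/-- The module `W/W'` is cyclic. -/
theorem exists_module_gen {z u v a b : T} (g : Gens W z u v a b) :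
    ∃ e : VV W, ∀ K : AddSubgroup (VV W), e ∈ K → (∀ x ∈ K, act a x ∈ K) → (∀ x ∈ K, act b x ∈ K) →
      K = ⊤ := by
  classical
  haveI : Fact (Nat.Prime 2) := ⟨Nat.prime_two⟩
  obtain ⟨M, hMc, hM⟩ := h.exists_core
  have pW := h.pW
  haveI hMn : M.Normal := normal_of_isCoatom pW hMc
  have hMi : M.index = 2 := index_eq_of_isCoatom pW hMc
  have hFM : frattini ↥W ≤ M := frattini_le_coatom hMc
  let f : ↥W → ZMod 2 := fun x => if x ∈ M then 0 else 1
  have hf : ∀ x y, f (x * y) = f x + f y := by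
    intro x y
    have key := Subgroup.mul_mem_iff_of_index_two hMi (a := x) (b := y)
    simp only [f]
    by_cases h1 : x ∈ M <;> by_cases h2 : y ∈ M <;> simp [key, h1, h2]
    exact zmod2_one_add
  have hfM : ∀ x, f x = 0 ↔ x ∈ M := by
    intro x
    simp only [f]
    by_cases h1 : x ∈ M <;> simp [h1]
  let ε₀ : VV W → ZMod 2 := fun y => f (Function.surjInv (ofV_surj (W := W)) y)
  have hε₀ : ∀ x, ε₀ (ofV x) = f x := by
    intro x
    have hs := Function.surjInv_eq (ofV_surj (W := W)) (ofV x)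
    simp only [ε₀]
    set x' := Function.surjInv (ofV_surj (W := W)) (ofV x)
    rw [ofV_eq_iff, h.commutator_eq] at hs
    have e : x' = x * (x'⁻¹ * x)⁻¹ := by group
    rw [e, hf, (hfM _).mpr (hFM (inv_mem hs)), add_zero]
  let ε : VV W →+ ZMod 2 := AddMonoidHom.mk' ε₀ (by
    intro y y'
    obtain ⟨x, rfl⟩ := ofV_surj y
    obtain ⟨x', rfl⟩ := ofV_surj y'
    rw [← ofV_mul, hε₀, hε₀, hε₀, hf])
  have hε : ∀ x, ε (ofV x) = 0 ↔ x ∈ M := fun x => by
    show ε₀ (ofV x) = 0 ↔ x ∈ M
    rw [hε₀, hfM]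
  let ψ : VV W →+ (T ⧸ W → ZMod 2) := AddMonoidHom.mk' (fun y q => ε (act (q.out)⁻¹ y)) (by
    intro y y'
    funext q
    simp only [map_add, Pi.add_apply])
  have hψ : ∀ y q, ψ y q = ε (act (q.out)⁻¹ y) := fun _ _ => rfl
  have hWn : W.Normal := inferInstance
  -- normality juggling
  have coset : ∀ {p q : T}, p⁻¹ * q ∈ W → p * q⁻¹ ∈ W := by
    intro p q hpq
    have := hWn.conj_mem _ (inv_mem hpq) p
    have e : p * (p⁻¹ * q)⁻¹ * p⁻¹ = p * q⁻¹ := by group
    rwa [e] at this
  have hinj : Function.Injective ψ := by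
    rw [injective_iff_map_eq_zero]
    intro y hy
    obtain ⟨x, rfl⟩ := ofV_surj y
    rw [ofV_eq_zero_iff, h.commutator_eq, ← hM, Subgroup.mem_iInf]
    intro τ
    have h1 := congrFun hy ((τ⁻¹ : T) : T ⧸ W)
    rw [hψ] at h1
    simp only [Pi.zero_apply] at h1
    set o := ((τ⁻¹ : T) : T ⧸ W).out with ho
    have h2 : o⁻¹ * τ⁻¹ ∈ W := QuotientGroup.eq.mp (QuotientGroup.out_eq' ((τ⁻¹ : T) : T ⧸ W))
    have h3 : act o⁻¹ (ofV x) = act τ (ofV x) := by
      apply act_eq_of_coset
      have h4 := hWn.conj_mem _ (inv_mem h2) τ⁻¹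
      have e4 : τ⁻¹ * (o⁻¹ * τ⁻¹)⁻¹ * τ⁻¹⁻¹ = (o⁻¹)⁻¹ * τ := by group
      rw [← e4]
      exact h4
    rw [h3, act_ofV] at h1
    exact (hε _).mp h1
  have hcardV : Nat.card (VV W) = 2 ^ 8 := by
    have e1 : Nat.card (VV W) = Nat.card (Abelianization ↥W) := Nat.card_congr Additive.toMul
    rw [e1]
    have e2 : Nat.card (Abelianization ↥W) = (commutator ↥W).index := rfl
    rw [e2, h.commutator_eq]
    exact h.counts.2.1
  have hcardF : Nat.card (T ⧸ W → ZMod 2) = 2 ^ 8 := by
    rw [Nat.card_fun, Nat.card_zmod]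
    have := h.counts.1
    rw [Subgroup.index] at this
    rw [this]
  have hfin : Finite (T ⧸ W → ZMod 2) := inferInstance
  have hbij : Function.Bijective ψ := hinj.bijective_of_nat_card_le (by rw [hcardV, hcardF])
  obtain ⟨e, he⟩ := hbij.2 (Pi.single (1 : T ⧸ W) 1)
  have hψτ : ∀ τ : T, ψ (act τ e) = Pi.single (τ : T ⧸ W) 1 := by
    intro τ
    funext q
    rw [hψ, ← act_mul]
    set q' : T ⧸ W := ((τ⁻¹ * q.out : T) : T ⧸ W) with hq'
    have h1 := congrFun he q'
    rw [hψ] at h1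
    have h2 : act (q.out⁻¹ * τ) e = act (q'.out)⁻¹ e := by
      apply act_eq_of_coset
      have h3 : (q'.out)⁻¹ * (τ⁻¹ * q.out) ∈ W := QuotientGroup.eq.mp (QuotientGroup.out_eq' q')
      have h4 := hWn.conj_mem _ h3 (q'.out)
      have e4 : (q.out⁻¹ * τ)⁻¹ * (q'.out)⁻¹⁻¹⁻¹ = (q'.out) * ((q'.out)⁻¹ * (τ⁻¹ * q.out)) * (q'.out)⁻¹ := by group
      rw [inv_inv] at *
      rw [e4]
      exact h4
    rw [h2, h1]
    simp only [Pi.single_apply]
    have e1 : q' = 1 ↔ q = (τ : T ⧸ W) := by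
      rw [hq', QuotientGroup.eq_one_iff]
      constructor
      · intro hm
        rw [← QuotientGroup.out_eq' q]
        apply (QuotientGroup.eq (s := W)).mpr
        have := inv_mem hm
        have e : q.out⁻¹ * τ = (τ⁻¹ * q.out)⁻¹ := by group
        rw [e]
        exact this
      · intro hq
        have h5 : ((q.out : T) : T ⧸ W) = (τ : T ⧸ W) := by
          rw [QuotientGroup.out_eq', hq]
        have := inv_mem (QuotientGroup.eq.mp h5.symm)
        rw [show (τ⁻¹ * q.out) = ((q.out)⁻¹ * τ)⁻¹ by group]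
        exact inv_mem (QuotientGroup.eq.mp h5)
    simp only [e1]
  refine ⟨e, fun K heK hKa hKb => ?_⟩
  have hact : ∀ τ, act τ e ∈ K := by
    apply g.induct_T h
    · intro w hw
      rw [act_of_mem hw]
      exact heK
    · intro τ hτ
      rw [act_mul]
      exact hKa _ hτ
    · intro τ hτ
      rw [act_mul]
      exact hKb _ hτ
  have hall : ∀ F : T ⧸ W → ZMod 2, F ∈ K.map ψ := by
    intro F
    haveI : Fintype (T ⧸ W) := Fintype.ofFinite _
    rw [← Finset.univ_sum_single F]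
    apply AddSubgroup.sum_mem
    intro q _
    have hq : F q = 0 ∨ F q = 1 := zmod2_cases _
    rcases hq with hq | hq
    · rw [hq, Pi.single_zero]
      exact zero_mem _
    · rw [hq, ← QuotientGroup.out_eq' q, ← hψτ]
      exact AddSubgroup.mem_map_of_mem _ (hact _)
  rw [eq_top_iff]
  intro y _
  obtain ⟨y', hy', hyy⟩ := hall (ψ y)
  rwa [← hinj hyy]

/-- The form on `W/W'` satisfies the hypotheses of the abstract lemma. -/
theorem quadData {z u v a b : T} (g : Gens W z u v a b) :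
    QuadData (act a) (act b) (sV (W := W)) (cV (W := W)) := by
  obtain ⟨⟨t1, t2⟩, ⟨t3, t4⟩, ⟨t5, t6⟩, ⟨t7, t8⟩, ⟨t9, t10⟩, -⟩ := g.tbl h
  obtain ⟨⟨zz, uu, vv⟩, zu, zv, uv⟩ := g.rules h
  have hun : u ≠ 1 := fun hc => g.hu1 (hc ▸ one_mem _)
  have huz : u * z ≠ 1 := by
    intro hc
    have : u = z⁻¹ := eq_inv_of_mul_eq_one_left hc
    exact g.hu1 (this ▸ inv_mem g.hz)
  have ne_of : ∀ t : T, t ≠ 1 → v * t ≠ v := by
    intro t ht hc
    exact ht (mul_left_cancel (a := v) (by rw [hc, mul_one]))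
  have comm_of : ∀ p : T, MulAut.conj p u = u → p * u = u * p := by
    intro p hp
    have : p * u * p⁻¹ = u := hp
    rwa [mul_inv_eq_iff_eq_mul] at this
  have cj : ∀ p t : T, p * t * p⁻¹ = MulAut.conj p t := fun _ _ => rfl
  have cm : ∀ p q t : T, MulAut.conj (p * q) t = MulAut.conj p (MulAut.conj q t) := fun p q t => by
    rw [map_mul]; rfl
  have pp1 : (a * b * a) * (a * b * a) ∈ W := by
    apply g.mem_W_of_conj h
    · rw [cm, t5, t5]
    · rw [cm, t6, MulEquiv.map_mul, MulEquiv.map_mul, t6, t5, g.conj_z]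
      calc v * (u * z) * (u * z) = v * (u * (z * u) * z) := by group
        _ = v * (u * (u * z) * z) := by rw [zu]
        _ = v * ((u * u) * (z * z)) := by group
        _ = v := by rw [uu, zz, mul_one, mul_one]
  have pp2 : (a * b * a * b) * (a * b * a * b) ∈ W := by
    apply g.mem_W_of_conj h
    · rw [cm, t9, t9]
    · rw [cm, t10, MulEquiv.map_mul, t10, g.conj_z, mul_assoc, zz, mul_one]
  refine
    { two := V_two h
      aa := fun x => by rw [← act_mul]; exact act_of_mem (g.aa_mem h) x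
      bb := fun x => by rw [← act_mul]; exact act_of_mem (g.bb_mem h) x
      ab4 := fun x => by
        simp only [← act_mul]
        have := act_eq_of_coset (g.abab_baba h) x
        simpa [mul_assoc] using this
      polar := fun x y => by
        unfold cV
        generalize sV (x + y) = p
        generalize sV x = q
        generalize sV y = r
        revert p q r
        decide
      csymm := fun x y => by
        unfold cV
        rw [add_comm x y, add_assoc, add_comm (sV x), ← add_assoc]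
      cadd := cV_add h
      sa := sV_act h a
      sb := sV_act h b
      h1 := fun x => cV_fix h g.hu g.hu1 g.hv g.hv2 (comm_of b g.conj_b_u)
        (by rw [cj, g.conj_b_v]; exact ne_of _ hun) (g.bb_mem h) x
      h2 := fun x => by
        simp only [← act_mul]
        rw [← mul_assoc]
        exact cV_fix h g.hu g.hu1 g.hv g.hv2 (comm_of _ t5)
          (by rw [cj, t6]; exact ne_of _ huz) pp1 x
      h3 := fun x => by
        simp only [← act_mul]
        rw [← mul_assoc, ← mul_assoc]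
        exact cV_fix h g.hu g.hu1 g.hv g.hv2 (comm_of _ t9)
          (by rw [cj, t10]; exact ne_of _ g.hz1) pp2 x }

/-- `Z(W) = Z₃`. -/
theorem center_eq {z u v a b : T} (g : Gens W z u v a b) :
    (Subgroup.center ↥W).map W.subtype = Subgroup.upperCentralSeries T 3 := by
  classical
  by_contra hne
  haveI hCn : ((Subgroup.center ↥W).map W.subtype).Normal := map_char_normal _
  have memC : ∀ t : T, t ∈ (Subgroup.center ↥W).map W.subtype ↔
      ∃ ht : t ∈ W, (⟨t, ht⟩ : ↥W) ∈ Subgroup.center ↥W := by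
    intro t
    constructor
    · rintro ⟨y, hy, rfl⟩
      exact ⟨y.2, hy⟩
    · rintro ⟨ht, hy⟩
      exact ⟨_, hy, rfl⟩
  have hle : Subgroup.upperCentralSeries T 3 ≤ (Subgroup.center ↥W).map W.subtype := by
    intro t ht
    obtain ⟨hw, hF⟩ := h.frattini_of_mem_Z3 ht
    rw [memC]
    refine ⟨hw, ?_⟩
    rw [Subgroup.mem_center_iff]
    intro y
    exact h.frattini_central hF y
  have hlt : Subgroup.upperCentralSeries T 3 < (Subgroup.center ↥W).map W.subtype :=
    lt_of_le_of_ne hle (Ne.symm hne)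
  obtain ⟨n, hnC, hnZ, hnc⟩ := exists_central_mod h.hT hlt
  have hn4 : n ∈ Subgroup.upperCentralSeries T 4 := by
    rw [show (4 : ℕ) = 3 + 1 from rfl, Subgroup.mem_upperCentralSeries_succ_iff]
    exact hnc
  have c3 := h.card_upper' (i := 3) (by omega)
  have c4 := h.card_upper' (i := 4) (by omega)
  have hZ4 : Subgroup.upperCentralSeries T 4 ≤ (Subgroup.center ↥W).map W.subtype := by
    intro t ht
    rcases mem_or_of_two (Subgroup.upperCentralSeries_mono T (show 3 ≤ 4 by omega))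
      (by rw [c3, c4]; norm_num) hn4 hnZ ht with h1 | h1
    · exact hle h1
    · have e : t = n * (n⁻¹ * t) := by group
      rw [e]
      exact mul_mem hnC (hle h1)
  have D := quadData h g
  have hN : ∀ x y : VV W, cV (opA (act b) (opA (act a) (opA (act b) (opA (act a) x)))) y = 0 := by
    intro x y
    set y₀ := opA (act b) (opA (act a) (opA (act b) (opA (act a) x))) with hy₀
    have fixa : act a y₀ = y₀ := by
      have h1 := D.A_N x
      rw [← hy₀, opA_apply] at h1
      exact eq_of_add_eq_zero_of_two h1 (D.two y₀)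
    have fixb : act b y₀ = y₀ := by
      have h1 := D.B_N x
      rw [← hy₀, opA_apply] at h1
      exact eq_of_add_eq_zero_of_two h1 (D.two y₀)
    have fixall : ∀ τ, act τ y₀ = y₀ := by
      apply g.induct_T h
      · intro w hw
        exact act_of_mem hw _
      · intro τ hτ
        rw [act_mul, hτ, fixa]
      · intro τ hτ
        rw [act_mul, hτ, fixb]
    obtain ⟨n₀, hn₀⟩ := ofV_surj y₀
    obtain ⟨x', rfl⟩ := ofV_surj y
    have hn₀4 : (n₀ : T) ∈ Subgroup.upperCentralSeries T 4 := by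
      rw [show (4 : ℕ) = 3 + 1 from rfl, Subgroup.mem_upperCentralSeries_succ_iff]
      intro τ
      have h1 := fixall τ
      rw [← hn₀, act_ofV, ofV_eq_iff, h.commutator_eq] at h1
      have h2 := h.mem_Z3_of_frattini h1
      have e : ((((MulAut.conjNormal τ : MulAut ↥W) n₀)⁻¹ * n₀ : ↥W) : T) = (τ * n₀ * τ⁻¹)⁻¹ * n₀ := by
        simp [MulAut.conjNormal_apply]
      rw [e] at h2
      have e2 : ⁅(n₀ : T), τ⁆ = (n₀ : T) * ((τ * n₀ * τ⁻¹)⁻¹ * n₀) * (n₀ : T)⁻¹ := by
        rw [commutatorElement_def]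
        group
      rw [e2]
      exact (inferInstance : (Subgroup.upperCentralSeries T 3).Normal).conj_mem _ h2 _
    obtain ⟨hw, hcen⟩ := (memC _).mp (hZ4 hn₀4)
    rw [← hn₀, cV_ofV h]
    have : ⁅x', n₀⁆ = 1 := by
      have h1 : x' * n₀ = n₀ * x' := by
        have := (Subgroup.mem_center_iff.mp hcen) x'
        exact this
      rw [commutatorElement_def, h1]
      group
    rw [this]
    exact theta_one
  obtain ⟨e, hgen⟩ := exists_module_gen h g
  haveI : Finite (VV W) := by
    have : Finite (Abelianization ↥W) := Finite.of_surjective _ (QuotientGroup.mk_surjective (s := commutator ↥W))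
    exact Finite.of_equiv _ Additive.ofMul
  have hLi := D.index_subL e hgen
  let S : Subgroup ↥W :=
    { carrier := {x | ofV x ∈ QuadData.subL (act a) (act b)}
      mul_mem' := by
        intro x y hx hy
        simp only [Set.mem_setOf_eq, ofV_mul] at hx hy ⊢
        exact add_mem hx hy
      one_mem' := by
        simp only [Set.mem_setOf_eq, ofV_one]
        exact zero_mem _
      inv_mem' := by
        intro x hx
        simp only [Set.mem_setOf_eq, ofV_inv] at hx ⊢
        exact neg_mem hx }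
  have memS : ∀ x, x ∈ S ↔ ofV x ∈ QuadData.subL (act a) (act b) := fun x => Iff.rfl
  have hSi : S.index ≤ 8 := by
    have := index_le_of_map (H := S) (fun x : ↥W => (ofV x : VV W ⧸ QuadData.subL (act a) (act b)))
      (fun x y hxy => by
        rw [memS, ofV_mul, ofV_inv]
        exact QuotientAddGroup.eq.mp hxy)
    exact this.trans hLi
  let Dd : Subgroup ↥W := (Subgroup.upperCentralSeries T 2).comap W.subtype
  have hDS : Dd ≤ S := by
    intro d hd
    rw [memS]
    have hd3 : (d : T) ∈ Subgroup.upperCentralSeries T 3 :=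
      Subgroup.upperCentralSeries_mono T (show 2 ≤ 3 by omega) hd
    obtain ⟨hw, hF⟩ := h.frattini_of_mem_Z3 hd3
    have : ofV d = 0 := by
      rw [ofV_eq_zero_iff, h.commutator_eq]
      exact hF
    rw [this]
    exact zero_mem _
  have hF := h.frattini_le_of_small S Dd hDS hSi
    (by
      intro x hx
      obtain ⟨p, p', hp⟩ := QuadData.mem_subL.mp ((memS x).mp hx)
      have h1 := (D.singular hN p p' p p').1
      rw [← hp, sV_ofV h, theta_eq_zero] at h1
      exact h1)
    (by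
      intro x hx y hy
      obtain ⟨p, p', hp⟩ := QuadData.mem_subL.mp ((memS x).mp hx)
      obtain ⟨q, q', hq⟩ := QuadData.mem_subL.mp ((memS y).mp hy)
      have h1 := (D.singular hN q q' p p').2
      rw [← hp, ← hq, cV_ofV h, theta_eq_zero] at h1
      exact h1)
  obtain ⟨hw, hvF⟩ := h.frattini_of_mem_Z3 g.hv
  exact g.hv2 (hF hvF)

end quad

end Cfsg.Agent.Lib.InvolChar.RuSylow
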