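import Cfsg.Agent.Lib.InvolChar.RuSylow3

/-!
# Rudvalis-type Sylow 2-groups: automorphisms and weak closure
-/

set_option autoImplicit false

namespace Cfsg.Agent.Lib.InvolChar.RuSylow

open scoped commutatorElement
open Cfsg.Agent.Lib.PGroups.Basic
open Cfsg.Agent.Lib.InvolChar.RuQuad

variable {T : Type*} [Group T] [Finite T] {W : Subgroup T}

lemma Hyp.mem_W_iff (h : Hyp W) (g : T) :
    g ∈ W ↔ ∀ t ∈ Subgroup.upperCentralSeries T 3, t * g = g * t := by
  rw [h.hW, Subgroup.mem_centralizer_iff]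
  rfl

/-- Weak closure in the form: an injective homomorphism from `W` to `T` has image `W`. -/
theorem Hyp.range_eq (h : Hyp W) [W.Normal] (φ : ↥W →* T) (hφ : Function.Injective φ) :
    φ.range = W := by
  let X₀ : Subgroup ↥W := W.comap φ
  have hX₀ : X₀.index ≤ 8 := by
    have h1 := index_le_of_map (H := X₀) (fun x : ↥W => (φ x : T ⧸ W)) (fun x y hxy => by
      have := QuotientGroup.eq.mp hxy
      show φ (x⁻¹ * y) ∈ W
      rwa [map_mul, map_inv])
    have h2 : Nat.card (T ⧸ W) = 8 := h.counts.1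
    omega
  let S₀ : Subgroup ↥W := X₀ ⊔ frattini ↥W
  have hS₀ : S₀.index ≤ 8 := (Subgroup.index_antitone (le_sup_left : X₀ ≤ S₀)).trans hX₀
  let D₀ : Subgroup ↥W := (Subgroup.upperCentralSeries T 3).comap φ ⊓ frattini ↥W
  have hDF : D₀ ≤ frattini ↥W := inf_le_right
  have hmemS : ∀ x ∈ S₀, ∃ x₀ ∈ X₀, ∃ t ∈ frattini ↥W, x = x₀ * t := by
    intro x hx
    obtain ⟨x₀, hx₀, t, ht, rfl⟩ := Subgroup.mem_sup_of_normal_right.mp hx
    exact ⟨x₀, hx₀, t, ht, rfl⟩
  have hF := h.frattini_le_of_small S₀ D₀ (hDF.trans le_sup_right) hS₀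
    (by
      intro x hx
      obtain ⟨x₀, hx₀, t, ht, rfl⟩ := hmemS x hx
      rw [sq_mul_frattini h ht]
      refine ⟨?_, h.sq_mem _⟩
      have : φ x₀ ∈ W := hx₀
      have h2 := coe_sq_mem h (⟨φ x₀, this⟩ : ↥W)
      show φ (x₀ ^ 2) ∈ Subgroup.upperCentralSeries T 3
      rw [map_pow]
      exact h2)
    (by
      intro x hx y hy
      obtain ⟨x₀, hx₀, t, ht, rfl⟩ := hmemS x hx
      obtain ⟨y₀, hy₀, t', ht', rfl⟩ := hmemS y hy
      have hct : ∀ g : ↥W, g * t = t * g := fun g => h.frattini_central ht g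
      have hct' : ∀ g : ↥W, g * t' = t' * g := fun g => h.frattini_central ht' g
      have e : ⁅x₀ * t, y₀ * t'⁆ = ⁅x₀, y₀⁆ := by
        simp only [commutatorElement_def]
        calc x₀ * t * (y₀ * t') * (x₀ * t)⁻¹ * (y₀ * t')⁻¹
            = x₀ * (t * y₀) * t' * t⁻¹ * x₀⁻¹ * t'⁻¹ * y₀⁻¹ := by group
          _ = x₀ * (y₀ * t) * t' * t⁻¹ * x₀⁻¹ * t'⁻¹ * y₀⁻¹ := by rw [hct y₀]
          _ = x₀ * y₀ * (t * t' * t⁻¹) * x₀⁻¹ * t'⁻¹ * y₀⁻¹ := by group
          _ = x₀ * y₀ * t' * x₀⁻¹ * t'⁻¹ * y₀⁻¹ := by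
            rw [← hct t']
            group
          _ = x₀ * y₀ * (t' * x₀⁻¹) * t'⁻¹ * y₀⁻¹ := by group
          _ = x₀ * y₀ * (x₀⁻¹ * t') * t'⁻¹ * y₀⁻¹ := by rw [← hct' x₀⁻¹]
          _ = x₀ * y₀ * x₀⁻¹ * y₀⁻¹ := by group
      rw [e]
      refine ⟨?_, h.commEl_mem _ _⟩
      have hx1 : φ x₀ ∈ W := hx₀
      have hy1 : φ y₀ ∈ W := hy₀
      have h2 := coe_comm_mem h (⟨φ x₀, hx1⟩ : ↥W) ⟨φ y₀, hy1⟩
      show φ ⁅x₀, y₀⁆ ∈ Subgroup.upperCentralSeries T 3
      rw [map_commutatorElement]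
      exact h2)
  have hle : (frattini ↥W).map φ ≤ Subgroup.upperCentralSeries T 3 := by
    rintro _ ⟨t, ht, rfl⟩
    exact (hF ht).1
  have hcard : Nat.card ↥((frattini ↥W).map φ) = Nat.card ↥(frattini ↥W) :=
    Nat.card_congr (Subgroup.equivMapOfInjective _ _ hφ).symm.toEquiv
  have heq : (frattini ↥W).map φ = Subgroup.upperCentralSeries T 3 := by
    apply Subgroup.eq_of_le_of_card_ge hle
    rw [hcard, h.counts.2.2.1, h.card_upper' (i := 3) (by omega)]
    norm_num
  have hrange : φ.range ≤ W := by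
    rintro _ ⟨x, rfl⟩
    rw [h.mem_W_iff]
    intro s hs'
    rw [← heq] at hs'
    obtain ⟨t, ht, rfl⟩ := hs'
    rw [← map_mul, ← map_mul]
    congr 1
    exact (h.frattini_central ht x).symm
  apply Subgroup.eq_of_le_of_card_ge hrange
  have : Nat.card φ.range = Nat.card ↥W :=
    Nat.card_congr (MonoidHom.ofInjective hφ).symm.toEquiv
  rw [this]

/-- The preimage in `W` of a subgroup of `W/W'`. -/
def preV (K : AddSubgroup (VV W)) : Subgroup ↥W where
  carrier := {x | ofV x ∈ K}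
  mul_mem' := by
    intro x y hx hy
    simp only [Set.mem_setOf_eq, ofV_mul] at hx hy ⊢
    exact add_mem hx hy
  one_mem' := by
    simp only [Set.mem_setOf_eq, ofV_one]
    exact zero_mem _
  inv_mem' := by
    intro x hx
    simp only [Set.mem_setOf_eq, ofV_inv] at hx ⊢
    exact neg_mem hx

lemma mem_preV {K : AddSubgroup (VV W)} {x : ↥W} : x ∈ preV K ↔ ofV x ∈ K := Iff.rfl

/-- Fixed vectors in a nonzero invariant subgroup of `W/W'` come from `Z₄`. -/
theorem exists_fixed (h : Hyp W) [W.Normal] (K : AddSubgroup (VV W))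
    (hK : ∀ τ, ∀ y ∈ K, act τ y ∈ K) (hne : K ≠ ⊥) :
    ∃ n : ↥W, ofV n ∈ K ∧ ofV n ≠ 0 ∧ (n : T) ∈ Subgroup.upperCentralSeries T 4 := by
  have mempre : ∀ x, x ∈ preV K ↔ ofV x ∈ K := fun x => Iff.rfl
  have hofV0 : ∀ x : ↥W, ofV x = 0 ↔ (x : T) ∈ Subgroup.upperCentralSeries T 3 := by
    intro x
    rw [ofV_eq_zero_iff, h.commutator_eq]
    constructor
    · exact h.mem_Z3_of_frattini
    · intro hx
      obtain ⟨_, h2⟩ := h.frattini_of_mem_Z3 hx
      exact h2
  haveI hPn : ((preV K).map W.subtype).Normal := by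
    constructor
    rintro _ ⟨x, hx, rfl⟩ g
    have hx' : ofV x ∈ K := hx
    have h1 : ofV ((MulAut.conjNormal g : MulAut ↥W) x) ∈ K := by
      rw [← act_ofV]
      exact hK g _ hx'
    exact ⟨(MulAut.conjNormal g : MulAut ↥W) x, h1, by simp [MulAut.conjNormal_apply]⟩
  have hle : Subgroup.upperCentralSeries T 3 ≤ (preV K).map W.subtype := by
    intro t ht
    have hw := h.Z3_le_W ht
    have h1 : ofV (⟨t, hw⟩ : ↥W) ∈ K := by
      rw [(hofV0 ⟨t, hw⟩).mpr ht]
      exact zero_mem _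
    exact ⟨⟨t, hw⟩, h1, rfl⟩
  have hlt : Subgroup.upperCentralSeries T 3 < (preV K).map W.subtype := by
    refine lt_of_le_of_ne hle ?_
    intro heq
    apply hne
    rw [eq_bot_iff]
    intro y hy
    obtain ⟨x, rfl⟩ := ofV_surj y
    have : (x : T) ∈ (preV K).map W.subtype := ⟨x, hy, rfl⟩
    rw [← heq] at this
    rw [AddSubgroup.mem_bot]
    exact (hofV0 x).mpr this
  obtain ⟨n, ⟨n₀, hn₀, rfl⟩, hn2, hn3⟩ := exists_central_mod h.hT hlt
  refine ⟨n₀, hn₀, ?_, ?_⟩
  · intro h0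
    exact hn2 ((hofV0 n₀).mp h0)
  · rw [show (4 : ℕ) = 3 + 1 from rfl, Subgroup.mem_upperCentralSeries_succ_iff]
    exact hn3

section aut

variable (h : Hyp W) [W.Normal] (α : MulAut T) {m : ℕ} (hm : Odd m) (hα : α ^ m = 1)
include h hm hα

/-- If `α x = x t` with `t` fixed by `α` then `t = 1`. -/
lemma fix_aux {x t : T} (hx : α x = x * t) (ht : α t = t) : t = 1 := by
  haveI : Fact (Nat.Prime 2) := ⟨Nat.prime_two⟩
  have key : ∀ k : ℕ, (α ^ k) x = x * t ^ k := by
    intro k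
    induction k with
    | zero => simp
    | succ k ih =>
      rw [pow_succ', MulAut.mul_apply, ih, map_mul, hx, map_pow, ht, pow_succ']
      group
  have h1 := key m
  rw [hα, MulAut.one_apply] at h1
  have h2 : t ^ m = 1 := by
    have : x * 1 = x * t ^ m := by rw [mul_one]; exact h1
    exact (mul_left_cancel this).symm
  obtain ⟨k, hk⟩ := h.hT t
  have d1 := orderOf_dvd_of_pow_eq_one h2
  have d2 := orderOf_dvd_of_pow_eq_one hk
  have hcop : Nat.Coprime m (2 ^ k) := Nat.Coprime.pow_right _ hm.coprime_two_right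
  have := Nat.eq_one_of_dvd_coprimes hcop d1 d2
  exact orderOf_eq_one_iff.mp this

lemma upper_mem_iff (i : ℕ) (x : T) :
    α x ∈ Subgroup.upperCentralSeries T i ↔ x ∈ Subgroup.upperCentralSeries T i := by
  have hc := Subgroup.characteristic_iff_comap_eq.mp
    (inferInstance : (Subgroup.upperCentralSeries T i).Characteristic) α
  conv_rhs => rw [← hc]
  rfl

/-- `α` fixes `Z₄` pointwise. -/
lemma fix_upper : ∀ i ≤ 4, ∀ x ∈ Subgroup.upperCentralSeries T i, α x = x := by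
  intro i
  induction i with
  | zero =>
    intro _ x hx
    have : x = 1 := by simpa using hx
    rw [this, map_one]
  | succ i ih =>
    intro hi x hx
    have ih' := ih (by omega)
    by_cases hxi : x ∈ Subgroup.upperCentralSeries T i
    · exact ih' x hxi
    have c1 := h.card_upper' (i := i) (by omega)
    have c2 := h.card_upper' (i := i + 1) (by omega)
    have hαx : α x ∈ Subgroup.upperCentralSeries T (i + 1) :=
      (upper_mem_iff h α hm hα _ _).mpr hx
    rcases mem_or_of_two (Subgroup.upperCentralSeries_mono T (show i ≤ i + 1 by omega))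
      (by rw [c1, c2]; ring) hx hxi hαx with h1 | h1
    · exact absurd ((upper_mem_iff h α hm hα _ _).mp h1) hxi
    · have e : α x = x * (x⁻¹ * α x) := by group
      have := fix_aux h α hm hα e (ih' _ h1)
      rw [e, this, mul_one]

lemma fix_Z3 {t : T} (ht : t ∈ Subgroup.upperCentralSeries T 3) : α t = t :=
  fix_upper h α hm hα 3 (by omega) t ht

lemma fix_Z4 {t : T} (ht : t ∈ Subgroup.upperCentralSeries T 4) : α t = t :=
  fix_upper h α hm hα 4 (by omega) t ht

lemma mem_W_map {x : T} (hx : x ∈ W) : α x ∈ W := by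
  rw [h.mem_W_iff]
  intro t ht
  have hx' := h.comm_Z3 hx ht
  have h1 := congrArg α hx'
  rwa [map_mul, map_mul, fix_Z3 h α hm hα ht] at h1

lemma mem_W_twist (τ : T) : τ⁻¹ * α τ ∈ W := by
  rw [h.mem_W_iff]
  intro t ht'
  have h1 : τ * t * τ⁻¹ ∈ Subgroup.upperCentralSeries T 3 :=
    (inferInstance : (Subgroup.upperCentralSeries T 3).Normal).conj_mem _ ht' _
  have h2 := fix_Z3 h α hm hα h1
  rw [map_mul, map_mul, map_inv, fix_Z3 h α hm hα ht'] at h2
  have h3 : α τ * t = τ * t * τ⁻¹ * α τ := by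
    rw [← h2]
    group
  calc t * (τ⁻¹ * α τ) = τ⁻¹ * (τ * t * τ⁻¹ * α τ) := by group
    _ = τ⁻¹ * (α τ * t) := by rw [h3]
    _ = τ⁻¹ * α τ * t := by group

/-- An automorphism of odd order acting trivially on `W/W'` is trivial on `T`. -/
lemma trivial_of_module (hV : ∀ x : ↥W, ∃ hx : α x ∈ W, ofV (⟨α x, hx⟩ : ↥W) = ofV x) : α = 1 := by
  have hW : ∀ x ∈ W, α x = x := by
    intro x hx
    obtain ⟨hx', hV'⟩ := hV ⟨x, hx⟩
    rw [eq_comm, ofV_eq_iff, h.commutator_eq] at hV'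
    have h1 := h.mem_Z3_of_frattini hV'
    have e : α x = x * (x⁻¹ * α x) := by group
    have h2 : (((⟨x, hx⟩ : ↥W)⁻¹ * ⟨α x, hx'⟩ : ↥W) : T) = x⁻¹ * α x := rfl
    rw [h2] at h1
    have := fix_aux h α hm hα e (fix_Z3 h α hm hα h1)
    rw [e, this, mul_one]
  ext τ
  have h1 := mem_W_twist h α hm hα τ
  have e : α τ = τ * (τ⁻¹ * α τ) := by group
  have := fix_aux h α hm hα e (hW _ h1)
  rw [e, this, mul_one]
  rfl

/-- `α` as a map on `W`. -/
noncomputable def alphaW : ↥W →* ↥W :=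
  (α.toMonoidHom.comp W.subtype).codRestrict W (fun x => mem_W_map h α hm hα x.2)

lemma coe_alphaW (x : ↥W) : ((alphaW h α hm hα x : ↥W) : T) = α x := rfl

/-- `α` acts trivially on `T`. -/
theorem aut_eq_one : α = 1 := by
  set αW := alphaW h α hm hα with hαW
  let αV : VV W →+ VV W := MonoidHom.toAdditive (Abelianization.map αW)
  have hαV : ∀ x, αV (ofV x) = ofV (αW x) := fun _ => rfl
  have two := V_two (W := W) h
  have hcomm : ∀ τ y, act τ (αV y) = αV (act τ y) := by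
    intro τ y
    obtain ⟨x, rfl⟩ := ofV_surj y
    rw [hαV, act_ofV, act_ofV, hαV, ← act_ofV]
    have e : αW ((MulAut.conjNormal τ : MulAut ↥W) x) =
        (MulAut.conjNormal (α τ) : MulAut ↥W) (αW x) := by
      apply Subtype.ext
      simp only [coe_alphaW, hαW, MulAut.conjNormal_apply, map_mul, map_inv]
    rw [e, ← act_ofV]
    exact act_eq_of_coset (mem_W_twist h α hm hα τ) _
  let K : AddSubgroup (VV W) := (opA αV).range
  have hKinv : ∀ τ, ∀ y ∈ K, act τ y ∈ K := by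
    rintro τ _ ⟨y, rfl⟩
    refine ⟨act τ y, ?_⟩
    simp only [opA_apply, map_add, hcomm]
  have hfin : ∀ y : VV W, αV y = y := by
    by_contra hcon
    push Not at hcon
    obtain ⟨y, hy⟩ := hcon
    have hKne : K ≠ ⊥ := by
      intro hb
      have : opA αV y ∈ K := ⟨y, rfl⟩
      rw [hb, AddSubgroup.mem_bot, opA_apply] at this
      exact hy (eq_of_add_eq_zero_of_two this (two y))
    obtain ⟨n₀, ⟨y', hy'⟩, hn0, hn4⟩ := exists_fixed h K hKinv hKne
    obtain ⟨x, rfl⟩ := ofV_surj y'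
    rw [opA_apply, hαV] at hy'
    set t : ↥W := x⁻¹ * αW x with ht
    have hofVt : ofV t = ofV n₀ := by
      rw [ht, ofV_mul, ofV_inv, ← hy']
      have : - ofV x = ofV x := by
        rw [neg_eq_iff_add_eq_zero]
        exact two _
      rw [this, add_comm]
    rw [eq_comm, ofV_eq_iff, h.commutator_eq] at hofVt
    have h1 := h.mem_Z3_of_frattini hofVt
    have h2 : ((n₀⁻¹ * t : ↥W) : T) ∈ Subgroup.upperCentralSeries T 4 :=
      Subgroup.upperCentralSeries_mono T (show 3 ≤ 4 by omega) h1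
    have h3 : (t : T) ∈ Subgroup.upperCentralSeries T 4 := by
      have e : (t : T) = (n₀ : T) * ((n₀⁻¹ * t : ↥W) : T) := by
        simp
      rw [e]
      exact mul_mem hn4 h2
    have e : α (x : T) = (x : T) * (t : T) := by
      have : (t : T) = (x : T)⁻¹ * α x := rfl
      rw [this]
      group
    have h4 := fix_aux h α hm hα e (fix_Z4 h α hm hα h3)
    have h5 : t = 1 := Subtype.ext h4
    apply hn0
    have hn2 : n₀⁻¹ * t ∈ commutator ↥W := by
      rw [h.commutator_eq]; exact hofVt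
    have : ofV n₀ = ofV t := by
      rw [ofV_eq_iff]
      exact hn2
    rw [this, h5, ofV_one]
  apply trivial_of_module h α hm hα
  intro x
  refine ⟨mem_W_map h α hm hα x.2, ?_⟩
  exact hfin (ofV x)

end aut

end Cfsg.Agent.Lib.InvolChar.RuSylow
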