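/-
Commuting involutory and Singer-type automorphisms of `2`-groups, part 1:
Hua's identity for bi-additive forms, and the `Lv` package with its first consequences.
-/
import Mathlib

set_option autoImplicit false
set_option linter.unusedSectionVars false
set_option linter.unusedVariables false
set_option linter.style.haveILetI false

namespace Cfsg.Agent.Lib.InvolChar.Singer1

open scoped commutatorElement

section Hua

variable {F : Type*} [Field F] [Finite F]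

lemma add_self_zero (h2 : (2 : F) = 0) (x : F) : x + x = 0 := by
  linear_combination x * h2

lemma eq_of_add_zero (h2 : (2 : F) = 0) {x y : F} (h : x + y = 0) : x = y := by
  linear_combination h - y * h2

lemma sq_inj' (h2 : (2 : F) = 0) {x y : F} (h : x ^ 2 = y ^ 2) : x = y := by
  have h1 : (x + y) ^ 2 = 0 := by linear_combination h + (x * y + y ^ 2) * h2
  exact eq_of_add_zero h2 (pow_eq_zero_iff (by norm_num) |>.1 h1)

lemma exists_sqrt' (h2 : (2 : F) = 0) (x : F) : ∃ y : F, y ^ 2 = x := by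
  have hinj : Function.Injective (fun y : F => y ^ 2) := fun a b h => sq_inj' h2 h
  exact (Finite.injective_iff_surjective.1 hinj) x

/-- Hua's identity. -/
lemma hua (h2 : (2 : F) = 0) (g : F → F → F)
    (hl : ∀ a b c, g (a + b) c = g a c + g b c) (hr : ∀ a b c, g a (b + c) = g a b + g a c)
    (hu : ∀ u a c, u ≠ 0 → g (u * a) (u * c) = u * g a c) (a c : F) :
    g a c ^ 2 = g 1 1 ^ 2 * a * c := by
  have g0l : ∀ c, g 0 c = 0 := by
    intro c
    have := hl 0 0 c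
    rw [add_zero] at this
    linear_combination - this
  have g0r : ∀ c, g c 0 = 0 := by
    intro c
    have := hr c 0 0
    rw [add_zero] at this
    linear_combination - this
  -- `h y⁻¹ = y⁻¹ * k y`
  have hinv : ∀ y : F, y ≠ 0 → g y⁻¹ 1 = y⁻¹ * g 1 y := by
    intro y hy
    have h1 := hu y⁻¹ 1 y (inv_ne_zero hy)
    rw [mul_one, inv_mul_cancel₀ hy] at h1
    exact h1
  have key : ∀ y : F, g 1 (y ^ 2) = y * g 1 1 := by
    intro y
    by_cases hy0 : y = 0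
    · subst hy0
      have : (0 : F) ^ 2 = 0 := by norm_num
      rw [this, g0r, zero_mul]
    by_cases hy1 : y = 1
    · subst hy1
      rw [one_pow, one_mul]
    have hy1' : y + 1 ≠ 0 := fun h => hy1 (eq_of_add_zero h2 h)
    have ht : (y ^ 2 + y) ≠ 0 := by
      have : y ^ 2 + y = y * (y + 1) := by ring
      rw [this]
      exact mul_ne_zero hy0 hy1'
    have hinvt : (y ^ 2 + y)⁻¹ = y⁻¹ + (y + 1)⁻¹ := by
      field_simp
      linear_combination (-y) * h2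
    have e0 : g (y ^ 2 + y)⁻¹ 1 = y⁻¹ * g 1 y + (y + 1)⁻¹ * (g 1 y + g 1 1) := by
      rw [hinvt, hl, hinv y hy0, hinv _ hy1', hr]
    have e1 := hinv _ ht
    rw [e0, hr] at e1
    have e2 : g 1 (y ^ 2) + g 1 y = g 1 y + y * g 1 1 := by
      have e3 : g 1 (y ^ 2) + g 1 y = (y ^ 2 + y) * (y⁻¹ * g 1 y + (y + 1)⁻¹ * (g 1 y + g 1 1)) := by
        rw [e1, ← mul_assoc, mul_inv_cancel₀ ht, one_mul]
      rw [e3]
      field_simp
      linear_combination y * (g 1 y) * h2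
    linear_combination e2
  have key2 : ∀ c : F, g 1 c ^ 2 = g 1 1 ^ 2 * c := by
    intro c
    obtain ⟨w, rfl⟩ := exists_sqrt' h2 c
    rw [key]
    ring
  by_cases ha : a = 0
  · subst ha
    rw [g0l]
    ring
  have e := hu a 1 (a⁻¹ * c) ha
  rw [mul_one, ← mul_assoc, mul_inv_cancel₀ ha, one_mul] at e
  rw [e, mul_pow, key2]
  field_simp

/-- The generator package. -/
structure Gen (lam : F) : Prop where
  two : (2 : F) = 0
  gen : ∀ c : F, c ≠ 0 → ∃ k : ℕ, lam ^ k = c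

end Hua

section GForm

variable {F : Type*} [Field F] [Finite F] {lam : F}
variable {X Y : Type*} [Group X] [Group Y]

/-- Bi-additive equivariant forms that factor through two equivariant coordinates. -/
lemma G_form (G : Gen lam) (rX : X → X) (rY : Y → Y) (ν₁ : X → F) (ν₂ : Y → F)
    (hν₁ : ∀ x x', ν₁ (x * x') = ν₁ x + ν₁ x') (hν₂ : ∀ y y', ν₂ (y * y') = ν₂ y + ν₂ y')
    (s₁ : Function.Surjective ν₁) (s₂ : Function.Surjective ν₂)
    (r₁ : ∀ x, ν₁ (rX x) = lam * ν₁ x) (r₂ : ∀ y, ν₂ (rY y) = lam * ν₂ y)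
    (B : X → Y → F) (hB₁ : ∀ x x' y, B (x * x') y = B x y + B x' y)
    (hB₂ : ∀ x y y', B x (y * y') = B x y + B x y')
    (hBr : ∀ x y, B (rX x) (rY y) = lam * B x y)
    (h0₁ : ∀ x y, ν₁ x = 0 → B x y = 0) (h0₂ : ∀ x y, ν₂ y = 0 → B x y = 0) :
    ∃ g₀ : F, ∀ x y, B x y ^ 2 = g₀ * ν₁ x * ν₂ y := by
  choose σ₁ hσ₁ using s₁
  choose σ₂ hσ₂ using s₂
  have key₁ : ∀ x x' y, ν₁ x = ν₁ x' → B x y = B x' y := by
    intro x x' y h
    have e : x' = x * (x⁻¹ * x') := by group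
    have h0 : ν₁ (x⁻¹ * x') = 0 := by
      have h1 := hν₁ x (x⁻¹ * x')
      rw [← e, ← h] at h1
      linear_combination - h1
    rw [e, hB₁, h0₁ _ _ h0, add_zero]
  have key₂ : ∀ x y y', ν₂ y = ν₂ y' → B x y = B x y' := by
    intro x y y' h
    have e : y' = y * (y⁻¹ * y') := by group
    have h0 : ν₂ (y⁻¹ * y') = 0 := by
      have h1 := hν₂ y (y⁻¹ * y')
      rw [← e, ← h] at h1
      linear_combination - h1
    rw [e, hB₂, h0₂ _ _ h0, add_zero]
  have key : ∀ x y, B x y = B (σ₁ (ν₁ x)) (σ₂ (ν₂ y)) := by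
    intro x y
    rw [key₁ x (σ₁ (ν₁ x)) y (hσ₁ _).symm, key₂ _ y (σ₂ (ν₂ y)) (hσ₂ _).symm]
  let g : F → F → F := fun a c => B (σ₁ a) (σ₂ c)
  have hl : ∀ a b c, g (a + b) c = g a c + g b c := by
    intro a b c
    show B _ _ = B _ _ + B _ _
    rw [← hB₁]
    apply key₁
    rw [hν₁, hσ₁, hσ₁, hσ₁]
  have hr : ∀ a b c, g a (b + c) = g a b + g a c := by
    intro a b c
    show B _ _ = B _ _ + B _ _
    rw [← hB₂]
    apply key₂
    rw [hν₂, hσ₂, hσ₂, hσ₂]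
  have hlam : ∀ a c, g (lam * a) (lam * c) = lam * g a c := by
    intro a c
    show B _ _ = lam * B _ _
    rw [← hBr]
    rw [key₁ _ (rX (σ₁ a)) _ (by rw [r₁, hσ₁, hσ₁]), key₂ _ _ (rY (σ₂ c)) (by rw [r₂, hσ₂, hσ₂])]
  have hpow : ∀ (k : ℕ) a c, g (lam ^ k * a) (lam ^ k * c) = lam ^ k * g a c := by
    intro k
    induction k with
    | zero => intro a c; simp
    | succ k ih =>
      intro a c
      rw [pow_succ', mul_assoc, mul_assoc, hlam, ih, mul_assoc]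
  have hu : ∀ u a c, u ≠ 0 → g (u * a) (u * c) = u * g a c := by
    intro u a c hu
    obtain ⟨k, rfl⟩ := G.gen u hu
    exact hpow k a c
  refine ⟨g 1 1 ^ 2, fun x y => ?_⟩
  rw [key x y]
  exact hua G.two g hl hr hu _ _

end GForm

section Fix

/-- An involution of a nontrivial `2`-group has a nontrivial fixed point in each invariant subgroup. -/
lemma exists_fix {G : Type*} [Group G] [Finite G] (hG : IsPGroup 2 G) (a : G →* G)
    (ha : ∀ x, a (a x) = x) (H : Subgroup G) (hH : ∀ x ∈ H, a x ∈ H) (hne : H ≠ ⊥) :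
    ∃ x ∈ H, x ≠ 1 ∧ a x = x := by
  classical
  by_contra hcon
  push Not at hcon
  haveI : Fact (Nat.Prime 2) := ⟨Nat.prime_two⟩
  haveI : Fintype H := Fintype.ofFinite _
  let f : Function.End H := fun b => ⟨a b, hH _ b.2⟩
  have hf : f ^ 2 ^ 1 = 1 := by
    funext b
    apply Subtype.ext
    show a (a b) = b
    exact ha _
  have hmod := Equiv.Perm.card_fixedPoints_modEq hf
  have hfix : Function.fixedPoints f = {1} := by
    ext b
    simp only [Function.mem_fixedPoints, Function.IsFixedPt, Set.mem_singleton_iff]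
    constructor
    · intro hb
      by_contra hb1
      have hb1' : (b : G) ≠ 1 := fun h => hb1 (Subtype.ext h)
      exact hcon b b.2 hb1' (congrArg Subtype.val hb)
    · rintro rfl
      apply Subtype.ext
      show a 1 = 1
      exact map_one a
  have h1 : Fintype.card (Function.fixedPoints f) = 1 := by
    simp only [hfix]
    simp
  rw [h1] at hmod
  obtain ⟨k, hk⟩ := IsPGroup.iff_card.mp (hG.to_subgroup H)
  have hk0 : k ≠ 0 := by
    rintro rfl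
    rw [pow_zero] at hk
    exact hne (Subgroup.eq_bot_of_card_eq _ hk)
  rw [← Nat.card_eq_fintype_card, hk] at hmod
  obtain ⟨j, rfl⟩ : ∃ j, k = j + 1 := ⟨k - 1, by omega⟩
  rw [pow_succ] at hmod
  have : (2 ^ j * 2) % 2 = 1 % 2 := hmod
  omega

end Fix

section Lv

variable {F : Type*} [Field F] [Finite F] {lam : F}
variable {P : Type*} [Group P]

lemma Gen.orbit (G : Gen lam) (S : F → Prop) (hS : ∀ c, S c → S (lam * c)) {c₀ : F} (h0 : c₀ ≠ 0)
    (h : S c₀) (c : F) (hc : c ≠ 0) : S c := by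
  obtain ⟨k, hk⟩ := G.gen (c * c₀⁻¹) (mul_ne_zero hc (inv_ne_zero h0))
  have hp : ∀ k : ℕ, S (lam ^ k * c₀) := by
    intro k
    induction k with
    | zero => simpa using h
    | succ k ih =>
      have := hS _ ih
      rwa [← mul_assoc, ← pow_succ'] at this
  have := hp k
  rw [hk, mul_assoc, inv_mul_cancel₀ h0, mul_one] at this
  exact this

/-- The package: `a` is an involutory automorphism, `r` commutes with it, and `ψ` identifies the
additive group of the field with the fixed points of `a`, carrying `lam` to `r`. -/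
structure Lv (lam : F) (a r : P ≃* P) (ψ : F → P) : Prop where
  G : Gen lam
  fin : Finite P
  pg : IsPGroup 2 P
  aa : ∀ x, a (a x) = x
  ar : ∀ x, a (r x) = r (a x)
  ψ_add : ∀ c d, ψ (c + d) = ψ c * ψ d
  ψ_inj : Function.Injective ψ
  fix : ∀ x, a x = x ↔ ∃ c, ψ c = x
  ψ_lam : ∀ c, ψ (lam * c) = r (ψ c)

namespace Lv

variable {a r : P ≃* P} {ψ : F → P} (L : Lv lam a r ψ)
include L

lemma ψ_zero : ψ 0 = 1 := by
  have := L.ψ_add 0 0
  rw [add_zero] at this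
  exact mul_eq_left.1 this.symm

lemma ψ_self (c : F) : ψ c * ψ c = 1 := by
  rw [← L.ψ_add, add_self_zero L.G.two, L.ψ_zero]

lemma ψ_sq (c : F) : ψ c ^ 2 = 1 := by
  rw [pow_two, L.ψ_self]

lemma ψ_inv (c : F) : (ψ c)⁻¹ = ψ c := inv_eq_of_mul_eq_one_left (L.ψ_self c)

lemma ψ_eq_one {c : F} (h : ψ c = 1) : c = 0 := L.ψ_inj (by rw [h, L.ψ_zero])

lemma a_ψ (c : F) : a (ψ c) = ψ c := (L.fix _).2 ⟨c, rfl⟩

lemma ψ_central (c : F) (x : P) : ψ c * x = x * ψ c := by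
  classical
  haveI := L.fin
  haveI : Fact (Nat.Prime 2) := ⟨Nat.prime_two⟩
  have hnt : Nontrivial P := by
    refine ⟨⟨ψ 1, 1, fun h => ?_⟩⟩
    exact one_ne_zero (L.ψ_eq_one h)
  have hZ : Subgroup.center P ≠ ⊥ := by
    have := L.pg.center_nontrivial
    exact (Subgroup.nontrivial_iff_ne_bot _).1 this
  obtain ⟨z, hz, hz1, haz⟩ := exists_fix L.pg a.toMonoidHom L.aa (Subgroup.center P)
    (fun x hx => by
      rw [Subgroup.mem_center_iff] at hx ⊢
      intro g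
      have := congrArg a (hx (a g))
      simp only [map_mul, L.aa] at this
      exact this) hZ
  obtain ⟨c₀, rfl⟩ := (L.fix _).1 haz
  have hc₀ : c₀ ≠ 0 := fun h => hz1 (by rw [h, L.ψ_zero])
  have hall : ∀ c : F, ψ c ∈ Subgroup.center P := by
    intro c
    by_cases hc : c = 0
    · rw [hc, L.ψ_zero]
      exact one_mem _
    refine L.G.orbit (fun c => ψ c ∈ Subgroup.center P) ?_ hc₀ hz c hc
    intro c hc
    show ψ (lam * c) ∈ _
    rw [L.ψ_lam]
    rw [Subgroup.mem_center_iff] at hc ⊢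
    intro g
    have := congrArg r (hc (r.symm g))
    simpa only [map_mul, MulEquiv.apply_symm_apply] using this
  exact ((Subgroup.mem_center_iff.1 (hall c)) x).symm

omit L in
/-- The fixed-point subgroup. -/
def D (L : Lv lam a r ψ) : Subgroup P where
  carrier := {x | ∃ c, ψ c = x}
  mul_mem' := by
    rintro _ _ ⟨c, rfl⟩ ⟨d, rfl⟩
    exact ⟨c + d, L.ψ_add c d⟩
  one_mem' := ⟨0, L.ψ_zero⟩
  inv_mem' := by
    rintro _ ⟨c, rfl⟩
    exact ⟨c, (L.ψ_inv c).symm⟩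

lemma mem_D {x : P} : x ∈ L.D ↔ ∃ c, ψ c = x := Iff.rfl

lemma ψ_mem (c : F) : ψ c ∈ L.D := ⟨c, rfl⟩

lemma mem_D_iff_fix {x : P} : x ∈ L.D ↔ a x = x := (L.fix x).symm

lemma D_normal : L.D.Normal := by
  constructor
  rintro _ ⟨c, rfl⟩ g
  refine ⟨c, ?_⟩
  rw [← L.ψ_central c g]
  group

lemma D_central {x : P} (hx : x ∈ L.D) (g : P) : x * g = g * x := by
  obtain ⟨c, rfl⟩ := hx
  exact L.ψ_central c g

lemma D_sq {x : P} (hx : x ∈ L.D) : x ^ 2 = 1 := by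
  obtain ⟨c, rfl⟩ := hx
  exact L.ψ_sq c

lemma D_map_a : L.D.map a.toMonoidHom = L.D := by
  ext x
  simp only [Subgroup.mem_map]
  constructor
  · rintro ⟨y, hy, rfl⟩
    obtain ⟨c, rfl⟩ := hy
    exact ⟨c, (L.a_ψ c).symm⟩
  · intro hx
    exact ⟨x, hx, L.mem_D_iff_fix.1 hx⟩

lemma D_map_r : L.D.map r.toMonoidHom = L.D := by
  ext x
  simp only [Subgroup.mem_map]
  constructor
  · rintro ⟨y, hy, rfl⟩
    obtain ⟨c, rfl⟩ := hy
    exact ⟨lam * c, L.ψ_lam c⟩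
  · intro hx
    refine ⟨r.symm x, ?_, by simp⟩
    rw [L.mem_D_iff_fix] at hx ⊢
    apply r.injective
    rw [← L.ar]
    simpa using hx

omit L in
/-- The subgroup of elements that `a` moves by an element of `D`. -/
def E (L : Lv lam a r ψ) : Subgroup P where
  carrier := {x | ∃ c, a x = x * ψ c}
  mul_mem' := by
    rintro x y ⟨c, hc⟩ ⟨d, hd⟩
    refine ⟨c + d, ?_⟩
    rw [map_mul, hc, hd, L.ψ_add, mul_assoc, mul_assoc, ← mul_assoc (ψ c), L.ψ_central c y, mul_assoc]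
  one_mem' := ⟨0, by rw [map_one, L.ψ_zero, one_mul]⟩
  inv_mem' := by
    rintro x ⟨c, hc⟩
    refine ⟨c, ?_⟩
    rw [map_inv, hc, mul_inv_rev, L.ψ_inv, L.ψ_central]

lemma mem_E {x : P} : x ∈ L.E ↔ ∃ c, a x = x * ψ c := Iff.rfl

lemma D_le_E : L.D ≤ L.E := by
  intro x hx
  refine ⟨0, ?_⟩
  rw [L.ψ_zero, mul_one]
  exact L.mem_D_iff_fix.1 hx

open Classical in
omit L in
/-- The value of the coordinate on `E`. -/
noncomputable def cc (L : Lv lam a r ψ) (x : P) : F :=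
  if h : ∃ c, a x = x * ψ c then h.choose else 0

lemma cc_spec {x : P} (hx : x ∈ L.E) : a x = x * ψ (L.cc x) := by
  have h : ∃ c, a x = x * ψ c := hx
  rw [cc, dif_pos h]
  exact h.choose_spec

lemma cc_eq {x : P} {c : F} (h : a x = x * ψ c) : L.cc x = c := by
  have hx : x ∈ L.E := ⟨c, h⟩
  apply L.ψ_inj
  have := L.cc_spec hx
  rw [h] at this
  exact (mul_left_cancel this).symm

lemma cc_mul {x y : P} (hx : x ∈ L.E) (hy : y ∈ L.E) : L.cc (x * y) = L.cc x + L.cc y := by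
  apply L.cc_eq
  rw [map_mul, L.cc_spec hx, L.cc_spec hy, L.ψ_add, mul_assoc, mul_assoc, ← mul_assoc (ψ _),
    L.ψ_central _ y, mul_assoc]

lemma cc_of_D {x : P} (hx : x ∈ L.D) : L.cc x = 0 := by
  apply L.cc_eq
  rw [L.ψ_zero, mul_one]
  exact L.mem_D_iff_fix.1 hx

lemma cc_one : L.cc (1 : P) = 0 := L.cc_of_D (one_mem _)

lemma cc_inv {x : P} (hx : x ∈ L.E) : L.cc x⁻¹ = L.cc x := by
  apply L.cc_eq
  rw [map_inv, L.cc_spec hx, mul_inv_rev, L.ψ_inv, L.ψ_central]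

lemma mem_D_of_cc {x : P} (hx : x ∈ L.E) (h0 : L.cc x = 0) : x ∈ L.D := by
  rw [L.mem_D_iff_fix, L.cc_spec hx, h0, L.ψ_zero, mul_one]

lemma r_mem_E {x : P} (hx : x ∈ L.E) : r x ∈ L.E := by
  refine ⟨lam * L.cc x, ?_⟩
  rw [L.ar, L.cc_spec hx, map_mul, L.ψ_lam]

lemma cc_r {x : P} (hx : x ∈ L.E) : L.cc (r x) = lam * L.cc x := by
  apply L.cc_eq
  rw [L.ar, L.cc_spec hx, map_mul, L.ψ_lam]

lemma eq_of_cc {x y : P} (hx : x ∈ L.E) (hy : y ∈ L.E) (h : L.cc x = L.cc y) : x⁻¹ * y ∈ L.D := by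
  apply L.mem_D_of_cc (mul_mem (inv_mem hx) hy)
  rw [L.cc_mul (inv_mem hx) hy, L.cc_inv hx, h]
  exact add_self_zero L.G.two _

lemma exists_cc_ne (hD : L.D ≠ ⊤) : ∃ x ∈ L.E, L.cc x ≠ 0 := by
  haveI := L.fin
  haveI := L.D_normal
  let qa : P ⧸ L.D ≃* P ⧸ L.D := QuotientGroup.congr L.D L.D a L.D_map_a
  have hqa : ∀ x : P, qa (x : P ⧸ L.D) = (a x : P) := fun x => rfl
  have hpg : IsPGroup 2 (P ⧸ L.D) := L.pg.to_quotient L.D
  have hne : (⊤ : Subgroup (P ⧸ L.D)) ≠ ⊥ := by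
    intro h
    apply hD
    rw [eq_top_iff]
    intro x _
    have h1 : (x : P ⧸ L.D) ∈ (⊥ : Subgroup (P ⧸ L.D)) := by
      rw [← h]
      trivial
    exact (QuotientGroup.eq_one_iff x).1 h1
  obtain ⟨x, -, hx1, hx2⟩ := exists_fix hpg qa.toMonoidHom
    (by
      intro x
      induction x using QuotientGroup.induction_on with
      | H x =>
        show qa (qa _) = _
        rw [hqa, hqa, L.aa]) ⊤ (fun _ _ => trivial) hne
  induction x using QuotientGroup.induction_on with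
  | H x =>
    have h1 : (a x : P ⧸ L.D) = (x : P ⧸ L.D) := hx2
    have h2 : x⁻¹ * a x ∈ L.D := by
      have := QuotientGroup.eq.1 h1.symm
      exact this
    obtain ⟨c, hc⟩ := h2
    have h3 : a x = x * ψ c := by
      rw [hc]
      group
    have hxE : x ∈ L.E := ⟨c, h3⟩
    refine ⟨x, hxE, fun h => hx1 ?_⟩
    exact (QuotientGroup.eq_one_iff x).2 (L.mem_D_of_cc hxE h)

lemma cc_surj (hD : L.D ≠ ⊤) (c : F) : ∃ x ∈ L.E, L.cc x = c := by
  by_cases hc : c = 0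
  · exact ⟨1, one_mem _, by rw [hc, L.cc_one]⟩
  obtain ⟨x, hx, hx0⟩ := L.exists_cc_ne hD
  refine L.G.orbit (fun c => ∃ x ∈ L.E, L.cc x = c) ?_ hx0 ⟨x, hx, rfl⟩ c hc
  rintro c ⟨y, hy, rfl⟩
  exact ⟨r y, L.r_mem_E hy, L.cc_r hy⟩

/-- Squares of a coordinate subgroup. -/
lemma exists_sq_coeff (X : Subgroup P) (hXr : ∀ x ∈ X, r x ∈ X) (ν : P → F)
    (hadd : ∀ x ∈ X, ∀ y ∈ X, ν (x * y) = ν x + ν y) (hr : ∀ x ∈ X, ν (r x) = lam * ν x)
    (hker : ∀ x ∈ X, ν x = 0 → x ∈ L.D) (hsq : ∀ x ∈ X, x ^ 2 ∈ L.D) (h1 : ∃ x ∈ X, ν x = 1) :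
    ∃ μ : F, ∀ x ∈ X, x ^ 2 = ψ (μ * ν x) := by
  obtain ⟨x₁, hx₁, hν₁⟩ := h1
  obtain ⟨μ, hμ⟩ := hsq x₁ hx₁
  refine ⟨μ, ?_⟩
  have hν1 : ν 1 = 0 := by
    have := hadd 1 (one_mem _) 1 (one_mem _)
    rw [mul_one] at this
    linear_combination - this
  have hνinv : ∀ x ∈ X, ν x⁻¹ = ν x := by
    intro x hx
    have := hadd x hx x⁻¹ (inv_mem hx)
    rw [mul_inv_cancel, hν1] at this
    exact (eq_of_add_zero L.G.two this.symm).symm
  have hsame : ∀ x ∈ X, ∀ y ∈ X, ν x = ν y → x ^ 2 = y ^ 2 := by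
    intro x hx y hy h
    have h0 : ν (x⁻¹ * y) = 0 := by
      rw [hadd _ (inv_mem hx) _ hy, hνinv x hx, h]
      exact add_self_zero L.G.two _
    have hd := hker _ (mul_mem (inv_mem hx) hy) h0
    have hy' : y = x * (x⁻¹ * y) := by group
    rw [hy', pow_two, pow_two]
    have hcomm := L.D_central hd
    calc x * x = x * x * ((x⁻¹ * y) ^ 2) := by rw [L.D_sq hd, mul_one]
      _ = _ := by
        rw [pow_two]
        have := hcomm x
        calc x * x * ((x⁻¹ * y) * (x⁻¹ * y)) = x * (x * (x⁻¹ * y)) * (x⁻¹ * y) := by group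
          _ = x * ((x⁻¹ * y) * x) * (x⁻¹ * y) := by rw [← this]
          _ = _ := by group
  have hex : ∀ c : F, c ≠ 0 → ∃ y ∈ X, ν y = c ∧ y ^ 2 = ψ (μ * c) := by
    intro c hc
    refine L.G.orbit (fun c => ∃ y ∈ X, ν y = c ∧ y ^ 2 = ψ (μ * c)) ?_ one_ne_zero
      ⟨x₁, hx₁, hν₁, by rw [mul_one, hμ]⟩ c hc
    rintro c ⟨y, hy, rfl, hy2⟩
    refine ⟨r y, hXr y hy, hr y hy, ?_⟩
    rw [← map_pow, hy2, ← L.ψ_lam]
    congr 1
    ring
  intro x hx
  by_cases hc : ν x = 0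
  · rw [hc, mul_zero, L.ψ_zero]
    exact L.D_sq (hker x hx hc)
  obtain ⟨y, hy, hνy, hy2⟩ := hex _ hc
  rw [hsame x hx y hy hνy.symm, hy2]

lemma sq_E_mem {x : P} (hx : x ∈ L.E) : x ^ 2 ∈ L.D := by
  rw [L.mem_D_iff_fix, map_pow, L.cc_spec hx, pow_two, pow_two]
  calc x * ψ (L.cc x) * (x * ψ (L.cc x)) = x * x * (ψ (L.cc x) * ψ (L.cc x)) := by
        rw [mul_assoc, mul_assoc, ← mul_assoc (ψ _) x, L.ψ_central, mul_assoc]
    _ = x * x := by rw [L.ψ_self, mul_one]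

/-- Squares on `E`. -/
lemma exists_mu (hD : L.D ≠ ⊤) : ∃ μ : F, ∀ x ∈ L.E, x ^ 2 = ψ (μ * L.cc x) := by
  apply L.exists_sq_coeff L.E (fun x hx => L.r_mem_E hx) L.cc
  · exact fun x hx y hy => L.cc_mul hx hy
  · exact fun x hx => L.cc_r hx
  · exact fun x hx h0 => L.mem_D_of_cc hx h0
  · exact fun x hx => L.sq_E_mem hx
  · exact L.cc_surj hD 1

/-- `E` is abelian. -/
lemma E_comm (hD : L.D ≠ ⊤) {x y : P} (hx : x ∈ L.E) (hy : y ∈ L.E) : x * y = y * x := by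
  obtain ⟨μ, hμ⟩ := L.exists_mu hD
  have h1 := hμ _ (mul_mem hx hy)
  rw [L.cc_mul hx hy, mul_add, L.ψ_add, ← hμ x hx, ← hμ y hy] at h1
  simp only [pow_two] at h1
  have h2 : x * (y * x) * y = x * (x * y) * y := by
    calc x * (y * x) * y = x * y * (x * y) := by group
      _ = x * x * (y * y) := h1
      _ = _ := by group
  have h3 := mul_right_cancel h2
  exact (mul_left_cancel h3).symm

/-- If some `m⁻¹ a m` is in `E` with nonzero coordinate then `μ = 1`. -/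
lemma mu_eq_one {μ : F} (hμ : ∀ x ∈ L.E, x ^ 2 = ψ (μ * L.cc x)) {m : P} (hm : m⁻¹ * a m ∈ L.E)
    (hm0 : L.cc (m⁻¹ * a m) ≠ 0) : μ = 1 := by
  set z := m⁻¹ * a m with hz
  have h1 : a z = z⁻¹ := by
    rw [hz, map_mul, map_inv, L.aa]
    group
  have h2 := L.cc_spec hm
  rw [h1] at h2
  have h3 : z ^ 2 = ψ (L.cc z) := by
    have : z * z = (ψ (L.cc z))⁻¹ := by
      calc z * z = z * (z * ψ (L.cc z)) * (ψ (L.cc z))⁻¹ := by group
        _ = z * z⁻¹ * (ψ (L.cc z))⁻¹ := by rw [← h2]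
        _ = _ := by group
    rw [pow_two, this, L.ψ_inv]
  have h4 := hμ z hm
  rw [h3] at h4
  have h5 := L.ψ_inj h4
  have : (μ + 1) * L.cc z = 0 := by
    linear_combination - h5 + L.cc z * L.G.two
  have h6 := (mul_eq_zero.1 this).resolve_right hm0
  exact eq_of_add_zero L.G.two h6

end Lv

end Lv

section Comm

variable {G : Type*} [Group G]

lemma comm_mul_l (x x' y : G) : ⁅x * x', y⁆ = x * ⁅x', y⁆ * x⁻¹ * ⁅x, y⁆ := by
  simp only [commutatorElement_def]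
  group

lemma comm_mul_r (x y y' : G) : ⁅x, y * y'⁆ = ⁅x, y⁆ * (y * ⁅x, y'⁆ * y⁻¹) := by
  simp only [commutatorElement_def]
  group

lemma comm_symm (x y : G) : ⁅x, y⁆ = ⁅y, x⁆⁻¹ := (commutatorElement_inv y x).symm

lemma comm_eq_one_of_comm {x y : G} (h : x * y = y * x) : ⁅x, y⁆ = 1 :=
  commutatorElement_eq_one_iff_mul_comm.2 h

lemma comm_of_eq_one {x y : G} (h : ⁅x, y⁆ = 1) : x * y = y * x :=
  commutatorElement_eq_one_iff_mul_comm.1 h

lemma map_comm {H : Type*} [Group H] (f : G →* H) (x y : G) : f ⁅x, y⁆ = ⁅f x, f y⁆ :=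
  map_commutatorElement f x y

end Comm

section Lv2

variable {F : Type*} [Field F] [Finite F] {lam : F}
variable {P : Type*} [Group P]
variable {a r : P ≃* P} {ψ : F → P}

namespace Lv

lemma conj_D (L : Lv lam a r ψ) {u : P} (hu : u ∈ L.D) (g : P) : g * u * g⁻¹ = u := by
  rw [← L.D_central hu g]
  group

lemma r_comm (r : P ≃* P) (x y : P) : r ⁅x, y⁆ = ⁅r x, r y⁆ := map_commutatorElement r.toMonoidHom x y

/-- Commutator forms on two coordinate groups. -/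
lemma comm_G (L : Lv lam a r ψ) {X Y : Type*} [Group X] [Group Y] (ι₁ : X →* P) (ι₂ : Y →* P)
    (rX : X → X) (rY : Y → Y)
    (h1 : ∀ x, ι₁ (rX x) = r (ι₁ x)) (h2 : ∀ y, ι₂ (rY y) = r (ι₂ y))
    (hD : ∀ x y, ⁅ι₁ x, ι₂ y⁆ ∈ L.D)
    (ν₁ : X → F) (ν₂ : Y → F)
    (hν₁ : ∀ x x', ν₁ (x * x') = ν₁ x + ν₁ x') (hν₂ : ∀ y y', ν₂ (y * y') = ν₂ y + ν₂ y')
    (s₁ : Function.Surjective ν₁) (s₂ : Function.Surjective ν₂)
    (r₁ : ∀ x, ν₁ (rX x) = lam * ν₁ x) (r₂ : ∀ y, ν₂ (rY y) = lam * ν₂ y)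
    (h0₁ : ∀ x y, ν₁ x = 0 → ⁅ι₁ x, ι₂ y⁆ = 1) (h0₂ : ∀ x y, ν₂ y = 0 → ⁅ι₁ x, ι₂ y⁆ = 1) :
    ∃ g₀ : F, ∀ x y, ∃ v, ⁅ι₁ x, ι₂ y⁆ = ψ v ∧ v ^ 2 = g₀ * ν₁ x * ν₂ y := by
  choose B hB using hD
  have hB₁ : ∀ x x' y, B (x * x') y = B x y + B x' y := by
    intro x x' y
    apply L.ψ_inj
    rw [hB, L.ψ_add, hB, hB, map_mul, comm_mul_l, L.conj_D (L.mem_D.2 ⟨_, hB x' y⟩)]
    exact L.D_central (L.mem_D.2 ⟨_, hB x' y⟩) _
  have hB₂ : ∀ x y y', B x (y * y') = B x y + B x y' := by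
    intro x y y'
    apply L.ψ_inj
    rw [hB, L.ψ_add, hB, hB, map_mul, comm_mul_r, L.conj_D (L.mem_D.2 ⟨_, hB x y'⟩)]
  have hBr : ∀ x y, B (rX x) (rY y) = lam * B x y := by
    intro x y
    apply L.ψ_inj
    rw [hB, L.ψ_lam, hB, h1, h2, r_comm]
  have hB0₁ : ∀ x y, ν₁ x = 0 → B x y = 0 := by
    intro x y h
    apply L.ψ_inj
    rw [hB, h0₁ x y h, L.ψ_zero]
  have hB0₂ : ∀ x y, ν₂ y = 0 → B x y = 0 := by
    intro x y h
    apply L.ψ_inj
    rw [hB, h0₂ x y h, L.ψ_zero]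
  obtain ⟨g₀, hg₀⟩ := G_form L.G rX rY ν₁ ν₂ hν₁ hν₂ s₁ s₂ r₁ r₂ B hB₁ hB₂ hBr hB0₁ hB0₂
  exact ⟨g₀, fun x y => ⟨B x y, (hB x y).symm, hg₀ x y⟩⟩

/-- An alternating form as in `comm_G` vanishes. -/
lemma form_vanish (L : Lv lam a r ψ) {X : Type*} [Group X] (ι : X →* P) (rX : X → X)
    (h1 : ∀ x, ι (rX x) = r (ι x)) (hD : ∀ x y, ⁅ι x, ι y⁆ ∈ L.D)
    (ν : X → F) (hν : ∀ x x', ν (x * x') = ν x + ν x') (s : Function.Surjective ν)
    (r₁ : ∀ x, ν (rX x) = lam * ν x) (h0 : ∀ x y, ν x = 0 → ⁅ι x, ι y⁆ = 1) :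
    ∀ x y, ι x * ι y = ι y * ι x := by
  obtain ⟨g₀, hg₀⟩ := L.comm_G ι ι rX rX h1 h1 hD ν ν hν hν s s r₁ r₁ h0
    (fun x y h => by rw [comm_symm, h0 y x h, inv_one])
  have hg0 : g₀ = 0 := by
    obtain ⟨x₁, hx₁⟩ := s 1
    obtain ⟨v, hv, hv2⟩ := hg₀ x₁ x₁
    rw [commutatorElement_self] at hv
    have hv0 : v = 0 := L.ψ_eq_one hv.symm
    rw [hv0, hx₁] at hv2
    simpa using hv2.symm
  intro x y
  obtain ⟨v, hv, hv2⟩ := hg₀ x y
  rw [hg0, zero_mul, zero_mul] at hv2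
  have hv0 : v = 0 := by simpa using hv2
  rw [hv0, L.ψ_zero] at hv
  exact comm_of_eq_one hv

instance inst_normal (L : Lv lam a r ψ) : L.D.Normal := L.D_normal

/-- The induced maps on the quotient. -/
def qa (L : Lv lam a r ψ) : P ⧸ L.D ≃* P ⧸ L.D := QuotientGroup.congr L.D L.D a L.D_map_a

def qr (L : Lv lam a r ψ) : P ⧸ L.D ≃* P ⧸ L.D := QuotientGroup.congr L.D L.D r L.D_map_r

lemma qa_mk (L : Lv lam a r ψ) (x : P) : L.qa (x : P ⧸ L.D) = (a x : P) := rfl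

lemma qr_mk (L : Lv lam a r ψ) (x : P) : L.qr (x : P ⧸ L.D) = (r x : P) := rfl

open Classical in
/-- A section of the coordinate on `E`. -/
noncomputable def sec (L : Lv lam a r ψ) (c : F) : P :=
  if h : ∃ x ∈ L.E, L.cc x = c then h.choose else 1

lemma sec_mem (L : Lv lam a r ψ) (hD : L.D ≠ ⊤) (c : F) : L.sec c ∈ L.E := by
  have h := L.cc_surj hD c
  rw [sec, dif_pos h]
  exact h.choose_spec.1

lemma sec_cc (L : Lv lam a r ψ) (hD : L.D ≠ ⊤) (c : F) : L.cc (L.sec c) = c := by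
  have h := L.cc_surj hD c
  rw [sec, dif_pos h]
  exact h.choose_spec.2

/-- The induced map on the field. -/
noncomputable def qψ (L : Lv lam a r ψ) (c : F) : P ⧸ L.D := (L.sec c : P ⧸ L.D)

lemma mk_eq_qψ (L : Lv lam a r ψ) (hD : L.D ≠ ⊤) {x : P} {c : F} :
    (x : P ⧸ L.D) = L.qψ c ↔ x ∈ L.E ∧ L.cc x = c := by
  constructor
  · intro h
    have h1 : x⁻¹ * L.sec c ∈ L.D := QuotientGroup.eq.1 h
    have h2 : x = L.sec c * (x⁻¹ * L.sec c)⁻¹ := by group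
    have h3 : x ∈ L.E := by
      rw [h2]
      exact mul_mem (L.sec_mem hD c) (inv_mem (L.D_le_E h1))
    refine ⟨h3, ?_⟩
    rw [h2, L.cc_mul (L.sec_mem hD c) (inv_mem (L.D_le_E h1)), L.sec_cc hD,
      L.cc_of_D (inv_mem h1), add_zero]
  · rintro ⟨h1, h2⟩
    apply QuotientGroup.eq.2
    apply L.eq_of_cc h1 (L.sec_mem hD c)
    rw [h2, L.sec_cc hD]

/-- The package passes to the quotient by `D`. -/
theorem quot (L : Lv lam a r ψ) (hD : L.D ≠ ⊤) : Lv lam L.qa L.qr L.qψ := by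
  haveI := L.fin
  refine ⟨L.G, inferInstance, L.pg.to_quotient L.D, ?_, ?_, ?_, ?_, ?_, ?_⟩
  · intro x
    induction x using QuotientGroup.induction_on with
    | H x => rw [L.qa_mk, L.qa_mk, L.aa]
  · intro x
    induction x using QuotientGroup.induction_on with
    | H x => rw [L.qr_mk, L.qa_mk, L.qa_mk, L.qr_mk, L.ar]
  · intro c d
    symm
    show ((L.sec c * L.sec d : P) : P ⧸ L.D) = _
    apply (L.mk_eq_qψ hD).2
    refine ⟨mul_mem (L.sec_mem hD c) (L.sec_mem hD d), ?_⟩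
    rw [L.cc_mul (L.sec_mem hD c) (L.sec_mem hD d), L.sec_cc hD, L.sec_cc hD]
  · intro c d h
    have h1 := ((L.mk_eq_qψ hD).1 h).2
    rw [L.sec_cc hD] at h1
    exact h1
  · intro x
    induction x using QuotientGroup.induction_on with
    | H x =>
      constructor
      · intro h
        have h1 : (a x : P ⧸ L.D) = (x : P ⧸ L.D) := h
        have h2 : x⁻¹ * a x ∈ L.D := QuotientGroup.eq.1 h1.symm
        obtain ⟨c, hc⟩ := h2
        have h3 : a x = x * ψ c := by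
          rw [hc]
          group
        have hxE : x ∈ L.E := ⟨c, h3⟩
        exact ⟨L.cc x, ((L.mk_eq_qψ hD).2 ⟨hxE, rfl⟩).symm⟩
      · rintro ⟨c, hc⟩
        obtain ⟨h1, h2⟩ := (L.mk_eq_qψ hD).1 hc.symm
        rw [L.qa_mk, L.cc_spec h1]
        apply QuotientGroup.eq.2
        have : x⁻¹ * (x * ψ (L.cc x))  = ψ (L.cc x) := by group
        show (x * ψ (L.cc x))⁻¹ * x ∈ L.D
        have e : (x * ψ (L.cc x))⁻¹ * x = (ψ (L.cc x))⁻¹ := by group
        rw [e]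
        exact inv_mem (L.ψ_mem _)
  · intro c
    show (L.qψ (lam * c)) = L.qr ((L.sec c : P) : P ⧸ L.D)
    rw [L.qr_mk]
    symm
    apply (L.mk_eq_qψ hD).2
    refine ⟨L.r_mem_E (L.sec_mem hD c), ?_⟩
    rw [L.cc_r (L.sec_mem hD c), L.sec_cc hD]

end Lv

end Lv2

end Cfsg.Agent.Lib.InvolChar.Singer1
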