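/-
Commuting involutory and Singer-type automorphisms of `2`-groups, part 2:
the quotient by the fixed points is elementary abelian.
-/
import Cfsg.Agent.Lib.InvolChar.Singer1

set_option autoImplicit false
set_option linter.unusedSectionVars false
set_option linter.unusedVariables false
set_option linter.style.haveILetI false

namespace Cfsg.Agent.Lib.InvolChar.Singer1

open scoped commutatorElement

universe u v

variable {F : Type v} [Field F] [Finite F] {lam : F}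
variable {P : Type u} [Group P]
variable {a r : P ≃* P} {ψ : F → P}

namespace Lv

/-- Commutators with elements of `E` lie in `D`. -/
lemma comm_E (L : Lv lam a r ψ) (hD : L.D ≠ ⊤) {z : P} (hz : z ∈ L.E) (g : P) : ⁅g, z⁆ ∈ L.D := by
  have Lr := L.quot hD
  have h1 : (z : P ⧸ L.D) = L.qψ (L.cc z) := (L.mk_eq_qψ hD).2 ⟨hz, rfl⟩
  have h2 : ((⁅g, z⁆ : P) : P ⧸ L.D) = 1 := by
    show QuotientGroup.mk' L.D ⁅g, z⁆ = 1
    rw [map_commutatorElement]
    apply commutatorElement_eq_one_iff_mul_comm.2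
    show (g : P ⧸ L.D) * (z : P ⧸ L.D) = (z : P ⧸ L.D) * (g : P ⧸ L.D)
    rw [h1]
    exact (Lr.ψ_central _ _).symm
  exact (QuotientGroup.eq_one_iff _).1 h2

lemma conj_eq (x y : P) : x * y * x⁻¹ = ⁅x, y⁆ * y := by
  simp only [commutatorElement_def]
  group

lemma conj_E (L : Lv lam a r ψ) (hD : L.D ≠ ⊤) {z : P} (hz : z ∈ L.E) (g : P) :
    g * z * g⁻¹ ∈ L.E := by
  rw [conj_eq]
  exact mul_mem (L.D_le_E (L.comm_E hD hz g)) hz

lemma cc_conj (L : Lv lam a r ψ) (hD : L.D ≠ ⊤) {z : P} (hz : z ∈ L.E) (g : P) :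
    L.cc (g * z * g⁻¹) = L.cc z := by
  rw [conj_eq, L.cc_mul (L.D_le_E (L.comm_E hD hz g)) hz, L.cc_of_D (L.comm_E hD hz g), zero_add]

/-- The twisted difference lies in `E` when squares lie in `D`. -/
lemma tau_mem_E (L : Lv lam a r ψ) (hs : ∀ x : P, x ^ 2 ∈ L.D) (m : P) : m⁻¹ * a m ∈ L.E := by
  set z := m⁻¹ * a m with hz
  have h1 : a z = z⁻¹ := by
    rw [hz, map_mul, map_inv, L.aa]
    group
  obtain ⟨c, hc⟩ := hs z
  refine ⟨c, ?_⟩
  rw [h1, ← L.ψ_inv c, hc, pow_two]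
  group

/-- The second coordinate. -/
noncomputable def kp (L : Lv lam a r ψ) (x : P) : F := L.cc (x⁻¹ * a x)

lemma kp_mul (L : Lv lam a r ψ) (hD : L.D ≠ ⊤) (hs : ∀ x : P, x ^ 2 ∈ L.D) (x y : P) :
    L.kp (x * y) = L.kp x + L.kp y := by
  have e : (x * y)⁻¹ * a (x * y) = y⁻¹ * (x⁻¹ * a x) * (y⁻¹)⁻¹ * (y⁻¹ * a y) := by
    rw [map_mul]
    group
  rw [kp, e, L.cc_mul (L.conj_E hD (L.tau_mem_E hs x) _) (L.tau_mem_E hs y),
    L.cc_conj hD (L.tau_mem_E hs x)]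
  rfl

lemma kp_r (L : Lv lam a r ψ) (hs : ∀ x : P, x ^ 2 ∈ L.D) (x : P) :
    L.kp (r x) = lam * L.kp x := by
  have e : (r x)⁻¹ * a (r x) = r (x⁻¹ * a x) := by
    rw [L.ar, map_mul, map_inv]
  rw [kp, e, L.cc_r (L.tau_mem_E hs x)]
  rfl

lemma kp_eq_zero_iff (L : Lv lam a r ψ) (hs : ∀ x : P, x ^ 2 ∈ L.D) (x : P) :
    L.kp x = 0 ↔ x ∈ L.E := by
  constructor
  · intro h
    have h1 := L.mem_D_of_cc (L.tau_mem_E hs x) h
    obtain ⟨c, hc⟩ := h1
    refine ⟨c, ?_⟩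
    rw [hc]
    group
  · intro h
    apply L.cc_of_D
    have e : x⁻¹ * a x = ψ (L.cc x) := by
      rw [L.cc_spec h]
      group
    rw [e]
    exact L.ψ_mem _

lemma kp_surj (L : Lv lam a r ψ) (hs : ∀ x : P, x ^ 2 ∈ L.D) (hE : L.E ≠ ⊤) (c : F) :
    ∃ x, L.kp x = c := by
  by_cases hc : c = 0
  · refine ⟨1, ?_⟩
    rw [hc, L.kp_eq_zero_iff hs]
    exact one_mem _
  have : ∃ x, x ∉ L.E := by
    by_contra h
    push Not at h
    exact hE (eq_top_iff.2 fun x _ => h x)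
  obtain ⟨x, hx⟩ := this
  have hx0 : L.kp x ≠ 0 := fun h => hx ((L.kp_eq_zero_iff hs x).1 h)
  refine L.G.orbit (fun c => ∃ x, L.kp x = c) ?_ hx0 ⟨x, rfl⟩ c hc
  rintro c ⟨y, rfl⟩
  exact ⟨r y, L.kp_r hs y⟩

lemma D_ne_top_of_E (L : Lv lam a r ψ) (hE : L.E ≠ ⊤) : L.D ≠ ⊤ := by
  intro h
  apply hE
  rw [eq_top_iff, ← h]
  exact L.D_le_E

lemma E_ne_top_of_noncomm (L : Lv lam a r ψ) (hna : ∃ x y : P, x * y ≠ y * x) : L.E ≠ ⊤ := by
  intro h
  obtain ⟨x, y, hxy⟩ := hna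
  have hD : L.D ≠ ⊤ := by
    intro hD
    apply hxy
    exact L.D_central (by rw [hD]; trivial) y
  exact hxy (L.E_comm hD (by rw [h]; trivial) (by rw [h]; trivial))

/-- Under the elementary hypothesis, with `E ≠ ⊤`, `μ = 1`. -/
lemma sq_E_of_noncomm (L : Lv lam a r ψ) (hs : ∀ x : P, x ^ 2 ∈ L.D) (hE : L.E ≠ ⊤) {z : P}
    (hz : z ∈ L.E) : z ^ 2 = ψ (L.cc z) := by
  have hD := L.D_ne_top_of_E hE
  obtain ⟨μ, hμ⟩ := L.exists_mu hD
  obtain ⟨x, hx⟩ := L.kp_surj hs hE 1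
  have hμ1 : μ = 1 := by
    apply L.mu_eq_one hμ (L.tau_mem_E hs x)
    show L.kp x ≠ 0
    rw [hx]
    exact one_ne_zero
  rw [hμ z hz, hμ1, one_mul]

section Abelian

variable {R : Type u} [Group R] {a' r' : R ≃* R} {ψ' : F → R}

lemma mem_E_of_sq_fix (L' : Lv lam a' r' ψ') (hab : ∀ x y : R, x * y = y * x) {x : R}
    (h : a' (x ^ 2) = x ^ 2) : x ∈ L'.E := by
  set w := x⁻¹ * a' x with hw
  have h1 : w * w = 1 := by
    have e : w * w = (x ^ 2)⁻¹ * a' (x ^ 2) := by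
      rw [map_pow, pow_two, pow_two, hw, mul_inv_rev]
      calc x⁻¹ * a' x * (x⁻¹ * a' x) = x⁻¹ * (a' x * x⁻¹) * a' x := by group
        _ = x⁻¹ * (x⁻¹ * a' x) * a' x := by rw [hab (a' x) x⁻¹]
        _ = _ := by group
    rw [e, h]
    group
  have h2 : a' w = w := by
    have h3 : a' w = w⁻¹ := by
      rw [hw, map_mul, map_inv, L'.aa]
      group
    rw [h3]
    exact inv_eq_of_mul_eq_one_left h1
  obtain ⟨c, hc⟩ := (L'.fix w).1 h2
  refine ⟨c, ?_⟩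
  rw [hc, hw]
  group

/-- An abelian non-elementary package has a coordinate whose kernel is the set of squares. -/
lemma ab_nu (L' : Lv lam a' r' ψ') (hab : ∀ x y : R, x * y = y * x) (hy : ∃ y : R, y ^ 2 ≠ 1) :
    ∃ ν : R → F, (∀ x y, ν (x * y) = ν x + ν y) ∧ Function.Surjective ν ∧
      (∀ x, ν (r' x) = lam * ν x) ∧ (∀ x, ν x = 0 → ∃ u, x = u ^ 2) := by
  classical
  haveI := L'.fin
  haveI : Fact (Nat.Prime 2) := ⟨Nat.prime_two⟩
  letI cg : CommGroup R := { (inferInstance : Group R) with mul_comm := hab }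
  obtain ⟨y₀, hy₀⟩ := hy
  have hD' : L'.D ≠ ⊤ := by
    intro h
    apply hy₀
    exact L'.D_sq (by rw [h]; trivial)
  -- squares have a fixed point
  let pw2 : R →* R := powMonoidHom 2
  have hne : pw2.range ≠ ⊥ := by
    intro h
    apply hy₀
    have : y₀ ^ 2 ∈ pw2.range := ⟨y₀, rfl⟩
    rw [h] at this
    exact this
  obtain ⟨z, ⟨y₁, rfl⟩, hz1, hz2⟩ := exists_fix L'.pg a'.toMonoidHom L'.aa pw2.range
    (by
      rintro _ ⟨u, rfl⟩
      refine ⟨a' u, ?_⟩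
      show (a' u) ^ 2 = a' (u ^ 2)
      rw [map_pow]) hne
  have hz2' : a' (y₁ ^ 2) = y₁ ^ 2 := hz2
  have hz1' : y₁ ^ 2 ≠ 1 := hz1
  have hy₁ := mem_E_of_sq_fix L' hab hz2'
  obtain ⟨μ, hμ⟩ := L'.exists_mu hD'
  have hμ0 : μ ≠ 0 := by
    intro h
    apply hz1'
    rw [hμ _ hy₁, h, zero_mul, L'.ψ_zero]
  have hΩ : ∀ x : R, x ^ 2 = 1 → x ∈ L'.D := by
    intro x hx
    have h1 : x ∈ L'.E := mem_E_of_sq_fix L' hab (by rw [hx, map_one])
    have h2 := hμ x h1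
    rw [hx] at h2
    have h3 : μ * L'.cc x = 0 := L'.ψ_eq_one h2.symm
    exact L'.mem_D_of_cc h1 ((mul_eq_zero.1 h3).resolve_left hμ0)
  -- the largest power
  have hexm : ∃ m : ℕ, ∀ y : R, y ^ (2 ^ m) = 1 := by
    obtain ⟨k, hk⟩ := IsPGroup.iff_card.mp L'.pg
    exact ⟨k, fun y => by rw [← hk]; exact pow_card_eq_one'⟩
  let m₀ := Nat.find hexm
  have hm₀ : ∀ y : R, y ^ (2 ^ m₀) = 1 := Nat.find_spec hexm
  have hm₀0 : m₀ ≠ 0 := by
    intro h
    apply hy₀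
    have := hm₀ y₀
    rw [h] at this
    simp only [pow_zero, pow_one] at this
    rw [this, one_pow]
  obtain ⟨m, hm⟩ : ∃ m, m₀ = m + 1 := ⟨m₀ - 1, by omega⟩
  have hm1 : ¬ ∀ y : R, y ^ (2 ^ m) = 1 := Nat.find_min hexm (by omega : m < Nat.find hexm)
  push Not at hm1
  obtain ⟨y₂, hy₂⟩ := hm1
  set t := 2 ^ m with ht
  have h2t : ∀ y : R, (y ^ t) ^ 2 = 1 := by
    intro y
    rw [← pow_mul, ← pow_succ, ← hm]
    exact hm₀ y
  have hmem : ∀ y : R, ∃ c, ψ' c = y ^ t := fun y => hΩ _ (h2t y)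
  choose ν hν using hmem
  have hν_add : ∀ x y, ν (x * y) = ν x + ν y := by
    intro x y
    apply L'.ψ_inj
    rw [hν, L'.ψ_add, hν, hν, mul_pow]
  have hν_r : ∀ x, ν (r' x) = lam * ν x := by
    intro x
    apply L'.ψ_inj
    rw [hν, L'.ψ_lam, hν, map_pow]
  have hν_ne : ν y₂ ≠ 0 := by
    intro h
    apply hy₂
    rw [← hν, h, L'.ψ_zero]
  have hν_surj : Function.Surjective ν := by
    intro c
    by_cases hc : c = 0
    · refine ⟨1, ?_⟩
      apply L'.ψ_inj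
      rw [hν, hc, L'.ψ_zero, one_pow]
    refine L'.G.orbit (fun c => ∃ x, ν x = c) ?_ hν_ne ⟨y₂, rfl⟩ c hc
    rintro c ⟨x, rfl⟩
    exact ⟨r' x, hν_r x⟩
  refine ⟨ν, hν_add, hν_surj, hν_r, ?_⟩
  -- the counting
  let φ : R →* Multiplicative F :=
    { toFun := fun x => Multiplicative.ofAdd (ν x)
      map_one' := by
        show Multiplicative.ofAdd (ν 1) = 1
        have : ν 1 = 0 := by
          apply L'.ψ_inj
          rw [hν, L'.ψ_zero, one_pow]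
        rw [this]
        rfl
      map_mul' := fun x y => by
        show Multiplicative.ofAdd (ν (x * y)) = _
        rw [hν_add]
        rfl }
  have hφ : φ.range = ⊤ := by
    rw [MonoidHom.range_eq_top]
    intro c
    obtain ⟨x, hx⟩ := hν_surj (Multiplicative.toAdd c)
    exact ⟨x, by show Multiplicative.ofAdd (ν x) = c; rw [hx]; rfl⟩
  have hcard1 : Nat.card φ.ker * Nat.card F = Nat.card R := by
    have h1 := Subgroup.card_mul_index φ.ker
    rw [Subgroup.index_ker, hφ, Subgroup.card_top] at h1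
    exact h1
  have hker2 : pw2.ker = L'.D := by
    ext x
    constructor
    · intro h
      exact hΩ x h
    · intro h
      exact L'.D_sq h
  have hcardD : Nat.card L'.D = Nat.card F := by
    refine (Nat.card_congr (Equiv.ofBijective (fun c : F => (⟨ψ' c, L'.ψ_mem c⟩ : L'.D)) ⟨?_, ?_⟩)).symm
    · intro c d h
      exact L'.ψ_inj (congrArg Subtype.val h)
    · rintro ⟨_, c, rfl⟩
      exact ⟨c, rfl⟩
  have hcard2 : Nat.card F * Nat.card pw2.range = Nat.card R := by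
    have h1 := Subgroup.card_mul_index pw2.ker
    rw [Subgroup.index_ker, hker2, hcardD] at h1
    exact h1
  have hFpos : 0 < Nat.card F := Nat.card_pos
  have hcardeq : Nat.card pw2.range = Nat.card φ.ker := by
    have : Nat.card F * Nat.card pw2.range = Nat.card F * Nat.card φ.ker := by
      rw [hcard2, ← hcard1, mul_comm]
    exact Nat.eq_of_mul_eq_mul_left hFpos this
  have hle : pw2.range ≤ φ.ker := by
    rintro _ ⟨u, rfl⟩
    rw [MonoidHom.mem_ker]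
    show Multiplicative.ofAdd (ν (u ^ 2)) = 1
    have : ν (u ^ 2) = 0 := by
      apply L'.ψ_inj
      rw [hν, L'.ψ_zero, ← pow_mul, mul_comm, pow_mul]
      exact h2t u
    rw [this]
    rfl
  have heq : pw2.range = φ.ker := Subgroup.eq_of_le_of_card_ge hle (by rw [hcardeq])
  intro x hx
  have hxk : x ∈ φ.ker := by
    rw [MonoidHom.mem_ker]
    show Multiplicative.ofAdd (ν x) = 1
    rw [hx]
    rfl
  rw [← heq] at hxk
  obtain ⟨u, hu⟩ := hxk
  exact ⟨u, hu.symm⟩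

end Abelian

/-- Case A: the quotient by `D` is abelian and not elementary. -/
lemma caseA (L : Lv lam a r ψ) (hD : L.D ≠ ⊤) (hab : ∀ x y : P ⧸ L.D, x * y = y * x)
    (hy : ∃ y : P ⧸ L.D, y ^ 2 ≠ 1) : ∀ x y : P, x * y = y * x := by
  have Lr := L.quot hD
  obtain ⟨ν, hν_add, hν_surj, hν_r, hν_sq⟩ := ab_nu Lr hab hy
  have hcD : ∀ x y : P, ⁅x, y⁆ ∈ L.D := by
    intro x y
    apply (QuotientGroup.eq_one_iff _).1
    show QuotientGroup.mk' L.D ⁅x, y⁆ = 1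
    rw [map_commutatorElement]
    exact commutatorElement_eq_one_iff_mul_comm.2 (hab _ _)
  have h := L.form_vanish (X := P) (MonoidHom.id P) r (fun _ => rfl) hcD
    (fun x => ν (x : P ⧸ L.D))
    (fun x x' => by
      show ν ((x : P ⧸ L.D) * (x' : P ⧸ L.D)) = _
      rw [hν_add])
    (fun c => by
      obtain ⟨x, hx⟩ := hν_surj c
      induction x using QuotientGroup.induction_on with
      | H x => exact ⟨x, hx⟩)
    (fun x => by
      show ν (L.qr (x : P ⧸ L.D)) = _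
      rw [hν_r])
    (fun x y hx => by
      obtain ⟨u, hu⟩ := hν_sq _ hx
      induction u using QuotientGroup.induction_on with
      | H v =>
        have h1 : ((v ^ 2 : P) : P ⧸ L.D) = (x : P ⧸ L.D) := hu.symm
        have h2 : (v ^ 2)⁻¹ * x ∈ L.D := QuotientGroup.eq.1 h1
        have e : x = v * v * ((v ^ 2)⁻¹ * x) := by
          rw [pow_two]
          group
        show ⁅x, y⁆ = 1
        have e2 : ⁅x, y⁆ = ⁅v * v * ((v ^ 2)⁻¹ * x), y⁆ := by rw [← e]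
        have h3 : ⁅(v ^ 2)⁻¹ * x, y⁆ = 1 := by
          apply commutatorElement_eq_one_iff_mul_comm.2
          exact L.D_central h2 y
        rw [e2, comm_mul_l (v * v), h3, comm_mul_l v v]
        simp only [mul_one, mul_inv_cancel, one_mul]
        rw [L.conj_D (hcD v y), ← pow_two]
        exact L.D_sq (hcD v y))
  exact h

lemma comm_sq_of_comm {G : Type*} [Group G] {x m : G} (h : m * ⁅x, m⁆ = ⁅x, m⁆ * m) :
    ⁅x, m * m⁆ = ⁅x, m⁆ * ⁅x, m⁆ := by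
  rw [comm_mul_r, h]
  group

/-- Case B: the quotient by `D` is not abelian, but it is of our elementary form. -/
lemma caseB (L : Lv lam a r ψ) (hD : L.D ≠ ⊤) (Lr : Lv lam L.qa L.qr L.qψ)
    (hna : ∃ x y : P ⧸ L.D, x * y ≠ y * x)
    (hs : ∀ y : P ⧸ L.D, y ^ 2 ∈ Lr.D) (hc : ∀ y z : P ⧸ L.D, ⁅y, z⁆ ∈ Lr.D)
    (h4 : ∃ a₀ : F, a₀ ≠ 0 ∧ a₀ ≠ 1) : False := by
  have hER : Lr.E ≠ ⊤ := Lr.E_ne_top_of_noncomm hna
  have hDR : Lr.D ≠ ⊤ := Lr.D_ne_top_of_E hER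
  have mem_of : ∀ x : P, (x : P ⧸ L.D) ∈ Lr.D → x ∈ L.E := by
    rintro x ⟨c, hc⟩
    exact ((L.mk_eq_qψ hD).1 hc.symm).1
  have E_mem : ∀ z ∈ L.E, (z : P ⧸ L.D) ∈ Lr.D :=
    fun z hz => ⟨L.cc z, ((L.mk_eq_qψ hD).2 ⟨hz, rfl⟩).symm⟩
  have ker_mem : ∀ x : P, (x : P ⧸ L.D) = 1 → x ∈ L.D := fun x h => (QuotientGroup.eq_one_iff x).1 h
  have mk_comm : ∀ x y : P, ((⁅x, y⁆ : P) : P ⧸ L.D) = ⁅(x : P ⧸ L.D), (y : P ⧸ L.D)⁆ :=
    fun x y => map_commutatorElement (QuotientGroup.mk' L.D) x y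
  have hcE : ∀ x y : P, ⁅x, y⁆ ∈ L.E := fun x y => mem_of _ (by rw [mk_comm]; exact hc _ _)
  let M : Subgroup P := Lr.E.comap (QuotientGroup.mk' L.D)
  have mem_M : ∀ m : P, m ∈ M ↔ (m : P ⧸ L.D) ∈ Lr.E := fun m => Iff.rfl
  have E_le_M : ∀ z ∈ L.E, z ∈ M := fun z hz => Lr.D_le_E (E_mem z hz)
  let cm : P → F := fun x => Lr.cc (x : P ⧸ L.D)
  let κ : P → F := fun x => Lr.kp (x : P ⧸ L.D)
  have hm_r : ∀ m ∈ M, r m ∈ M := fun m hm => Lr.r_mem_E ((mem_M m).1 hm)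
  have hcm_r : ∀ m ∈ M, cm (r m) = lam * cm m := fun m hm => Lr.cc_r ((mem_M m).1 hm)
  have hcm_add : ∀ m ∈ M, ∀ m' ∈ M, cm (m * m') = cm m + cm m' :=
    fun m hm m' hm' => Lr.cc_mul ((mem_M m).1 hm) ((mem_M m').1 hm')
  have hcm_surj : ∀ c, ∃ m ∈ M, cm m = c := by
    intro c
    obtain ⟨x, hx, hxc⟩ := Lr.cc_surj hDR c
    induction x using QuotientGroup.induction_on with
    | H x => exact ⟨x, hx, hxc⟩
  have hcm0 : ∀ m ∈ M, cm m = 0 → m ∈ L.E :=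
    fun m hm h => mem_of m (Lr.mem_D_of_cc ((mem_M m).1 hm) h)
  have hκ_add : ∀ x y, κ (x * y) = κ x + κ y := fun x y => Lr.kp_mul hDR hs (x : P ⧸ L.D) (y : P ⧸ L.D)
  have hκ_r : ∀ x, κ (r x) = lam * κ x := fun x => Lr.kp_r hs (x : P ⧸ L.D)
  have hκ_surj : ∀ c, ∃ x, κ x = c := by
    intro c
    obtain ⟨x, hx⟩ := Lr.kp_surj hs hER c
    induction x using QuotientGroup.induction_on with
    | H x => exact ⟨x, hx⟩
  have hκ0 : ∀ x, κ x = 0 → x ∈ M := fun x h => (Lr.kp_eq_zero_iff hs _).1 h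
  have hm2 : ∀ m ∈ M, m ^ 2 ∈ L.E ∧ L.cc (m ^ 2) = cm m := by
    intro m hm
    apply (L.mk_eq_qψ hD).1
    exact Lr.sq_E_of_noncomm hs hER ((mem_M m).1 hm)
  have hμP : ∀ z ∈ L.E, z ^ 2 = ψ (L.cc z) := by
    obtain ⟨μ, hμ⟩ := L.exists_mu hD
    obtain ⟨m, hm, hm1⟩ := hcm_surj 1
    have h1 : ((m⁻¹ * a m : P) : P ⧸ L.D) = L.qψ (cm m) := by
      have h2 := Lr.cc_spec ((mem_M m).1 hm)
      show (m : P ⧸ L.D)⁻¹ * L.qa (m : P ⧸ L.D) = _
      rw [h2]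
      group
      rfl
    obtain ⟨h3, h4⟩ := (L.mk_eq_qψ hD).1 h1
    have hμ1 : μ = 1 := by
      apply L.mu_eq_one hμ h3
      rw [h4, hm1]
      exact one_ne_zero
    intro z hz
    rw [hμ z hz, hμ1, one_mul]
  have hEab : ∀ {z w : P}, z ∈ L.E → w ∈ L.E → z * w = w * z := fun hz hw => L.E_comm hD hz hw
  have hMM : ∀ m ∈ M, ∀ m' ∈ M, ⁅m, m'⁆ ∈ L.D := by
    intro m hm m' hm'
    apply ker_mem
    rw [mk_comm]
    exact commutatorElement_eq_one_iff_mul_comm.2 (Lr.E_comm hDR ((mem_M m).1 hm) ((mem_M m').1 hm'))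
  have hEM : ∀ z ∈ L.E, ∀ y ∈ M, y * z = z * y := by
    intro z hz y hy
    obtain ⟨m, hm, hmc⟩ := hcm_surj (L.cc z)
    obtain ⟨h1, h2⟩ := hm2 m hm
    have hd : (m ^ 2)⁻¹ * z ∈ L.D := L.eq_of_cc h1 hz (by rw [h2, hmc])
    have e : z = m * m * ((m ^ 2)⁻¹ * z) := by
      rw [pow_two]
      group
    apply comm_of_eq_one
    have e2 : ⁅y, z⁆ = ⁅y, m * m * ((m ^ 2)⁻¹ * z)⁆ := by rw [← e]
    have h3 : ⁅y, (m ^ 2)⁻¹ * z⁆ = 1 := by
      apply commutatorElement_eq_one_iff_mul_comm.2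
      exact (L.D_central hd y).symm
    rw [e2, comm_mul_r, h3]
    have h5 := hMM y hy m hm
    rw [comm_sq_of_comm (L.D_central h5 m).symm]
    simp only [mul_one, mul_inv_cancel, mul_one]
    rw [← pow_two]
    exact L.D_sq h5
  -- the form
  let rY : M → M := fun m => ⟨r m, hm_r m m.2⟩
  obtain ⟨g₀, hg₀⟩ := G_form L.G r rY κ (fun m : M => cm m) hκ_add
    (fun m m' => hcm_add m m.2 m' m'.2)
    (fun c => by
      obtain ⟨x, hx⟩ := hκ_surj c
      exact ⟨x, hx⟩)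
    (fun c => by
      obtain ⟨m, hm, hmc⟩ := hcm_surj c
      exact ⟨⟨m, hm⟩, hmc⟩)
    hκ_r (fun m => hcm_r m m.2) (fun x m => L.cc ⁅x, (m : P)⁆)
    (fun x x' m => by
      show L.cc ⁅x * x', (m : P)⁆ = _
      rw [comm_mul_l, L.cc_mul (L.conj_E hD (hcE x' m) x) (hcE x m), L.cc_conj hD (hcE x' m), add_comm])
    (fun x m m' => by
      show L.cc ⁅x, (m : P) * (m' : P)⁆ = _
      rw [comm_mul_r, L.cc_mul (hcE x m) (L.conj_E hD (hcE x m') m), L.cc_conj hD (hcE x m')])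
    (fun x m => by
      show L.cc ⁅r x, r (m : P)⁆ = _
      rw [← r_comm, L.cc_r (hcE x m)])
    (fun x m hx => L.cc_of_D (hMM x (hκ0 x hx) m m.2))
    (fun x m hm => L.cc_of_D (L.comm_E hD (hcm0 m m.2 hm) x))
  have hg₀' : ∀ x : P, ∀ m ∈ M, L.cc ⁅x, m⁆ ^ 2 = g₀ * κ x * cm m := fun x m hm => hg₀ x ⟨m, hm⟩
  have hg₀0 : g₀ ≠ 0 := by
    intro h0
    have h1 : ∀ x : P, ∀ m ∈ M, ⁅x, m⁆ ∈ L.D := by
      intro x m hm
      apply L.mem_D_of_cc (hcE x m)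
      have := hg₀' x m hm
      rw [h0, zero_mul, zero_mul] at this
      simpa using this
    have h2 := Lr.form_vanish (X := P ⧸ L.D) (MonoidHom.id _) L.qr (fun _ => rfl) hc Lr.kp
      (Lr.kp_mul hDR hs) (Lr.kp_surj hs hER) (Lr.kp_r hs)
      (by
        intro x y hx
        induction x using QuotientGroup.induction_on with
        | H x =>
          induction y using QuotientGroup.induction_on with
          | H y =>
            have hxM : x ∈ M := (Lr.kp_eq_zero_iff hs _).1 hx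
            show ⁅(x : P ⧸ L.D), (y : P ⧸ L.D)⁆ = 1
            rw [comm_symm, ← mk_comm, (QuotientGroup.eq_one_iff _).2 (h1 y x hxM), inv_one])
    obtain ⟨x, y, hxy⟩ := hna
    exact hxy (h2 x y)
  have key : ∀ x : P, ∀ z ∈ L.E, ∀ m ∈ M, L.cc z = cm m → ⁅x, z⁆ = ψ (L.cc ⁅x, m⁆) := by
    intro x z hz m hm hc'
    obtain ⟨h1, h2⟩ := hm2 m hm
    have hd : (m ^ 2)⁻¹ * z ∈ L.D := L.eq_of_cc h1 hz (by rw [h2, hc'])
    have e : z = m * m * ((m ^ 2)⁻¹ * z) := by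
      rw [pow_two]
      group
    have e2 : ⁅x, z⁆ = ⁅x, m * m * ((m ^ 2)⁻¹ * z)⁆ := by rw [← e]
    have h3 : ⁅x, (m ^ 2)⁻¹ * z⁆ = 1 := by
      apply commutatorElement_eq_one_iff_mul_comm.2
      exact (L.D_central hd x).symm
    rw [e2, comm_mul_r, h3]
    rw [comm_sq_of_comm (hEM _ (hcE x m) m hm)]
    simp only [mul_one, mul_inv_cancel, mul_one]
    rw [← pow_two]
    exact hμP _ (hcE x m)
  have hM_conj : ∀ (g : P), ∀ m ∈ M, g * m * g⁻¹ ∈ M := by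
    intro g m hm
    rw [conj_eq]
    exact mul_mem (E_le_M _ (hcE g m)) hm
  have exch : ∀ x x' : P, ∀ m ∈ M, ⁅x, ⁅x', m⁆⁆ = ⁅x', ⁅x, m⁆⁆ := by
    intro x x' m hm
    have hB : x' * (x * m * x⁻¹) * x'⁻¹ ∈ M := hM_conj _ _ (hM_conj _ _ hm)
    have hu := hEM _ (hcE x x') _ hB
    have hAB : x * (x' * m * x'⁻¹) * x⁻¹ = x' * (x * m * x⁻¹) * x'⁻¹ := by
      set B := x' * (x * m * x⁻¹) * x'⁻¹ with hBdef
      have e : x * (x' * m * x'⁻¹) * x⁻¹ = ⁅x, x'⁆ * B * ⁅x, x'⁆⁻¹ := by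
        rw [hBdef]
        simp only [commutatorElement_def]
        group
      rw [e, ← hu]
      group
    have hA : x * (x' * m * x'⁻¹) * x⁻¹ = (⁅x, ⁅x', m⁆⁆ * ⁅x', m⁆) * (⁅x, m⁆ * m) := by
      rw [← conj_eq, ← conj_eq, conj_eq x' m]
      group
    have hB' : x' * (x * m * x⁻¹) * x'⁻¹ = (⁅x', ⁅x, m⁆⁆ * ⁅x, m⁆) * (⁅x', m⁆ * m) := by
      rw [← conj_eq, ← conj_eq, conj_eq x m]
      group
    rw [hA, hB'] at hAB
    have h1 : ⁅x, ⁅x', m⁆⁆ * (⁅x', m⁆ * ⁅x, m⁆) = ⁅x', ⁅x, m⁆⁆ * (⁅x, m⁆ * ⁅x', m⁆) := by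
      have h2 : ⁅x, ⁅x', m⁆⁆ * (⁅x', m⁆ * ⁅x, m⁆) * m = ⁅x', ⁅x, m⁆⁆ * (⁅x, m⁆ * ⁅x', m⁆) * m := by
        simpa only [mul_assoc] using hAB
      exact mul_right_cancel h2
    rw [hEab (hcE x' m) (hcE x m)] at h1
    exact mul_right_cancel h1
  -- the final contradiction
  obtain ⟨a₀, ha0, ha1⟩ := h4
  obtain ⟨x, hx⟩ := hκ_surj 1
  obtain ⟨x', hx'⟩ := hκ_surj a₀
  obtain ⟨m₁, hm₁, hm₁c⟩ := hcm_surj 1
  obtain ⟨m, hm, hmc⟩ := hcm_surj (L.cc ⁅x, m₁⁆)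
  obtain ⟨m', hm', hmc'⟩ := hcm_surj (L.cc ⁅x', m₁⁆)
  have e1 := key x _ (hcE x' m₁) m' hm' hmc'.symm
  have e2 := key x' _ (hcE x m₁) m hm hmc.symm
  rw [exch x x' m₁ hm₁, e2] at e1
  have e3 := L.ψ_inj e1
  have v1 := hg₀' x m' hm'
  have v2 := hg₀' x' m hm
  rw [← e3, v2, hx, hx', hmc, hmc'] at v1
  have b1 := hg₀' x m₁ hm₁
  have b2 := hg₀' x' m₁ hm₁
  rw [hx, hm₁c] at b1
  rw [hx', hm₁c] at b2
  set β := L.cc ⁅x, m₁⁆
  set β' := L.cc ⁅x', m₁⁆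
  have h5 : a₀ * β = β' := by
    have : g₀ * (a₀ * β) = g₀ * β' := by linear_combination v1
    exact mul_left_cancel₀ hg₀0 this
  have h6 : g₀ * a₀ = a₀ ^ 2 * g₀ := by
    rw [← h5] at b2
    linear_combination - b2 + a₀ ^ 2 * b1
  have h7 : a₀ * (a₀ + 1) * g₀ = 0 := by
    linear_combination - h6 + a₀ * g₀ * L.G.two
  have h8 : a₀ + 1 = 0 := by
    rcases mul_eq_zero.1 h7 with h | h
    · rcases mul_eq_zero.1 h with h | h
      · exact absurd h ha0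
      · exact h
    · exact absurd h hg₀0
  exact ha1 (eq_of_add_zero L.G.two h8)

/-- The main structural theorem. -/
theorem T_main (h4 : ∃ a₀ : F, a₀ ≠ 0 ∧ a₀ ≠ 1) :
    ∀ (N : ℕ) (P : Type u) [Group P] (a r : P ≃* P) (ψ : F → P) (L : Lv lam a r ψ),
      Nat.card P = N → (∃ x y : P, x * y ≠ y * x) →
        (∀ x : P, x ^ 2 ∈ L.D) ∧ (∀ x y : P, ⁅x, y⁆ ∈ L.D) := by
  intro N
  induction N using Nat.strong_induction_on with
  | _ N IH =>
    intro P _ a r ψ L hN hna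
    haveI := L.fin
    have hD : L.D ≠ ⊤ := by
      intro h
      obtain ⟨x, y, hxy⟩ := hna
      exact hxy (L.D_central (by rw [h]; trivial) y)
    have Lr := L.quot hD
    by_cases hab : ∀ x y : P ⧸ L.D, x * y = y * x
    · have hsq : ∀ y : P ⧸ L.D, y ^ 2 = 1 := by
        by_contra hcon
        push Not at hcon
        obtain ⟨x, y, hxy⟩ := hna
        exact hxy (L.caseA hD hab hcon x y)
      constructor
      · intro x
        apply (QuotientGroup.eq_one_iff _).1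
        exact hsq (x : P ⧸ L.D)
      · intro x y
        apply (QuotientGroup.eq_one_iff _).1
        show QuotientGroup.mk' L.D ⁅x, y⁆ = 1
        rw [map_commutatorElement]
        exact commutatorElement_eq_one_iff_mul_comm.2 (hab _ _)
    · exfalso
      push Not at hab
      have hlt : Nat.card (P ⧸ L.D) < N := by
        rw [← hN]
        have h1 := Subgroup.card_eq_card_quotient_mul_card_subgroup L.D
        have h2 : 1 < Nat.card L.D := by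
          haveI : Nontrivial L.D := by
            refine ⟨⟨⟨ψ 1, L.ψ_mem 1⟩, 1, fun h => ?_⟩⟩
            exact one_ne_zero (L.ψ_eq_one (congrArg Subtype.val h))
          exact Finite.one_lt_card
        have h3 : 0 < Nat.card (P ⧸ L.D) := Nat.card_pos
        nlinarith
      obtain ⟨hs, hc⟩ := IH _ hlt (P ⧸ L.D) L.qa L.qr L.qψ Lr rfl hab
      exact L.caseB hD Lr hab hs hc h4

end Lv

end Cfsg.Agent.Lib.InvolChar.Singer1
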