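/-
Commuting involutory and Singer-type automorphisms of `2`-groups, part 3:
retractions, recognition of central extensions by their squares, and the coordinates.
-/
import Cfsg.Agent.Lib.InvolChar.Singer2

set_option autoImplicit false
set_option linter.unusedSectionVars false
set_option linter.unusedVariables false
set_option linter.style.haveILetI false

namespace Cfsg.Agent.Lib.InvolChar.Singer1

open scoped commutatorElement

universe u v

section Retract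

variable {F : Type*} [Field F]

/-- A left inverse of an injective additive map into a group of exponent two. -/
lemma exists_retract {A : Type*} [Group A] (h2F : (2 : F) = 0) (h2A : ∀ x : A, x ^ 2 = 1)
    (i : F → A) (hadd : ∀ c d, i (c + d) = i c * i d) (hinj : Function.Injective i) :
    ∃ g : A → F, (∀ x y, g (x * y) = g x + g y) ∧ ∀ c, g (i c) = c := by
  have hcomm : ∀ x y : A, x * y = y * x := by
    intro x y
    have h1 := h2A (x * y)
    have h2 := h2A x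
    have h3 := h2A y
    rw [pow_two] at h1 h2 h3
    have hx : x⁻¹ = x := inv_eq_of_mul_eq_one_left h2
    have hy : y⁻¹ = y := inv_eq_of_mul_eq_one_left h3
    have hxy : (x * y)⁻¹ = x * y := inv_eq_of_mul_eq_one_left h1
    rw [mul_inv_rev, hx, hy] at hxy
    exact hxy.symm
  letI : CommGroup A := { (inferInstance : Group A) with mul_comm := hcomm }
  letI mA : Module (ZMod 2) (Additive A) := AddCommGroup.zmodModule (fun x => by
    show Additive.ofMul ((Additive.toMul x) ^ 2) = 0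
    rw [h2A]
    rfl)
  letI mF : Module (ZMod 2) F := AddCommGroup.zmodModule (fun x => by
    rw [two_nsmul]
    linear_combination x * h2F)
  let i₀ : F →+ Additive A :=
    { toFun := fun c => Additive.ofMul (i c)
      map_zero' := by
        have : i 0 = 1 := by
          have := hadd 0 0
          rw [add_zero] at this
          exact mul_eq_left.1 this.symm
        rw [this]
        rfl
      map_add' := fun c d => by
        rw [hadd]
        rfl }
  let i' : F →ₗ[ZMod 2] Additive A := i₀.toZModLinearMap 2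
  have hker : LinearMap.ker i' = ⊥ := by
    rw [LinearMap.ker_eq_bot]
    intro c d h
    exact hinj (Additive.ofMul.injective h)
  obtain ⟨g, hg⟩ := i'.exists_leftInverse_of_injective hker
  refine ⟨fun x => g (Additive.ofMul x), ?_, ?_⟩
  · intro x y
    show g (Additive.ofMul x + Additive.ofMul y) = _
    rw [map_add]
  · intro c
    exact LinearMap.congr_fun hg c

end Retract

section Iso

variable {F : Type*} [Field F]
variable {P₁ P₂ V : Type*} [Group P₁] [Group P₂] [Group V]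

/-- Central extensions of a group by an elementary abelian group with the same squares are
isomorphic. -/
theorem iso_of_squares (h2F : (2 : F) = 0) (π₁ : P₁ →* V) (π₂ : P₂ →* V)
    (hs₁ : Function.Surjective π₁) (hs₂ : Function.Surjective π₂)
    (d₁ : F → P₁) (d₂ : F → P₂)
    (ha₁ : ∀ c e, d₁ (c + e) = d₁ c * d₁ e) (ha₂ : ∀ c e, d₂ (c + e) = d₂ c * d₂ e)
    (hi₁ : Function.Injective d₁) (hi₂ : Function.Injective d₂)
    (hc₁ : ∀ c x, d₁ c * x = x * d₁ c) (hc₂ : ∀ c x, d₂ c * x = x * d₂ c)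
    (hk₁ : ∀ x, π₁ x = 1 ↔ ∃ c, d₁ c = x) (hk₂ : ∀ x, π₂ x = 1 ↔ ∃ c, d₂ c = x)
    (hsq : ∀ x y, π₁ x = π₂ y → ∃ c, x ^ 2 = d₁ c ∧ y ^ 2 = d₂ c) :
    Nonempty (P₁ ≃* P₂) := by
  classical
  have hz₁ : d₁ 0 = 1 := by
    have := ha₁ 0 0
    rw [add_zero] at this
    exact mul_eq_left.1 this.symm
  have hz₂ : d₂ 0 = 1 := by
    have := ha₂ 0 0
    rw [add_zero] at this
    exact mul_eq_left.1 this.symm
  have h2 : ∀ c : F, c + c = 0 := fun c => by linear_combination c * h2F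
  have hself₁ : ∀ c, d₁ c * d₁ c = 1 := fun c => by rw [← ha₁, h2, hz₁]
  have hself₂ : ∀ c, d₂ c * d₂ c = 1 := fun c => by rw [← ha₂, h2, hz₂]
  have hp₁ : ∀ c, π₁ (d₁ c) = 1 := fun c => (hk₁ _).2 ⟨c, rfl⟩
  have hp₂ : ∀ c, π₂ (d₂ c) = 1 := fun c => (hk₂ _).2 ⟨c, rfl⟩
  let R : Subgroup (P₁ × P₂) :=
    (π₁.comp (MonoidHom.fst P₁ P₂)).eqLocus (π₂.comp (MonoidHom.snd P₁ P₂))
  have mem_R : ∀ x y, (x, y) ∈ R ↔ π₁ x = π₂ y := fun x y => Iff.rfl
  let Δ : Subgroup R :=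
    { carrier := {g | ∃ c, (g : P₁ × P₂) = (d₁ c, d₂ c)}
      mul_mem' := by
        rintro ⟨g, hg⟩ ⟨g', hg'⟩ ⟨c, hc⟩ ⟨e, he⟩
        refine ⟨c + e, ?_⟩
        simp only at hc he
        show g * g' = _
        rw [hc, he, ha₁, ha₂]
        rfl
      one_mem' := ⟨0, by rw [hz₁, hz₂]; rfl⟩
      inv_mem' := by
        rintro ⟨g, hg⟩ ⟨c, hc⟩
        refine ⟨c, ?_⟩
        simp only at hc
        show g⁻¹ = _
        rw [hc]
        ext
        · exact inv_eq_of_mul_eq_one_left (hself₁ c)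
        · exact inv_eq_of_mul_eq_one_left (hself₂ c) }
  have hΔn : Δ.Normal := by
    constructor
    rintro ⟨g, hg⟩ ⟨c, hc⟩ ⟨h, hh⟩
    refine ⟨c, ?_⟩
    simp only at hc
    show h * g * h⁻¹ = _
    rw [hc]
    ext
    · show h.1 * d₁ c * h.1⁻¹ = d₁ c
      rw [← hc₁ c h.1]
      group
    · show h.2 * d₂ c * h.2⁻¹ = d₂ c
      rw [← hc₂ c h.2]
      group
  have hA2 : ∀ g : R ⧸ Δ, g ^ 2 = 1 := by
    intro g
    induction g using QuotientGroup.induction_on with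
    | H g =>
      obtain ⟨⟨x, y⟩, hg⟩ := g
      obtain ⟨c, h1, h2'⟩ := hsq x y hg
      show (((⟨(x, y), hg⟩ ^ 2 : R) : R) : R ⧸ Δ) = 1
      apply (QuotientGroup.eq_one_iff _).2
      refine ⟨c, ?_⟩
      show ((x, y) : P₁ × P₂) ^ 2 = _
      rw [Prod.pow_mk, h1, h2']
  let e₁ : F → R := fun c => ⟨(d₁ c, 1), by rw [mem_R, hp₁, map_one]⟩
  let i : F → R ⧸ Δ := fun c => (e₁ c : R ⧸ Δ)
  have he₁ : ∀ c e, e₁ (c + e) = e₁ c * e₁ e := by
    intro c e
    apply Subtype.ext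
    show (d₁ (c + e), (1 : P₂)) = (d₁ c * d₁ e, 1 * 1)
    rw [ha₁, one_mul]
  have hiadd : ∀ c e, i (c + e) = i c * i e := by
    intro c e
    show ((e₁ (c + e) : R) : R ⧸ Δ) = ((e₁ c * e₁ e : R) : R ⧸ Δ)
    rw [he₁]
  have hiinj : Function.Injective i := by
    intro c e h
    have h1 := QuotientGroup.eq.1 h
    obtain ⟨f, hf⟩ := h1
    have h3 : (d₁ c)⁻¹ * d₁ e = d₁ f := congrArg Prod.fst hf
    have h4 : (1 : P₂)⁻¹ * 1 = d₂ f := congrArg Prod.snd hf
    have h5 : f = 0 := by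
      apply hi₂
      rw [hz₂, ← h4]
      group
    rw [h5, hz₁, inv_mul_eq_one] at h3
    exact hi₁ h3
  obtain ⟨g, hgadd, hgi⟩ := exists_retract h2F hA2 i hiadd hiinj
  let φ : P₁ → P₂ → F := fun x y =>
    if h : π₁ x = π₂ y then g ((⟨(x, y), h⟩ : R) : R ⧸ Δ) else 0
  have hφ_mul : ∀ x y x' y', π₁ x = π₂ y → π₁ x' = π₂ y' →
      φ (x * x') (y * y') = φ x y + φ x' y' := by
    intro x y x' y' h h'
    have h'' : π₁ (x * x') = π₂ (y * y') := by rw [map_mul, map_mul, h, h']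
    simp only [φ]
    rw [dif_pos h, dif_pos h', dif_pos h'', ← hgadd]
    rfl
  have hφ_d₁ : ∀ c, φ (d₁ c) 1 = c := by
    intro c
    have h : π₁ (d₁ c) = π₂ 1 := by rw [hp₁, map_one]
    simp only [φ]
    rw [dif_pos h]
    exact hgi c
  have hφ_dd : ∀ c, φ (d₁ c) (d₂ c) = 0 := by
    intro c
    have h : π₁ (d₁ c) = π₂ (d₂ c) := by rw [hp₁, hp₂]
    simp only [φ]
    rw [dif_pos h]
    have : ((⟨(d₁ c, d₂ c), h⟩ : R) : R ⧸ Δ) = 1 := (QuotientGroup.eq_one_iff _).2 ⟨c, rfl⟩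
    rw [this]
    have h0 := hgadd 1 1
    rw [mul_one] at h0
    linear_combination - h0
  have hφ_d₂ : ∀ c, φ 1 (d₂ c) = c := by
    intro c
    have e := hφ_mul (d₁ c) 1 (d₁ c) (d₂ c) (by rw [hp₁, map_one]) (by rw [hp₁, hp₂])
    rw [hself₁, one_mul, hφ_d₁, hφ_dd, add_zero] at e
    exact e
  -- the graph
  have hex : ∀ x, ∃ y, π₁ x = π₂ y ∧ φ x y = 0 := by
    intro x
    obtain ⟨y, hy⟩ := hs₂ (π₁ x)
    refine ⟨y * d₂ (φ x y), by rw [map_mul, hp₂, mul_one, hy], ?_⟩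
    have e := hφ_mul x y 1 (d₂ (φ x y)) hy.symm (by rw [hp₂, map_one])
    rw [mul_one, hφ_d₂] at e
    rw [e]
    exact h2 _
  have huniq₂ : ∀ x y y', π₁ x = π₂ y → π₁ x = π₂ y' → φ x y = 0 → φ x y' = 0 → y = y' := by
    intro x y y' h h' h0 h0'
    have hk : π₂ (y⁻¹ * y') = 1 := by
      rw [map_mul, map_inv, ← h, ← h']
      group
    obtain ⟨c, hc⟩ := (hk₂ _).1 hk
    have e := hφ_mul x y 1 (y⁻¹ * y') h (by rw [hk, map_one])
    rw [mul_one, mul_inv_cancel_left, h0', h0, zero_add, ← hc, hφ_d₂] at e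
    have hc0 : c = 0 := e.symm
    rw [hc0, hz₂] at hc
    exact (inv_mul_eq_one.1 hc.symm)
  choose f hf₁ hf₂ using hex
  have hfmul : ∀ x x', f (x * x') = f x * f x' := by
    intro x x'
    apply huniq₂ (x * x') _ _ (hf₁ _) (by rw [map_mul, map_mul, ← hf₁, ← hf₁]) (hf₂ _)
    rw [hφ_mul _ _ _ _ (hf₁ x) (hf₁ x'), hf₂, hf₂, add_zero]
  let f' : P₁ →* P₂ := MonoidHom.mk' f hfmul
  have hfinj : Function.Injective f' := by
    rw [injective_iff_map_eq_one]
    intro x hx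
    have hx' : f x = 1 := hx
    have h1 := hf₁ x
    rw [hx', map_one] at h1
    obtain ⟨c, rfl⟩ := (hk₁ _).1 h1
    have h3 := hf₂ (d₁ c)
    rw [hx', hφ_d₁] at h3
    rw [h3, hz₁]
  have hfsurj : Function.Surjective f' := by
    intro y
    obtain ⟨x, hx⟩ := hs₁ (π₂ y)
    refine ⟨x * d₁ (φ x y), ?_⟩
    symm
    apply huniq₂ (x * d₁ (φ x y)) y _ (by rw [map_mul, hp₁, mul_one, hx]) (hf₁ _) _ (hf₂ _)
    have e := hφ_mul x y (d₁ (φ x y)) 1 hx (by rw [hp₁, map_one])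
    rw [mul_one, hφ_d₁] at e
    rw [e]
    exact h2 _
  exact ⟨MulEquiv.ofBijective f' ⟨hfinj, hfsurj⟩⟩

end Iso

section Coords

variable {F : Type v} [Field F] [Finite F] {lam : F}
variable {P : Type u} [Group P] {a r : P ≃* P} {ψ : F → P}

namespace Lv

/-- An equivariant additive extension of the coordinate on `E`. -/
theorem exists_pi (L : Lv lam a r ψ) (hD : L.D ≠ ⊤) (hs : ∀ x : P, x ^ 2 ∈ L.D)
    (hlam : lam ≠ 0) (N : ℕ) (hN : Odd N) (hlamN : lam ^ N = 1)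
    (hrN : ∀ x : P, ((r : MulAut P) ^ N) x = x) :
    ∃ π : P → F, (∀ x y, π (x * y) = π x + π y) ∧ (∀ x, π (r x) = lam * π x) ∧
      ∀ x ∈ L.E, π x = L.cc x := by
  have Lr := L.quot hD
  have hR2 : ∀ y : P ⧸ L.D, y ^ 2 = 1 := by
    intro y
    induction y using QuotientGroup.induction_on with
    | H y => exact (QuotientGroup.eq_one_iff (y ^ 2)).2 (hs y)
  obtain ⟨g, hg_add, hg_i⟩ := exists_retract L.G.two hR2 L.qψ Lr.ψ_add Lr.ψ_inj
  let π₀ : P → F := fun x => g (x : P ⧸ L.D)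
  have hπ₀_add : ∀ x y, π₀ (x * y) = π₀ x + π₀ y := fun x y => hg_add (x : P ⧸ L.D) (y : P ⧸ L.D)
  have hπ₀_E : ∀ x ∈ L.E, π₀ x = L.cc x := by
    intro x hx
    show g (x : P ⧸ L.D) = _
    rw [(L.mk_eq_qψ hD).2 ⟨hx, rfl⟩, hg_i]
  let rp : ℕ → P → P := fun i x => ((r : MulAut P) ^ i) x
  have hrp_mul : ∀ i x y, rp i (x * y) = rp i x * rp i y := fun i x y => map_mul _ x y
  have hrp_succ : ∀ i x, rp i (r x) = rp (i + 1) x := by
    intro i x
    show ((r : MulAut P) ^ i) (r x) = ((r : MulAut P) ^ (i + 1)) x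
    rw [pow_succ]
    rfl
  have hrp_succ' : ∀ i x, rp (i + 1) x = r (rp i x) := by
    intro i x
    show ((r : MulAut P) ^ (i + 1)) x = r (((r : MulAut P) ^ i) x)
    rw [pow_succ']
    rfl
  have hrp_zero : ∀ x, rp 0 x = x := fun x => rfl
  have hrp_E : ∀ i x, x ∈ L.E → rp i x ∈ L.E ∧ L.cc (rp i x) = lam ^ i * L.cc x := by
    intro i x hx
    induction i with
    | zero => exact ⟨hx, by rw [hrp_zero, pow_zero, one_mul]⟩
    | succ i ih =>
      rw [hrp_succ']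
      refine ⟨L.r_mem_E ih.1, ?_⟩
      rw [L.cc_r ih.1, ih.2, pow_succ']
      ring
  refine ⟨fun x => ∑ i ∈ Finset.range N, (lam⁻¹) ^ i * π₀ (rp i x), ?_, ?_, ?_⟩
  · intro x y
    rw [← Finset.sum_add_distrib]
    apply Finset.sum_congr rfl
    intro i _
    rw [hrp_mul, hπ₀_add, mul_add]
  · intro x
    let f : ℕ → F := fun i => (lam⁻¹) ^ i * π₀ (rp i x)
    have hf : f N = f 0 := by
      show (lam⁻¹) ^ N * π₀ (rp N x) = (lam⁻¹) ^ 0 * π₀ (rp 0 x)
      rw [inv_pow, hlamN, inv_one, pow_zero, hrp_zero]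
      show 1 * π₀ (((r : MulAut P) ^ N) x) = 1 * π₀ x
      rw [hrN]
    have h1 : ∑ i ∈ Finset.range N, f (i + 1) = ∑ i ∈ Finset.range N, f i := by
      have h2 := Finset.sum_range_succ f N
      have h3 := Finset.sum_range_succ' f N
      rw [h2, hf] at h3
      exact (add_right_cancel h3).symm
    show ∑ i ∈ Finset.range N, (lam⁻¹) ^ i * π₀ (rp i (r x)) = lam * ∑ i ∈ Finset.range N, f i
    rw [← h1, Finset.mul_sum]
    apply Finset.sum_congr rfl
    intro i _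
    show _ = lam * ((lam⁻¹) ^ (i + 1) * π₀ (rp (i + 1) x))
    rw [hrp_succ, pow_succ]
    field_simp
  · intro x hx
    have h1 : ∀ i ∈ Finset.range N, (lam⁻¹) ^ i * π₀ (rp i x) = L.cc x := by
      intro i _
      rw [hπ₀_E _ (hrp_E i x hx).1, (hrp_E i x hx).2, ← mul_assoc, ← mul_pow, inv_mul_cancel₀ hlam,
        one_pow, one_mul]
    show ∑ i ∈ Finset.range N, (lam⁻¹) ^ i * π₀ (rp i x) = _
    rw [Finset.sum_congr rfl h1, Finset.sum_const, Finset.card_range, nsmul_eq_mul]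
    obtain ⟨m, hm⟩ := hN
    rw [hm]
    push_cast
    linear_combination (m * L.cc x) * L.G.two

/-- The coordinates of a non-abelian package. -/
theorem exists_coords (L : Lv lam a r ψ) (hs : ∀ x : P, x ^ 2 ∈ L.D) (hc : ∀ x y : P, ⁅x, y⁆ ∈ L.D)
    (hna : ∃ x y : P, x * y ≠ y * x)
    (hlam : lam ≠ 0) (N : ℕ) (hN : Odd N) (hlamN : lam ^ N = 1)
    (hrN : ∀ x : P, ((r : MulAut P) ^ N) x = x) :
    ∃ (p k : P → F) (κ₀ C₀ : F), κ₀ ≠ 0 ∧ (∀ x y, p (x * y) = p x + p y) ∧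
      (∀ x y, k (x * y) = k x + k y) ∧ (∀ u v, ∃ x, p x = u ∧ k x = v) ∧
      (∀ x, p x = 0 → k x = 0 → x ∈ L.D) ∧ (∀ x ∈ L.D, p x = 0 ∧ k x = 0) ∧
      ∀ x, ∃ s, x ^ 2 = ψ s ∧ s ^ 2 = (p x) ^ 2 + κ₀ * (p x) * (k x) + C₀ * (k x) ^ 2 := by
  have hE : L.E ≠ ⊤ := L.E_ne_top_of_noncomm hna
  have hD : L.D ≠ ⊤ := L.D_ne_top_of_E hE
  have h2 : (2 : F) = 0 := L.G.two
  obtain ⟨π, hπ_add, hπ_r, hπ_E⟩ := L.exists_pi hD hs hlam N hN hlamN hrN
  have hk_add := L.kp_mul hD hs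
  have hk_r := L.kp_r hs
  have hk0 := L.kp_eq_zero_iff hs
  have hk_surj := L.kp_surj hs hE
  have hπ_one : π 1 = 0 := by
    have := hπ_add 1 1
    rw [mul_one] at this
    linear_combination - this
  have hπ_inv : ∀ x, π x⁻¹ = π x := by
    intro x
    have := hπ_add x x⁻¹
    rw [mul_inv_cancel, hπ_one] at this
    exact (eq_of_add_zero h2 this.symm).symm
  have hker : ∀ x, π x = 0 → L.kp x = 0 → x ∈ L.D := by
    intro x h1 h2'
    have hxE := (hk0 x).1 h2'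
    exact L.mem_D_of_cc hxE (by rw [← hπ_E x hxE, h1])
  have hDker : ∀ x ∈ L.D, π x = 0 ∧ L.kp x = 0 := by
    intro x hx
    have hxE := L.D_le_E hx
    exact ⟨by rw [hπ_E x hxE, L.cc_of_D hx], (hk0 x).2 hxE⟩
  have hsurj : ∀ u v, ∃ x, π x = u ∧ L.kp x = v := by
    intro u v
    obtain ⟨x, hx⟩ := hk_surj v
    obtain ⟨z, hz, hzc⟩ := L.cc_surj hD (u + π x)
    refine ⟨x * z, ?_, ?_⟩
    · rw [hπ_add, hπ_E z hz, hzc]
      linear_combination π x * h2
    · rw [hk_add, hx, (hk0 z).2 hz, add_zero]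
  -- the subgroup `W`
  let W : Subgroup P :=
    { carrier := {x | π x = 0}
      mul_mem' := fun {x y} hx hy => by
        show π (x * y) = 0
        rw [hπ_add, hx, hy, add_zero]
      one_mem' := hπ_one
      inv_mem' := fun {x} hx => by
        show π x⁻¹ = 0
        rw [hπ_inv, hx] }
  have mem_W : ∀ x, x ∈ W ↔ π x = 0 := fun x => Iff.rfl
  have hW_r : ∀ x ∈ W, r x ∈ W := by
    intro x hx
    rw [mem_W] at hx ⊢
    rw [hπ_r, hx, mul_zero]
  have hW_surj : ∀ v, ∃ w ∈ W, L.kp w = v := by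
    intro v
    obtain ⟨x, h1, h2'⟩ := hsurj 0 v
    exact ⟨x, h1, h2'⟩
  have hE_surj : ∀ v, ∃ z ∈ L.E, L.cc z = v := L.cc_surj hD
  let rW : W → W := fun w => ⟨r w, hW_r w w.2⟩
  let rE : L.E → L.E := fun z => ⟨r z, L.r_mem_E z.2⟩
  -- `W` is abelian
  have hW_comm : ∀ w w' : W, (w : P) * w' = w' * w := by
    have := L.form_vanish (X := W) W.subtype rW (fun _ => rfl) (fun x y => hc _ _)
      (fun w : W => L.kp w) (fun x y => hk_add _ _)
      (fun v => by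
        obtain ⟨w, hw, hv⟩ := hW_surj v
        exact ⟨⟨w, hw⟩, hv⟩)
      (fun x => hk_r _)
      (fun x y hx => by
        apply commutatorElement_eq_one_iff_mul_comm.2
        exact L.D_central (hker _ x.2 hx) _)
    exact this
  -- squares on `W` and on `E`
  obtain ⟨s₁, hs₁⟩ := L.exists_sq_coeff W hW_r L.kp (fun x _ y _ => hk_add x y) (fun x _ => hk_r x)
    (fun x hx h0 => hker x hx h0) (fun x _ => hs x) (hW_surj 1)
  have hsE : ∀ z ∈ L.E, z ^ 2 = ψ (L.cc z) := fun z hz => L.sq_E_of_noncomm hs hE hz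
  -- the cross term
  obtain ⟨κ₀, hκ₀⟩ := L.comm_G (X := L.E) (Y := W) L.E.subtype W.subtype rE rW (fun _ => rfl)
    (fun _ => rfl) (fun x y => hc _ _) (fun z : L.E => L.cc z) (fun w : W => L.kp w)
    (fun x y => L.cc_mul x.2 y.2) (fun x y => hk_add _ _)
    (fun v => by
      obtain ⟨z, hz, hv⟩ := hE_surj v
      exact ⟨⟨z, hz⟩, hv⟩)
    (fun v => by
      obtain ⟨w, hw, hv⟩ := hW_surj v
      exact ⟨⟨w, hw⟩, hv⟩)
    (fun x => L.cc_r x.2) (fun x => hk_r _)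
    (fun x y hx => by
      apply commutatorElement_eq_one_iff_mul_comm.2
      exact L.D_central (L.mem_D_of_cc x.2 hx) _)
    (fun x y hy => by
      apply commutatorElement_eq_one_iff_mul_comm.2
      exact (L.D_central (hker _ y.2 hy) _).symm)
  have hdecomp : ∀ x, ∃ z ∈ L.E, ∃ w ∈ W, x = z * w ∧ L.cc z = π x ∧ L.kp w = L.kp x := by
    intro x
    obtain ⟨z, hz, hzc⟩ := hE_surj (π x)
    have hw : z⁻¹ * x ∈ W := by
      rw [mem_W, hπ_add, hπ_inv, hπ_E z hz, hzc]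
      linear_combination π x * h2
    refine ⟨z, hz, z⁻¹ * x, hw, by group, hzc, ?_⟩
    rw [hk_add, (hk0 _).2 (inv_mem hz), zero_add]
  have hκ₀0 : κ₀ ≠ 0 := by
    intro h0
    have hcross : ∀ z ∈ L.E, ∀ w ∈ W, z * w = w * z := by
      intro z hz w hw
      obtain ⟨v, hv, hv2⟩ := hκ₀ ⟨z, hz⟩ ⟨w, hw⟩
      rw [h0, zero_mul, zero_mul] at hv2
      have hv0 : v = 0 := by simpa using hv2
      rw [hv0, L.ψ_zero] at hv
      exact comm_of_eq_one hv
    obtain ⟨x, y, hxy⟩ := hna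
    apply hxy
    obtain ⟨z, hz, w, hw, rfl, -, -⟩ := hdecomp x
    obtain ⟨z', hz', w', hw', rfl, -, -⟩ := hdecomp y
    have h1 := hcross z hz w' hw'
    have h3 := hcross z' hz' w hw
    have h4 := hW_comm ⟨w, hw⟩ ⟨w', hw'⟩
    have h5 := L.E_comm hD hz hz'
    simp only at h4
    calc z * w * (z' * w') = z * (w * z') * w' := by group
      _ = z * (z' * w) * w' := by rw [h3]
      _ = (z * z') * (w * w') := by group
      _ = (z' * z) * (w' * w) := by rw [h4, h5]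
      _ = z' * (z * w') * w := by group
      _ = z' * (w' * z) * w := by rw [h1]
      _ = _ := by group
  refine ⟨π, L.kp, κ₀, s₁ ^ 2, hκ₀0, hπ_add, hk_add, hsurj, hker, hDker, ?_⟩
  intro x
  obtain ⟨z, hz, w, hw, rfl, hzc, hwk⟩ := hdecomp x
  obtain ⟨v, hv, hv2⟩ := hκ₀ ⟨z, hz⟩ ⟨w, hw⟩
  simp only [Subgroup.subtype_apply] at hv hv2
  have hvc : ⁅z, w⁆ ∈ L.D := ⟨v, hv.symm⟩
  refine ⟨v + L.cc z + s₁ * L.kp w, ?_, ?_⟩
  · have e : (z * w) ^ 2 = ⁅z, w⁆⁻¹ * z ^ 2 * w ^ 2 := by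
      have hc1 := L.D_central (inv_mem hvc) z
      simp only [pow_two]
      have e1 : w * z = ⁅z, w⁆⁻¹ * (z * w) := by
        rw [commutatorElement_inv, commutatorElement_def]
        group
      calc z * w * (z * w) = z * (w * z) * w := by group
        _ = z * (⁅z, w⁆⁻¹ * (z * w)) * w := by rw [← e1]
        _ = (z * ⁅z, w⁆⁻¹) * z * w * w := by group
        _ = (⁅z, w⁆⁻¹ * z) * z * w * w := by rw [hc1]
        _ = _ := by group
    rw [e, hv, L.ψ_inv, hsE z hz, hs₁ w hw, L.ψ_add, L.ψ_add]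
  · have e : (v + L.cc z + s₁ * L.kp w) ^ 2 = v ^ 2 + L.cc z ^ 2 + s₁ ^ 2 * L.kp w ^ 2 := by
      linear_combination (v * L.cc z + v * (s₁ * L.kp w) + L.cc z * (s₁ * L.kp w)) * h2
    rw [e, hv2, hzc, hwk]
    ring

end Lv

end Coords

end Cfsg.Agent.Lib.InvolChar.Singer1
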