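/-
Commuting involutory and Singer-type automorphisms of `2`-groups, part 4: the two models.
-/
import Cfsg.Agent.Lib.InvolChar.Singer3
import Cfsg.Agent.Lib.TwoFusion.Hyp.Model
import Cfsg.Agent.Lib.SuzukiTwo.PSU3
import Cfsg.Agent.Lib.TwoFusion.SU3q

set_option autoImplicit false
set_option linter.unusedSectionVars false
set_option linter.unusedVariables false
set_option linter.style.haveILetI false

namespace Cfsg.Agent.Lib.InvolChar.Singer1

open scoped commutatorElement
open Polynomial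

section Quad

/-- The quadratic extension determined by a rootless quadratic polynomial. -/
lemma exists_quad_ext {F : Type} [Field F] [Fintype F] {q : ℕ} (hq : Fintype.card F = q) (hq2 : 2 ≤ q)
    (κ₀ C₀ : F) (hκ₀ : κ₀ ≠ 0) (h2 : (2 : F) = 0) (hroot : ∀ u : F, u ^ 2 + κ₀ * u + C₀ ≠ 0)
    (hfrob : ∀ {K : Type} [Field K], (2 : K) = 0 → ∀ x y : K, (x + y) ^ q = x ^ q + y ^ q) :
    ∃ (F' : Type) (_ : Field F') (_ : Fintype F') (ι : F →+* F') (θ : F'),
      Fintype.card F' = q ^ 2 ∧ θ ^ 2 = ι κ₀ * θ + ι C₀ ∧ (∀ x : F', ∃ u v, x = ι u + θ * ι v) ∧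
      (∀ u v, ι u + θ * ι v = 0 → u = 0 ∧ v = 0) ∧ θ ^ q = θ + ι κ₀ := by
  classical
  let f : F[X] := C 1 * X ^ 2 + C κ₀ * X + C C₀
  have hdeg : f.natDegree = 2 := natDegree_quadratic one_ne_zero
  have hmonic : f.Monic := by
    show f.leadingCoeff = 1
    exact leadingCoeff_quadratic one_ne_zero
  have heval : ∀ u : F, f.eval u = u ^ 2 + κ₀ * u + C₀ := by
    intro u
    simp [f]
  have hirr : Irreducible f := by
    rw [hmonic.irreducible_iff_roots_eq_zero_of_degree_le_three (by omega) (by omega)]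
    apply Multiset.eq_zero_of_forall_notMem
    intro r hr
    have h1 := (mem_roots'.1 hr).2
    rw [IsRoot, heval] at h1
    exact hroot r h1
  haveI : Fact (Irreducible f) := ⟨hirr⟩
  let F' : Type := AdjoinRoot f
  letI : Field F' := AdjoinRoot.instField
  let ι : F →+* F' := AdjoinRoot.of f
  let θ : F' := AdjoinRoot.root f
  have hθ : θ ^ 2 = ι κ₀ * θ + ι C₀ := by
    have h1 : eval₂ (AdjoinRoot.of f) (AdjoinRoot.root f) f = 0 := AdjoinRoot.eval₂_root f
    have h2' : (2 : F') = 0 := by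
      have := congrArg ι h2
      rwa [map_ofNat, map_zero] at this
    simp only [f, eval₂_add, eval₂_mul, eval₂_C, eval₂_pow, eval₂_X, map_one, one_mul] at h1
    show θ ^ 2 = ι κ₀ * θ + ι C₀
    have h3 : θ ^ 2 + ι κ₀ * θ + ι C₀ = 0 := h1
    linear_combination h3 - (ι κ₀ * θ + ι C₀) * h2'
  have hι2 : (2 : F') = 0 := by
    have := congrArg ι h2
    rwa [map_ofNat, map_zero] at this
  have hsurj : ∀ x : F', ∃ u v, x = ι u + θ * ι v := by
    intro x
    obtain ⟨g, rfl⟩ := AdjoinRoot.mk_surjective x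
    have hne : f ≠ 1 := by
      intro h
      have h1 := natDegree_one (R := F)
      rw [← h, hdeg] at h1
      omega
    have h1 : (g %ₘ f).natDegree < f.natDegree := natDegree_modByMonic_lt g hmonic hne
    rw [hdeg] at h1
    obtain ⟨a, b, hab⟩ := exists_eq_X_add_C_of_natDegree_le_one (p := g %ₘ f) (by omega)
    refine ⟨b, a, ?_⟩
    have h2' : AdjoinRoot.mk f g = AdjoinRoot.mk f (g %ₘ f) := by
      apply AdjoinRoot.mk_eq_mk.2
      refine ⟨g /ₘ f, ?_⟩
      have := modByMonic_add_div g f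
      linear_combination - this
    rw [h2', hab]
    simp only [map_add, map_mul]
    show AdjoinRoot.of f a * AdjoinRoot.root f + AdjoinRoot.of f b = _
    show _ = AdjoinRoot.of f b + AdjoinRoot.root f * AdjoinRoot.of f a
    ring
  have hind : ∀ u v, ι u + θ * ι v = 0 → u = 0 ∧ v = 0 := by
    intro u v h
    have hv : v = 0 := by
      by_contra hv
      apply hroot (u * v⁻¹)
      apply ι.injective
      rw [map_zero]
      have e1 : ι v ≠ 0 := by
        rw [Ne, map_eq_zero]
        exact hv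
      have e2 : θ = ι (u * v⁻¹) := by
        rw [map_mul, map_inv₀]
        field_simp
        linear_combination h - ι u * hι2
      rw [map_add, map_add, map_mul, map_pow, ← e2, hθ]
      linear_combination (ι κ₀ * θ + ι C₀) * hι2
    refine ⟨?_, hv⟩
    rw [hv, map_zero, mul_zero, add_zero] at h
    exact (map_eq_zero ι).1 h
  have hbij : Function.Bijective (fun w : F × F => ι w.1 + θ * ι w.2) := by
    constructor
    · rintro ⟨u, v⟩ ⟨u', v'⟩ h
      simp only at h
      have h1 : ι (u + u') + θ * ι (v + v') = 0 := by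
        rw [map_add, map_add]
        linear_combination h + (ι u' + θ * ι v') * hι2
      obtain ⟨h3, h4⟩ := hind _ _ h1
      exact Prod.ext (eq_of_add_zero h2 h3) (eq_of_add_zero h2 h4)
    · intro x
      obtain ⟨u, v, rfl⟩ := hsurj x
      exact ⟨(u, v), rfl⟩
  letI : Fintype F' := Fintype.ofBijective _ hbij
  have hcard : Fintype.card F' = q ^ 2 := by
    rw [← Fintype.card_of_bijective hbij, Fintype.card_prod, hq, pow_two]
  have hιq : ∀ c : F, ι c ^ q = ι c := by
    intro c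
    rw [← map_pow, ← hq, FiniteField.pow_card]
  have hadd : ∀ x y : F', (x + y) ^ q = x ^ q + y ^ q := hfrob hι2
  have hmulq : ∀ x y : F', (x * y) ^ q = x ^ q * y ^ q := fun x y => mul_pow _ _ _
  have hy2 : (θ ^ q) ^ 2 = ι κ₀ * θ ^ q + ι C₀ := by
    calc (θ ^ q) ^ 2 = (θ ^ 2) ^ q := by rw [← pow_mul, ← pow_mul, mul_comm]
      _ = (ι κ₀ * θ + ι C₀) ^ q := by rw [hθ]
      _ = _ := by rw [hadd, hmulq, hιq, hιq]
  have hfact : (θ ^ q + θ) * (θ ^ q + θ + ι κ₀) = 0 := by
    linear_combination hy2 + hθ + (ι κ₀ * θ ^ q + ι C₀ + θ ^ q * θ + ι κ₀ * θ) * hι2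
  have hne : θ ^ q ≠ θ := by
    intro h
    have hall : ∀ x : F', x ^ q = x := by
      intro x
      obtain ⟨u, v, rfl⟩ := hsurj x
      rw [hadd, hmulq, hιq, hιq, h]
    have hq0 : q ≠ 0 := by omega
    have hp0 : (X ^ q - X : F'[X]) ≠ 0 := FiniteField.X_pow_card_sub_X_ne_zero F' (by omega)
    have hle : (Finset.univ : Finset F').card ≤ (X ^ q - X : F'[X]).natDegree := by
      apply card_le_degree_of_subset_roots
      intro x _
      rw [mem_roots hp0, IsRoot]
      simp [hall x]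
    rw [FiniteField.X_pow_card_sub_X_natDegree_eq F' (by omega), Finset.card_univ, hcard] at hle
    nlinarith
  refine ⟨F', inferInstance, inferInstance, ι, θ, hcard, hθ, hsurj, hind, ?_⟩
  rcases mul_eq_zero.1 hfact with h | h
  · exact absurd (eq_of_add_zero hι2 h) hne
  · have := eq_of_add_zero hι2 h
    linear_combination this - θ * hι2

end Quad

lemma frob_two_pow {K : Type*} [Field K] (h2 : (2 : K) = 0) (n : ℕ) (x y : K) :
    (x + y) ^ (2 ^ n) = x ^ (2 ^ n) + y ^ (2 ^ n) := by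
  induction n with
  | zero => simp
  | succ n ih =>
    rw [pow_succ 2 n, pow_mul, pow_mul, pow_mul, ih]
    linear_combination (x ^ (2 ^ n) * y ^ (2 ^ n)) * h2

section Models

variable {F : Type*} [Field F] [Fintype F] {lam : F}
variable {P : Type*} [Group P] {a r : P ≃* P} {ψ : F → P}

open Cfsg.Agent.Lib.TwoFusion.Hyp in
/-- The split case. -/
theorem split_case (L : Lv lam a r ψ) (p k : P → F) (κ₀ C₀ : F) (hκ₀ : κ₀ ≠ 0)
    (hp : ∀ x y, p (x * y) = p x + p y) (hk : ∀ x y, k (x * y) = k x + k y)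
    (hsurj : ∀ u v, ∃ x, p x = u ∧ k x = v)
    (hker : ∀ x, p x = 0 → k x = 0 → x ∈ L.D) (hDker : ∀ x ∈ L.D, p x = 0 ∧ k x = 0)
    (hsq : ∀ x, ∃ s, x ^ 2 = ψ s ∧ s ^ 2 = (p x) ^ 2 + κ₀ * (p x) * (k x) + C₀ * (k x) ^ 2)
    (p₁ : F) (hp₁ : p₁ ^ 2 + κ₀ * p₁ + C₀ = 0) : Nonempty (P ≃* UT F) := by
  classical
  have h2 : (2 : F) = 0 := L.G.two
  choose sq hsqrt using exists_sqrt' h2
  have hsq_add : ∀ c d, sq (c + d) = sq c + sq d := by
    intro c d
    apply sq_inj' h2
    rw [hsqrt]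
    have : (sq c + sq d) ^ 2 = sq c ^ 2 + sq d ^ 2 := by
      linear_combination (sq c * sq d) * h2
    rw [this, hsqrt, hsqrt]
  let A : P → F := fun x => sq (p x + p₁ * k x)
  let B : P → F := fun x => sq (p x + (p₁ + κ₀) * k x)
  have hA : ∀ x y, A (x * y) = A x + A y := by
    intro x y
    show sq _ = sq _ + sq _
    rw [← hsq_add, hp, hk]
    congr 1
    ring
  have hB : ∀ x y, B (x * y) = B x + B y := by
    intro x y
    show sq _ = sq _ + sq _
    rw [← hsq_add, hp, hk]
    congr 1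
    ring
  have hA2 : ∀ x, A x ^ 2 = p x + p₁ * k x := fun x => hsqrt _
  have hB2 : ∀ x, B x ^ 2 = p x + (p₁ + κ₀) * k x := fun x => hsqrt _
  let π₁ : P →* Multiplicative F × Multiplicative F := MonoidHom.mk'
    (fun x => (Multiplicative.ofAdd (A x), Multiplicative.ofAdd (B x)))
    (fun x y => by
      show (Multiplicative.ofAdd (A (x * y)), Multiplicative.ofAdd (B (x * y))) = _
      rw [hA, hB]
      rfl)
  let π₂ : UT F →* Multiplicative F × Multiplicative F := MonoidHom.mk'
    (fun y => (Multiplicative.ofAdd (ca y), Multiplicative.ofAdd (cb y)))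
    (fun x y => by
      show (Multiplicative.ofAdd (ca (x * y)), Multiplicative.ofAdd (cb (x * y))) = _
      rw [ca_mul, cb_mul]
      rfl)
  have hπ₁ : ∀ x, π₁ x = (Multiplicative.ofAdd (A x), Multiplicative.ofAdd (B x)) := fun _ => rfl
  have hπ₂ : ∀ y, π₂ y = (Multiplicative.ofAdd (ca y), Multiplicative.ofAdd (cb y)) := fun _ => rfl
  refine iso_of_squares h2 π₁ π₂ ?_ ?_ ψ (fun c => utMk 0 0 c) L.ψ_add ?_ L.ψ_inj ?_ L.ψ_central ?_
    ?_ ?_ ?_
  · rintro ⟨u, v⟩
    let k₀ := (Multiplicative.toAdd u ^ 2 + Multiplicative.toAdd v ^ 2) * κ₀⁻¹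
    let p₀ := Multiplicative.toAdd u ^ 2 + p₁ * k₀
    obtain ⟨x, hx1, hx2⟩ := hsurj p₀ k₀
    refine ⟨x, ?_⟩
    rw [hπ₁]
    have e1 : A x = Multiplicative.toAdd u := by
      apply sq_inj' h2
      rw [hA2, hx1, hx2]
      show Multiplicative.toAdd u ^ 2 + p₁ * k₀ + p₁ * k₀ = _
      linear_combination (p₁ * k₀) * h2
    have e2 : B x = Multiplicative.toAdd v := by
      apply sq_inj' h2
      rw [hB2, hx1, hx2]
      show Multiplicative.toAdd u ^ 2 + p₁ * k₀ + (p₁ + κ₀) * k₀ = _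
      have e3 : κ₀ * k₀ = Multiplicative.toAdd u ^ 2 + Multiplicative.toAdd v ^ 2 := by
        show κ₀ * ((Multiplicative.toAdd u ^ 2 + Multiplicative.toAdd v ^ 2) * κ₀⁻¹) = _
        field_simp
      linear_combination e3 + (p₁ * k₀ + Multiplicative.toAdd u ^ 2) * h2 
    rw [e1, e2]
    rfl
  · rintro ⟨u, v⟩
    exact ⟨utMk (Multiplicative.toAdd u) (Multiplicative.toAdd v) 0, rfl⟩
  · intro c e
    apply ut_ext
    · rw [ca_mul, ca_mk, ca_mk, ca_mk, add_zero]
    · rw [cb_mul, cb_mk, cb_mk, cb_mk, add_zero]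
    · rw [cc_mul, cc_mk, cc_mk, cc_mk, ca_mk, zero_mul, add_zero]
  · intro c e h
    have := congrArg cc h
    simpa only [cc_mk] using this
  · intro c x
    exact central_ut (ca_mk 0 0 c) (cb_mk 0 0 c) x
  · intro x
    rw [hπ₁]
    constructor
    · intro h
      have h1 : A x = 0 := congrArg (fun w => Multiplicative.toAdd w.1) h
      have h3 : B x = 0 := congrArg (fun w => Multiplicative.toAdd w.2) h
      have h4 := hA2 x
      have h5 := hB2 x
      rw [h1] at h4
      rw [h3] at h5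
      have h6 : κ₀ * k x = 0 := by
        linear_combination h4 - h5
      have h7 : k x = 0 := (mul_eq_zero.1 h6).resolve_left hκ₀
      have h8 : p x = 0 := by
        rw [h7] at h4
        linear_combination - h4
      exact hker x h8 h7
    · intro h
      obtain ⟨h1, h3⟩ := hDker x h
      have e1 : A x = 0 := by
        apply sq_inj' h2
        rw [hA2, h1, h3]
        ring
      have e2 : B x = 0 := by
        apply sq_inj' h2
        rw [hB2, h1, h3]
        ring
      rw [e1, e2]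
      rfl
  · intro y
    rw [hπ₂]
    constructor
    · intro h
      have h1 : ca y = 0 := congrArg (fun w => Multiplicative.toAdd w.1) h
      have h3 : cb y = 0 := congrArg (fun w => Multiplicative.toAdd w.2) h
      refine ⟨cc y, ?_⟩
      apply ut_ext
      · rw [ca_mk, h1]
      · rw [cb_mk, h3]
      · rw [cc_mk]
    · rintro ⟨c, rfl⟩
      rw [ca_mk, cb_mk]
      rfl
  · intro x y hxy
    rw [hπ₁, hπ₂] at hxy
    have h1 : A x = ca y := congrArg (fun w => Multiplicative.toAdd w.1) hxy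
    have h3 : B x = cb y := congrArg (fun w => Multiplicative.toAdd w.2) hxy
    obtain ⟨s, hs, hs2⟩ := hsq x
    refine ⟨s, hs, ?_⟩
    have hs3 : s = A x * B x := by
      apply sq_inj' h2
      rw [mul_pow, hA2, hB2, hs2]
      linear_combination (k x) ^ 2 * hp₁ - ((p₁ ^ 2 + κ₀ * p₁) * (k x) ^ 2 + p₁ * p x * k x) * h2
    obtain ⟨e1, e2, e3⟩ := sq_ut h2 y
    rw [pow_two]
    apply ut_ext
    · rw [e1, ca_mk]
    · rw [e2, cb_mk]
    · rw [e3, cc_mk, hs3, h1, h3]

end Models

section Nonsplit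

open Cfsg.Agent.Lib.SuzukiTwo.PSU3 Cfsg.Agent.Lib.TwoFusion.SU3q in
/-- The non-split case. -/
theorem nonsplit_case {F : Type} [Field F] [Fintype F] {lam : F} {P : Type*} [Group P]
    {a r : P ≃* P} {ψ : F → P}
    (L : Lv lam a r ψ) (p k : P → F) (κ₀ C₀ : F) (hκ₀ : κ₀ ≠ 0)
    (hp : ∀ x y, p (x * y) = p x + p y) (hk : ∀ x y, k (x * y) = k x + k y)
    (hsurj : ∀ u v, ∃ x, p x = u ∧ k x = v)
    (hker : ∀ x, p x = 0 → k x = 0 → x ∈ L.D) (hDker : ∀ x ∈ L.D, p x = 0 ∧ k x = 0)
    (hsq : ∀ x, ∃ s, x ^ 2 = ψ s ∧ s ^ 2 = (p x) ^ 2 + κ₀ * (p x) * (k x) + C₀ * (k x) ^ 2)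
    (n : ℕ) (hn : 1 ≤ n) (hq : Fintype.card F = 2 ^ n) (hroot : ∀ u : F, u ^ 2 + κ₀ * u + C₀ ≠ 0) :
    ∃ (F' : Type) (_ : Field F') (_ : Fintype F'), Fintype.card F' = 4 ^ n ∧
      ∃ S : Sylow 2 (Cfsg.PSU 3 F' (2 ^ n)), Nonempty (P ≃* ↥(S : Subgroup (Cfsg.PSU 3 F' (2 ^ n)))) := by
  classical
  have h2 : (2 : F) = 0 := L.G.two
  have hq2 : 2 ≤ 2 ^ n := by
    calc 2 = 2 ^ 1 := by norm_num
      _ ≤ 2 ^ n := Nat.pow_le_pow_right (by norm_num) hn
  obtain ⟨F', _, _, ι, θ, hcard, hθ, hb, hind, hθq⟩ := exists_quad_ext hq hq2 κ₀ C₀ hκ₀ h2 hroot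
    (fun h x y => frob_two_pow h n x y)
  set q := 2 ^ n with hqdef
  have hι2 : (2 : F') = 0 := by
    have := congrArg ι h2
    rwa [map_ofNat, map_zero] at this
  have hcard4 : Fintype.card F' = 4 ^ n := by
    rw [hcard, hqdef, ← pow_mul, mul_comm, pow_mul]
    norm_num
  refine ⟨F', inferInstance, inferInstance, hcard4, ?_⟩
  haveI : Fact (Fintype.card F' = q ^ 2) := ⟨hcard⟩
  haveI : Fact ((2 : F') = 0) := ⟨hι2⟩
  have hιq : ∀ c : F, ι c ^ q = ι c := by
    intro c
    rw [← map_pow, ← hq, FiniteField.pow_card]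
  have hadd : ∀ x y : F', (x + y) ^ q = x ^ q + y ^ q := fun x y => frob_two_pow hι2 n x y
  have hq0 : q ≠ 0 := by omega
  choose sq hsqrt using exists_sqrt' hι2
  have hsq_add : ∀ c d, sq (c + d) = sq c + sq d := by
    intro c d
    apply sq_inj' hι2
    rw [hsqrt]
    have : (sq c + sq d) ^ 2 = sq c ^ 2 + sq d ^ 2 := by
      linear_combination (sq c * sq d) * hι2
    rw [this, hsqrt, hsqrt]
  let ξ : P → F' := fun x => ι (p x) + θ * ι (k x)
  let A : P → F' := fun x => sq (ξ x)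
  have hA : ∀ x y, A (x * y) = A x + A y := by
    intro x y
    show sq _ = sq _ + sq _
    rw [← hsq_add]
    congr 1
    show ι (p (x * y)) + θ * ι (k (x * y)) = _
    rw [hp, hk, map_add, map_add]
    show _ = ι (p x) + θ * ι (k x) + (ι (p y) + θ * ι (k y))
    ring
  have hA2 : ∀ x, A x ^ 2 = ι (p x) + θ * ι (k x) := fun x => hsqrt _
  let π₁ : P →* Multiplicative F' := MonoidHom.mk' (fun x => Multiplicative.ofAdd (A x))
    (fun x y => by
      show Multiplicative.ofAdd (A (x * y)) = _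
      rw [hA]
      rfl)
  let π₂ : H F' q →* Multiplicative F' := MonoidHom.mk' (fun u => Multiplicative.ofAdd u.1.1)
    (fun x y => by
      show Multiplicative.ofAdd ((x * y).1.1) = _
      rw [mul_fst]
      rfl)
  have hπ₁ : ∀ x, π₁ x = Multiplicative.ofAdd (A x) := fun _ => rfl
  have hπ₂ : ∀ u, π₂ u = Multiplicative.ofAdd u.1.1 := fun _ => rfl
  have hd₂ : ∀ c : F, ((0 : F'), ι c).2 + ((0 : F'), ι c).2 ^ q = ((0 : F'), ι c).1 ^ (q + 1) := by
    intro c
    simp only
    rw [hιq, zero_pow (by omega)]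
    linear_combination ι c * hι2
  let d₂ : F → H F' q := fun c => ⟨(0, ι c), hd₂ c⟩
  have hiso : Nonempty (P ≃* H F' q) := by
    refine iso_of_squares h2 π₁ π₂ ?_ ?_ ψ d₂ L.ψ_add ?_ L.ψ_inj ?_ L.ψ_central ?_ ?_ ?_ ?_
    · intro y
      obtain ⟨u, v, huv⟩ := hb (Multiplicative.toAdd y ^ 2)
      obtain ⟨x, hx1, hx2⟩ := hsurj u v
      refine ⟨x, ?_⟩
      rw [hπ₁]
      have e : A x = Multiplicative.toAdd y := by
        apply sq_inj' hι2
        rw [hA2, hx1, hx2, huv]
      rw [e]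
      rfl
    · intro y
      refine ⟨secH (q := q) (Multiplicative.toAdd y), ?_⟩
      rw [hπ₂, secH_fst]
      rfl
    · intro c e
      apply H_ext
      · rw [mul_fst]
        show (0 : F') = 0 + 0
        rw [add_zero]
      · rw [mul_snd]
        show ι (c + e) = ι c + ι e + 0 * 0 ^ q
        rw [map_add, zero_mul, add_zero]
    · intro c e h
      have h1 : ι c = ι e := congrArg (fun u : H F' q => u.1.2) h
      exact ι.injective h1
    · intro c x
      apply H_ext
      · rw [mul_fst, mul_fst]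
        show (0 : F') + x.1.1 = x.1.1 + 0
        rw [zero_add, add_zero]
      · rw [mul_snd, mul_snd]
        show ι c + x.1.2 + 0 * x.1.1 ^ q = x.1.2 + ι c + x.1.1 * 0 ^ q
        rw [zero_pow hq0]
        ring
    · intro x
      rw [hπ₁]
      constructor
      · intro h
        have h1 : A x = 0 := Multiplicative.ofAdd.injective h
        have h3 := hA2 x
        rw [h1] at h3
        have h4 : ι (p x) + θ * ι (k x) = 0 := by
          rw [← h3]
          ring
        obtain ⟨h5, h6⟩ := hind _ _ h4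
        exact hker x h5 h6
      · intro h
        obtain ⟨h1, h3⟩ := hDker x h
        have e1 : A x = 0 := by
          apply sq_inj' hι2
          rw [hA2, h1, h3]
          simp
        rw [e1]
        rfl
    · intro u
      rw [hπ₂]
      constructor
      · intro h
        have h1 : u.1.1 = 0 := Multiplicative.ofAdd.injective h
        have h3 := u.2
        rw [h1, zero_pow (by omega)] at h3
        have h4 : u.1.2 ^ q = u.1.2 := (eq_of_add_zero hι2 h3).symm
        obtain ⟨c, e, hce⟩ := hb u.1.2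
        have h5 : (θ + ι κ₀) * ι e = θ * ι e := by
          have h6 := h4
          rw [hce, hadd, mul_pow, hιq, hιq, hθq] at h6
          exact add_left_cancel h6
        have h6 : ι (κ₀ * e) = 0 := by
          rw [map_mul]
          linear_combination h5
        have h7 : κ₀ * e = 0 := (map_eq_zero ι).1 h6
        have h8 : e = 0 := (mul_eq_zero.1 h7).resolve_left hκ₀
        refine ⟨c, ?_⟩
        apply H_ext
        · exact h1.symm
        · show ι c = _
          rw [hce, h8, map_zero, mul_zero, add_zero]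
      · rintro ⟨c, rfl⟩
        rfl
    · intro x u hxu
      rw [hπ₁, hπ₂] at hxu
      have h1 : A x = u.1.1 := Multiplicative.ofAdd.injective hxu
      obtain ⟨s, hs, hs2⟩ := hsq x
      refine ⟨s, hs, ?_⟩
      rw [pow_two]
      apply H_ext
      · rw [sq_fst']
      · rw [sq_snd', ← h1]
        show A x ^ (q + 1) = ι s
        apply sq_inj' hι2
        rw [← pow_mul, mul_comm, pow_mul, hA2, pow_succ, hadd, mul_pow, hιq, hιq, hθq, ← map_pow, hs2]
        simp only [map_add, map_mul, map_pow]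
        linear_combination (ι (k x)) ^ 2 * hθ + (ι (p x) * θ * ι (k x) + ι κ₀ * ι (k x) ^ 2 * θ) * hι2
  obtain ⟨e₁⟩ := hiso
  obtain ⟨S⟩ : Nonempty (Sylow 2 (Cfsg.PSU 3 F' q)) := inferInstance
  obtain ⟨e₂⟩ := nonempty_equiv (F := F') (q := q) hqdef hn S
  exact ⟨S, ⟨e₁.trans e₂.symm⟩⟩

end Nonsplit

end Cfsg.Agent.Lib.InvolChar.Singer1
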