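/-
Commuting involutory and Singer-type automorphisms of `2`-groups, part 5: the field.
-/
import Cfsg.Agent.Lib.InvolChar.Singer4
import Cfsg.Prelude.Def_Transfer

set_option autoImplicit false
set_option linter.unusedSectionVars false
set_option linter.unusedVariables false
set_option linter.style.haveILetI false

namespace Cfsg.Agent.Lib.InvolChar.Singer1

open scoped commutatorElement

section Field

universe w

/-- An additive group with a transitive automorphism is a field. -/
theorem field_of_transitive₀ {A : Type w} [AddCommGroup A] [Finite A] (ρ : AddMonoid.End A) (N : ℕ)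
    (hN : 1 ≤ N) (hρN : ρ ^ N = 1) (c₀ : A) (hc₀ : c₀ ≠ 0)
    (htr : ∀ x, x ≠ 0 → ∃ k : ℕ, (ρ ^ k) c₀ = x) :
    ∃ (K : Type w) (_ : Field K) (ev : K →+ A) (r : K), Function.Bijective ev ∧
      (∀ c, ev (r * c) = ρ (ev c)) ∧ ∀ c, c ≠ 0 → ∃ k : ℕ, r ^ k = c := by
  classical
  let R' : Subring (AddMonoid.End A) := Subring.centralizer ({ρ} : Set (AddMonoid.End A))
  have mem_R' : ∀ f : AddMonoid.End A, f ∈ R' ↔ ρ * f = f * ρ := by
    intro f
    rw [Subring.mem_centralizer_iff]
    simp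
  have hpow_mem : ∀ k : ℕ, ρ ^ k ∈ R' := fun k => pow_mem ((mem_R' ρ).2 rfl) k
  have hcomm_pow : ∀ f ∈ R', ∀ (k : ℕ) (x : A), f ((ρ ^ k) x) = (ρ ^ k) (f x) := by
    intro f hf k x
    have h1 : Commute ρ f := (mem_R' f).1 hf
    have h2 : Commute (ρ ^ k) f := h1.pow_left k
    exact (congrArg (fun g : AddMonoid.End A => g x) h2.eq).symm
  let ev : R' → A := fun f => f.1 c₀
  have ev_inj : Function.Injective ev := by
    intro f g h
    apply Subtype.ext
    ext x
    by_cases hx : x = 0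
    · rw [hx, map_zero, map_zero]
    obtain ⟨k, rfl⟩ := htr x hx
    rw [hcomm_pow f.1 f.2, hcomm_pow g.1 g.2]
    have h' : f.1 c₀ = g.1 c₀ := h
    rw [h']
  have ev_surj : Function.Surjective ev := by
    intro x
    by_cases hx : x = 0
    · exact ⟨0, by rw [hx]; rfl⟩
    obtain ⟨k, hk⟩ := htr x hx
    exact ⟨⟨ρ ^ k, hpow_mem k⟩, hk⟩
  have hnz : ∀ f : R', f ≠ 0 → ∃ k : ℕ, f = ⟨ρ ^ k, hpow_mem k⟩ := by
    intro f hf
    have h1 : ev f ≠ 0 := by
      intro h
      apply hf
      apply ev_inj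
      rw [h]
      rfl
    obtain ⟨k, hk⟩ := htr _ h1
    refine ⟨k, ev_inj ?_⟩
    exact hk.symm
  have hfield : IsField R' := by
    refine ⟨⟨0, 1, fun h => ?_⟩, ?_, ?_⟩
    · have h1 : (0 : R').1 c₀ = (1 : R').1 c₀ := by rw [h]
      exact hc₀ h1.symm
    · intro f g
      by_cases hf : f = 0
      · rw [hf, zero_mul, mul_zero]
      by_cases hg : g = 0
      · rw [hg, zero_mul, mul_zero]
      obtain ⟨i, rfl⟩ := hnz f hf
      obtain ⟨j, rfl⟩ := hnz g hg
      apply Subtype.ext
      show ρ ^ i * ρ ^ j = ρ ^ j * ρ ^ i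
      rw [← pow_add, ← pow_add, add_comm]
    · intro f hf
      obtain ⟨k, rfl⟩ := hnz f hf
      refine ⟨⟨ρ ^ (N * k - k), hpow_mem _⟩, ?_⟩
      apply Subtype.ext
      show ρ ^ k * ρ ^ (N * k - k) = 1
      rw [← pow_add]
      have hle : k ≤ N * k := Nat.le_mul_of_pos_left k (by omega)
      rw [Nat.add_sub_cancel' hle, pow_mul, hρN, one_pow]
  let ρ' : R' := ⟨ρ, (mem_R' ρ).2 rfl⟩
  let ev' : R' →+ A :=
    { toFun := ev
      map_zero' := rfl
      map_add' := fun _ _ => rfl }
  refine ⟨R', hfield.toField, ev', ρ', ⟨ev_inj, ev_surj⟩, ?_, ?_⟩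
  · intro c
    rfl
  · intro c hc
    obtain ⟨k, hk⟩ := hnz c hc
    refine ⟨k, ?_⟩
    rw [hk]
    apply Subtype.ext
    show ((ρ' ^ k : R') : AddMonoid.End A) = ρ ^ k
    have : ∀ k : ℕ, ((ρ' ^ k : R') : AddMonoid.End A) = ρ ^ k := by
      intro k
      induction k with
      | zero => rfl
      | succ k ih =>
        rw [pow_succ, pow_succ, ← ih]
        rfl
    exact this k

/-- An additive group with a transitive automorphism is the Galois field. -/
theorem field_of_transitive {A : Type w} [AddCommGroup A] [Finite A] (ρ : AddMonoid.End A) (N : ℕ)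
    (hN : 1 ≤ N) (hρN : ρ ^ N = 1) (c₀ : A) (hc₀ : c₀ ≠ 0)
    (htr : ∀ x, x ≠ 0 → ∃ k : ℕ, (ρ ^ k) c₀ = x) {F : Type*} [Field F] [Fintype F]
    (hcard : Nat.card A = Fintype.card F) :
    ∃ (lam : F) (ψ : F →+ A), Function.Bijective ψ ∧
      (∀ c, ψ (lam * c) = ρ (ψ c)) ∧ ∀ c, c ≠ 0 → ∃ k : ℕ, lam ^ k = c := by
  classical
  obtain ⟨K, _, ev, r, hbij, hev, hgen⟩ := field_of_transitive₀ ρ N hN hρN c₀ hc₀ htr
  haveI : Finite K := Finite.of_injective ev hbij.1
  letI : Fintype K := Fintype.ofFinite _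
  have hcardR : Fintype.card K = Fintype.card F := by
    rw [← hcard, ← Nat.card_eq_fintype_card]
    exact Nat.card_congr (Equiv.ofBijective ev hbij)
  let e : K ≃+* F := FiniteField.ringEquivOfCardEq hcardR
  refine ⟨e r, ev.comp e.symm.toAddEquiv.toAddMonoidHom, ?_, ?_, ?_⟩
  · exact hbij.comp e.symm.bijective
  · intro c
    show ev (e.symm (e r * c)) = ρ (ev (e.symm c))
    rw [map_mul, e.symm_apply_apply, hev]
  · intro c hc
    have h1 : e.symm c ≠ 0 := by
      rw [Ne, map_eq_zero_iff e.symm e.symm.injective]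
      exact hc
    obtain ⟨k, hk⟩ := hgen _ h1
    refine ⟨k, ?_⟩
    rw [← map_pow, hk, e.apply_symm_apply]

variable {Q : Type*} [Group Q] [Finite Q]

/-- The field structure on the fixed points. -/
theorem exists_lv {F : Type*} [Field F] [Fintype F] (hQ : IsPGroup 2 Q) (n : ℕ) (hn : 2 ≤ n)
    (hF : Fintype.card F = 2 ^ n)
    (α ρ : MulAut Q) (hα : orderOf α = 2) (hρ : orderOf ρ = 2 ^ n - 1) (hc : Commute α ρ)
    (C : Subgroup Q) (hC : ∀ x : Q, x ∈ C ↔ α x = x)
    (hCE : Cfsg.IsElementaryAbelian 2 C ∧ Nat.card ↥C = 2 ^ n)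
    (htr : ∀ x y : Q, x ∈ C → y ∈ C → x ≠ 1 → y ≠ 1 → ∃ k : ℕ, (ρ ^ k) x = y) :
    ∃ (lam : F) (ψ : F → Q), Lv lam α ρ ψ := by
  classical
  haveI : Fact (Nat.Prime 2) := ⟨Nat.prime_two⟩
  obtain ⟨⟨hcomm, hC2⟩, hcard⟩ := hCE
  have hα2 : ∀ x, α (α x) = x := by
    intro x
    have h := pow_orderOf_eq_one α
    rw [hα] at h
    have h2 := congrArg (fun f : MulAut Q => f x) h
    simpa [pow_succ] using h2
  have hαρ : ∀ x, α (ρ x) = ρ (α x) := by
    intro x
    have h2 := congrArg (fun f : MulAut Q => f x) hc.eq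
    exact h2
  have hρC : ∀ x ∈ C, ρ x ∈ C := by
    intro x hx
    rw [hC] at hx ⊢
    rw [hαρ, hx]
  have hρN : ρ ^ (2 ^ n - 1) = 1 := by
    rw [← hρ]
    exact pow_orderOf_eq_one ρ
  letI cgC : CommGroup C :=
    { (inferInstance : Group C) with mul_comm := fun a b => hcomm.is_comm.comm a b }
  let ρt : AddMonoid.End (Additive C) :=
    { toFun := fun x => Additive.ofMul ⟨ρ (Additive.toMul x : C), hρC _ (Additive.toMul x).2⟩
      map_zero' := by
        apply Additive.toMul.injective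
        apply Subtype.ext
        exact map_one ρ
      map_add' := fun x y => by
        apply Additive.toMul.injective
        apply Subtype.ext
        exact map_mul ρ _ _ }
  have hρt : ∀ (k : ℕ) (x : Additive C), (Additive.toMul ((ρt ^ k) x)).1 = (ρ ^ k) (Additive.toMul x).1 := by
    intro k x
    induction k with
    | zero => rfl
    | succ k ih =>
      rw [pow_succ', pow_succ']
      show ρ ((Additive.toMul ((ρt ^ k) x)).1) = _
      rw [ih]
      rfl
  have hnt : Nontrivial C := by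
    have h1 : 1 < Nat.card C := by
      rw [hcard]
      exact Nat.one_lt_two_pow (by omega)
    exact (Finite.one_lt_card_iff_nontrivial).1 h1
  obtain ⟨c₀, hc₀⟩ := exists_ne (1 : C)
  have hc₀' : (c₀ : Q) ≠ 1 := fun h => hc₀ (Subtype.ext h)
  obtain ⟨lam, ψ, hψ, hψlam, hgen⟩ := field_of_transitive (A := Additive C) ρt (2 ^ n - 1)
    (by
      have : 2 ≤ 2 ^ n := by
        calc 2 = 2 ^ 1 := by norm_num
          _ ≤ 2 ^ n := Nat.pow_le_pow_right (by norm_num) (by omega)
      omega)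
    (by
      apply AddMonoidHom.ext
      intro x
      apply Additive.toMul.injective
      apply Subtype.ext
      show (Additive.toMul ((ρt ^ (2 ^ n - 1)) x)).1 = (Additive.toMul x).1
      rw [hρt, hρN]
      rfl)
    (Additive.ofMul c₀) (fun h => hc₀ (Additive.ofMul.injective h))
    (fun x hx => by
      have hx1 : (Additive.toMul x).1 ≠ 1 := by
        intro h
        apply hx
        apply Additive.toMul.injective
        exact Subtype.ext h
      obtain ⟨k, hk⟩ := htr c₀ (Additive.toMul x).1 c₀.2 (Additive.toMul x).2 hc₀' hx1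
      refine ⟨k, ?_⟩
      apply Additive.toMul.injective
      apply Subtype.ext
      rw [hρt]
      exact hk)
    (F := F) (by
      rw [hF, ← hcard]
      exact Nat.card_congr Additive.toMul)
  refine ⟨lam, fun c => (Additive.toMul (ψ c)).1, ?_⟩
  refine ⟨⟨?_, hgen⟩, inferInstance, hQ, hα2, hαρ, ?_, ?_, ?_, ?_⟩
  · -- `2 = 0`
    have h1 : ((Fintype.card F : ℕ) : F) = 0 := Nat.cast_card_eq_zero F
    rw [hF, Nat.cast_pow] at h1
    have := pow_eq_zero_iff (by omega : n ≠ 0) |>.1 h1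
    exact_mod_cast this
  · intro c d
    rw [map_add]
    rfl
  · intro c d h
    apply hψ.1
    apply Additive.toMul.injective
    exact Subtype.ext h
  · intro x
    rw [← hC]
    constructor
    · intro hx
      obtain ⟨c, hc⟩ := hψ.2 (Additive.ofMul ⟨x, hx⟩)
      refine ⟨c, ?_⟩
      rw [hc]
      rfl
    · rintro ⟨c, rfl⟩
      exact (Additive.toMul (ψ c)).2
  · intro c
    rw [hψlam]
    rfl

end Field

end Cfsg.Agent.Lib.InvolChar.Singer1
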