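import Cfsg.Agent.Lib.InvolChar.OddGraph

/-!
# Tools for odd products of involutions in symmetric groups
-/

set_option autoImplicit false

namespace Cfsg.Agent.Lib.InvolChar.SymOdd

open Equiv Equiv.Perm

variable {α : Type*} [DecidableEq α] [Fintype α]

/-- The number of moved points. -/
def mv (x : Perm α) : ℕ := (Finset.univ.filter (fun w => x w ≠ w)).card

omit [DecidableEq α] [Fintype α] in
lemma odd_of_pow {G : Type*} [Group G] {s : G} {k : ℕ} (hk : Odd k) (h : s ^ k = 1) :
    Odd (orderOf s) :=
  Odd.of_dvd_nat hk (orderOf_dvd_of_pow_eq_one h)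

omit [DecidableEq α] [Fintype α] in
lemma inv_app {X : Perm α} (h : X * X = 1) (w : α) : X (X w) = w := by
  have := congrArg (fun σ : Perm α => σ w) h
  simpa using this

/-- `x` agrees with the involution `X` on the support of `X`. -/
structure Strip (x X : Perm α) : Prop where
  sq : X * X = 1
  agree : ∀ w, X w ≠ w → x w = X w

omit [DecidableEq α] [Fintype α] in
lemma Strip.fix {x X : Perm α} (h : Strip x X) (w : α) (hw : X w ≠ w) : (x * X) w = w := by
  rw [mul_apply]
  have h1 : X (X w) = w := inv_app h.sq w
  have h2 : X (X w) ≠ X w := by rw [h1]; exact fun e => hw e.symm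
  rw [h.agree _ h2, h1]

omit [DecidableEq α] [Fintype α] in
lemma Strip.off {x X : Perm α} (_h : Strip x X) (w : α) (hw : X w = w) : (x * X) w = x w := by
  rw [mul_apply, hw]

omit [DecidableEq α] [Fintype α] in
lemma Strip.inv' {x X : Perm α} (hx : x * x = 1) (h : Strip x X) : (x * X) * (x * X) = 1 := by
  ext w
  rw [mul_apply, one_apply]
  by_cases hw : X w = w
  · rw [h.off w hw]
    have h1 : x (x w) = w := inv_app hx w
    have h2 : X (x w) = x w := by
      by_contra hne
      have h3 := h.agree _ hne
      rw [h1] at h3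
      have h4 : X (X (x w)) = x w := inv_app h.sq _
      rw [← h3, hw] at h4
      apply hne
      rw [← h4, hw]
    rw [h.off _ h2, h1]
  · rw [h.fix w hw, h.fix w hw]

omit [DecidableEq α] [Fintype α] in
lemma Strip.eq {x X : Perm α} (h : Strip x X) : (x * X) * X = x := by
  rw [mul_assoc, h.sq, mul_one]

omit [DecidableEq α] [Fintype α] in
lemma Strip.disj {x X : Perm α} (h : Strip x X) : Disjoint (x * X) X := by
  intro w
  by_cases hw : X w = w
  · exact Or.inr hw
  · exact Or.inl (h.fix w hw)

lemma Strip.mv_eq {x X : Perm α} (h : Strip x X) : mv (x * X) + mv X = mv x := by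
  unfold mv
  rw [← Finset.card_union_of_disjoint]
  · congr 1
    ext w
    simp only [Finset.mem_union, Finset.mem_filter, Finset.mem_univ, true_and]
    constructor
    · rintro (h1 | h1)
      · by_cases hw : X w = w
        · rwa [h.off w hw] at h1
        · exact absurd (h.fix w hw) h1
      · rw [h.agree w h1]; exact h1
    · intro h1
      by_cases hw : X w = w
      · left; rwa [h.off w hw]
      · right; exact hw
  · rw [Finset.disjoint_left]
    intro w h1 h2
    simp only [Finset.mem_filter, Finset.mem_univ, true_and] at h1 h2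
    exact h1 (h.fix w h2)

omit [Fintype α] in
lemma strip_swap {x : Perm α} {a b : α} (hab : a ≠ b) (hxa : x a = b) (hx : x * x = 1) :
    Strip x (swap a b) := by
  refine ⟨swap_mul_self a b, ?_⟩
  intro w hw
  by_cases h1 : w = a
  · rw [h1, swap_apply_left, hxa]
  · by_cases h2 : w = b
    · rw [h2, swap_apply_right, ← hxa, inv_app hx]
    · exact absurd (swap_apply_of_ne_of_ne h1 h2) hw

omit [Fintype α] in
/-- The embedding homomorphism. -/
noncomputable def phi {k : ℕ} (v : Fin k → α) (hv : Function.Injective v) :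
    Perm (Fin k) →* Perm α :=
  viaEmbeddingHom ⟨v, hv⟩

omit [DecidableEq α] [Fintype α] in
lemma phi_apply {k : ℕ} (v : Fin k → α) (hv : Function.Injective v) (σ : Perm (Fin k)) (i : Fin k) :
    phi v hv σ (v i) = v (σ i) := by
  unfold phi
  rw [viaEmbeddingHom_apply]
  exact viaEmbedding_apply σ ⟨v, hv⟩ i

omit [DecidableEq α] [Fintype α] in
lemma phi_off {k : ℕ} (v : Fin k → α) (hv : Function.Injective v) (σ : Perm (Fin k)) (w : α)
    (hw : ∀ i, v i ≠ w) : phi v hv σ w = w := by
  unfold phi
  rw [viaEmbeddingHom_apply]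
  apply viaEmbedding_apply_of_notMem
  rintro ⟨i, hi⟩
  exact hw i hi

omit [Fintype α] in
lemma phi_swap {k : ℕ} (v : Fin k → α) (hv : Function.Injective v) (i j : Fin k) :
    phi v hv (swap i j) = swap (v i) (v j) := by
  ext w
  by_cases hw : ∃ l, v l = w
  · obtain ⟨l, rfl⟩ := hw
    rw [phi_apply, hv.swap_apply]
  · push Not at hw
    rw [phi_off v hv _ w hw, swap_apply_of_ne_of_ne (hw i).symm (hw j).symm]

lemma mv_phi {k : ℕ} (v : Fin k → α) (hv : Function.Injective v) (σ : Perm (Fin k)) :
    mv (phi v hv σ) = mv σ := by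
  unfold mv
  rw [← Finset.card_image_of_injective _ hv]
  congr 1
  ext w
  simp only [Finset.mem_filter, Finset.mem_univ, true_and, Finset.mem_image]
  constructor
  · intro h
    by_cases hw : ∃ l, v l = w
    · obtain ⟨l, rfl⟩ := hw
      refine ⟨l, ?_, rfl⟩
      intro h'
      apply h
      rw [phi_apply, h']
    · push Not at hw
      exact absurd (phi_off v hv _ w hw) h
  · rintro ⟨l, hl, rfl⟩
    rw [phi_apply]
    exact fun e => hl (hv e)

omit [Fintype α] in
lemma strip_phi {k : ℕ} (v : Fin k → α) (hv : Function.Injective v) {x : Perm α}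
    {X : Perm (Fin k)} (hXX : X * X = 1) (hx : ∀ i, x (v i) = v (X i)) :
    Strip x (phi v hv X) := by
  refine ⟨by rw [← map_mul, hXX, map_one], ?_⟩
  intro w hw
  by_cases h : ∃ l, v l = w
  · obtain ⟨l, rfl⟩ := h
    rw [phi_apply, hx]
  · push Not at h
    exact absurd (phi_off v hv _ w h) hw

omit [Fintype α] in
lemma phi_fix {k : ℕ} (v : Fin k → α) (hv : Function.Injective v) {x : Perm α}
    {X : Perm (Fin k)} (hXX : X * X = 1) (hx : ∀ i, x (v i) = v (X i)) (i : Fin k) :
    (x * phi v hv X) (v i) = v i := by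
  rw [mul_apply, phi_apply, hx]
  have := inv_app hXX i
  rw [this]

omit [DecidableEq α] [Fintype α] in
/-- Disjoint products of elements of odd order have odd order. -/
lemma odd_of_disjoint {σ τ : Perm α} (hd : Disjoint σ τ) (h1 : Odd (orderOf σ))
    (h2 : Odd (orderOf τ)) : Odd (orderOf (σ * τ)) := by
  obtain ⟨k, hk⟩ : ∃ k, k = orderOf σ * orderOf τ := ⟨_, rfl⟩
  apply odd_of_pow (k := orderOf σ * orderOf τ) (h1.mul h2)
  rw [hd.commute.mul_pow]
  rw [pow_mul, pow_orderOf_eq_one, one_pow, one_mul, mul_comm, pow_mul, pow_orderOf_eq_one,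
    one_pow]

omit [DecidableEq α] [Fintype α] in
lemma odd_glue {x' z' X Z : Perm α} (d1 : Disjoint x' X) (d2 : Disjoint x' Z) (d3 : Disjoint z' X)
    (d4 : Disjoint z' Z) (h1 : Odd (orderOf (x' * z'))) (h2 : Odd (orderOf (X * Z))) :
    Odd (orderOf (x' * X * (z' * Z))) := by
  have e : x' * X * (z' * Z) = (x' * z') * (X * Z) := by
    have : X * z' = z' * X := (d3.commute).symm.eq
    calc x' * X * (z' * Z) = x' * (X * z') * Z := by group
      _ = x' * (z' * X) * Z := by rw [this]
      _ = (x' * z') * (X * Z) := by group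
  rw [e]
  apply odd_of_disjoint _ h1 h2
  exact (d1.mul_right d2).symm.mul_right (d3.mul_right d4).symm |>.symm

/-- Inserting two fresh points in a cycle of an element of odd order. -/
lemma insert1 (π : Perm α) (p b d : α) (hpb : p ≠ b) (hpd : p ≠ d) (hbd : b ≠ d)
    (hb : π b = b) (hd : π d = d) (h : Odd (orderOf π)) :
    Odd (orderOf (π * (swap p b * swap b d))) := by
  set c : Perm α := swap p b * swap b d with hc
  set ρ : Perm α := π * c with hρ
  have hcp : c p = b := by
    rw [hc, mul_apply, swap_apply_of_ne_of_ne hpb hpd, swap_apply_left]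
  have hcb : c b = d := by
    rw [hc, mul_apply, swap_apply_left, swap_apply_of_ne_of_ne hpd.symm hbd.symm]
  have hcd : c d = p := by
    rw [hc, mul_apply, swap_apply_right, swap_apply_right]
  have hco : ∀ w, w ≠ p → w ≠ b → w ≠ d → c w = w := by
    intro w h1 h2 h3
    rw [hc, mul_apply, swap_apply_of_ne_of_ne h2 h3, swap_apply_of_ne_of_ne h1 h2]
  have hρp : ρ p = b := by rw [hρ, mul_apply, hcp, hb]
  have hρb : ρ b = d := by rw [hρ, mul_apply, hcb, hd]
  have hρd : ρ d = π p := by rw [hρ, mul_apply, hcd]
  have hρo : ∀ w, w ≠ p → w ≠ b → w ≠ d → ρ w = π w := by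
    intro w h1 h2 h3
    rw [hρ, mul_apply, hco w h1 h2 h3]
  set M := orderOf π with hM
  have hperM : Function.IsPeriodicPt π M p := by
    unfold Function.IsPeriodicPt Function.IsFixedPt
    have : (π ^ M) p = p := by rw [hM, pow_orderOf_eq_one]; rfl
    rwa [coe_pow] at this
  set L := Function.minimalPeriod π p with hL
  have hLM : L ∣ M := hperM.minimalPeriod_dvd
  have hLodd : Odd L := Odd.of_dvd_nat h hLM
  have hLpos : 0 < L := hLodd.pos
  have hperL : (π ^ L) p = p := by
    have := Function.isPeriodicPt_minimalPeriod π p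
    unfold Function.IsPeriodicPt Function.IsFixedPt at this
    rwa [coe_pow]
  have hne : ∀ j, 0 < j → j < L → (π ^ j) p ≠ p := by
    intro j h0 h1 he
    have : Function.IsPeriodicPt π j p := by
      unfold Function.IsPeriodicPt Function.IsFixedPt
      rwa [coe_pow] at he
    have := this.minimalPeriod_le h0
    omega
  have hfix : ∀ (w : α), π w = w → ∀ j : ℕ, (π ^ j) w = w := by
    intro w hw j
    induction j with
    | zero => simp
    | succ n ih => rw [pow_succ, mul_apply, hw, ih]
  have hneb : ∀ j, (π ^ j) p ≠ b := by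
    intro j he
    apply hpb
    apply (π ^ j).injective
    rw [he, hfix b hb]
  have hned : ∀ j, (π ^ j) p ≠ d := by
    intro j he
    apply hpd
    apply (π ^ j).injective
    rw [he, hfix d hd]
  have hstep : ∀ j, j < L → (ρ ^ j) (π p) = (π ^ (j + 1)) p := by
    intro j
    induction j with
    | zero => intro _; simp
    | succ n ih =>
      intro hn
      rw [pow_succ', mul_apply, ih (by omega), hρo _ (hne _ (by omega) (by omega)) (hneb _) (hned _),
        ← mul_apply, ← pow_succ']
  have hret : (ρ ^ (L + 2)) p = p := by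
    have h3 : (ρ ^ 3) p = π p := by
      have : (ρ ^ 3) p = ρ (ρ (ρ p)) := by simp [pow_succ, mul_apply]
      rw [this, hρp, hρb, hρd]
    have : L + 2 = (L - 1) + 3 := by omega
    rw [this, pow_add, mul_apply, h3, hstep (L - 1) (by omega)]
    rw [show L - 1 + 1 = L by omega]
    exact hperL
  have hretN : ∀ m : ℕ, (ρ ^ ((L + 2) * m)) p = p := by
    intro m
    induction m with
    | zero => simp
    | succ n ih => rw [mul_add, mul_one, pow_add, mul_apply, hret, ih]
  have hN : ρ ^ ((L + 2) * M) = 1 := by
    ext w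
    rw [one_apply]
    by_cases hw : ρ.SameCycle p w
    · obtain ⟨i, hi⟩ := hw.exists_nat_pow_eq
      rw [← hi, ← mul_apply, ← pow_add, add_comm, pow_add, mul_apply, hretN M]
    · have hall : ∀ k : ℕ, (ρ ^ k) w = (π ^ k) w := by
        intro k
        induction k with
        | zero => simp
        | succ n ih =>
          have hn1 : (ρ ^ n) w ≠ p := by
            intro he
            apply hw
            have : ρ.SameCycle p ((ρ ^ n) w) := by rw [he]
            exact (sameCycle_pow_right).1 this
          have hn2 : (ρ ^ n) w ≠ b := by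
            intro he
            apply hw
            have : ρ.SameCycle p ((ρ ^ n) w) := by
              rw [he, ← hρp]
              exact (sameCycle_apply_right).2 (SameCycle.refl _ _)
            exact (sameCycle_pow_right).1 this
          have hn3 : (ρ ^ n) w ≠ d := by
            intro he
            apply hw
            have : ρ.SameCycle p ((ρ ^ n) w) := by
              rw [he, ← hρb, ← hρp]
              exact (sameCycle_apply_right).2 ((sameCycle_apply_right).2 (SameCycle.refl _ _))
            exact (sameCycle_pow_right).1 this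
          rw [pow_succ', mul_apply, hρo _ hn1 hn2 hn3, ih, ← mul_apply, ← pow_succ']
      have hpM : (π ^ M) = 1 := pow_orderOf_eq_one π
      rw [hall, mul_comm, pow_mul, hpM, one_pow, one_apply]
  exact odd_of_pow (((hLodd.add_even even_two)).mul h) hN

/-- The main insertion lemma: an identity reduces the product of `u, v` to the product of `u', v₀`
followed by two insertions. -/
lemma insert2 (u₀ v₀ : Perm α) (a b c d e f : α)
    (hv6 : Function.Injective ![a, b, c, d, e, f])
    (hub : u₀ b = b) (huc : u₀ c = c) (hud : u₀ d = d) (hue : u₀ e = e)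
    (hua : u₀ a = a) (huf : u₀ f = f)
    (hvb : v₀ b = b) (hvc : v₀ c = c) (hvd : v₀ d = d) (hve : v₀ e = e)
    (h : Odd (orderOf (u₀ * swap a f * v₀))) :
    Odd (orderOf (u₀ * (swap a b * swap c d * swap e f) * (v₀ * (swap b c * swap d e)))) := by
  have hab : a ≠ b := fun e => by simpa using (hv6.ne (a₁ := 0) (a₂ := 1) (by decide)) e
  have hac : a ≠ c := fun e => by simpa using (hv6.ne (a₁ := 0) (a₂ := 2) (by decide)) e
  have had : a ≠ d := fun e => by simpa using (hv6.ne (a₁ := 0) (a₂ := 3) (by decide)) e
  have hae : a ≠ e := fun e => by simpa using (hv6.ne (a₁ := 0) (a₂ := 4) (by decide)) e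
  have haf : a ≠ f := fun e => by simpa using (hv6.ne (a₁ := 0) (a₂ := 5) (by decide)) e
  have hbc : b ≠ c := fun e => by simpa using (hv6.ne (a₁ := 1) (a₂ := 2) (by decide)) e
  have hbd : b ≠ d := fun e => by simpa using (hv6.ne (a₁ := 1) (a₂ := 3) (by decide)) e
  have hbe : b ≠ e := fun e => by simpa using (hv6.ne (a₁ := 1) (a₂ := 4) (by decide)) e
  have hbf : b ≠ f := fun e => by simpa using (hv6.ne (a₁ := 1) (a₂ := 5) (by decide)) e
  have hcd : c ≠ d := fun e => by simpa using (hv6.ne (a₁ := 2) (a₂ := 3) (by decide)) e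
  have hce : c ≠ e := fun e => by simpa using (hv6.ne (a₁ := 2) (a₂ := 4) (by decide)) e
  have hcf : c ≠ f := fun e => by simpa using (hv6.ne (a₁ := 2) (a₂ := 5) (by decide)) e
  have hde : d ≠ e := fun e => by simpa using (hv6.ne (a₁ := 3) (a₂ := 4) (by decide)) e
  have hdf : d ≠ f := fun e => by simpa using (hv6.ne (a₁ := 3) (a₂ := 5) (by decide)) e
  have hef : e ≠ f := fun e => by simpa using (hv6.ne (a₁ := 4) (a₂ := 5) (by decide)) e
  set a' := v₀⁻¹ a with ha'
  set f' := v₀⁻¹ f with hf'
  have hva' : v₀ a' = a := by rw [ha']; simp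
  have hvf' : v₀ f' = f := by rw [hf']; simp
  have htab : swap a b * swap c d * swap e f * (swap b c * swap d e) =
      swap a f * (swap a b * swap b d) * (swap f e * swap e c) := by
    have key : (swap (0 : Fin 6) 1 * swap 2 3 * swap 4 5 * (swap 1 2 * swap 3 4) : Perm (Fin 6)) =
        swap 0 5 * (swap 0 1 * swap 1 3) * (swap 5 4 * swap 4 2) := by decide
    have := congrArg (phi _ hv6) key
    simp only [map_mul, phi_swap] at this
    exact this
  have hcs : ∀ (p q p' q' : α), v₀ p = p' → v₀ q = q' → v₀ * swap p q = swap p' q' * v₀ := by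
    intro p q p' q' h1 h2
    rw [mul_swap_eq_swap_mul, h1, h2]
  have hmain : u₀ * (swap a b * swap c d * swap e f) * (v₀ * (swap b c * swap d e)) =
      (u₀ * swap a f * v₀) * (swap a' b * swap b d) * (swap f' e * swap e c) := by
    have e1 : v₀ * (swap b c * swap d e) = swap b c * swap d e * v₀ := by
      rw [← mul_assoc, hcs b c b c hvb hvc, mul_assoc, hcs d e d e hvd hve, mul_assoc]
    have e2 : v₀ * (swap a' b * swap b d) * (swap f' e * swap e c) =
        swap a b * swap b d * (swap f e * swap e c) * v₀ := by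
      calc v₀ * (swap a' b * swap b d) * (swap f' e * swap e c)
          = (v₀ * swap a' b) * swap b d * swap f' e * swap e c := by group
        _ = swap a b * (v₀ * swap b d) * swap f' e * swap e c := by
            rw [hcs a' b a b hva' hvb]; group
        _ = swap a b * swap b d * (v₀ * swap f' e) * swap e c := by
            rw [hcs b d b d hvb hvd]; group
        _ = swap a b * swap b d * swap f e * (v₀ * swap e c) := by
            rw [hcs f' e f e hvf' hve]; group
        _ = swap a b * swap b d * (swap f e * swap e c) * v₀ := by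
            rw [hcs e c e c hve hvc]; group
    calc u₀ * (swap a b * swap c d * swap e f) * (v₀ * (swap b c * swap d e))
        = u₀ * (swap a b * swap c d * swap e f * (swap b c * swap d e)) * v₀ := by
          rw [e1]; group
      _ = u₀ * (swap a f * (swap a b * swap b d) * (swap f e * swap e c)) * v₀ := by rw [htab]
      _ = u₀ * swap a f * (swap a b * swap b d * (swap f e * swap e c) * v₀) := by group
      _ = u₀ * swap a f * (v₀ * (swap a' b * swap b d) * (swap f' e * swap e c)) := by rw [e2]
      _ = (u₀ * swap a f * v₀) * (swap a' b * swap b d) * (swap f' e * swap e c) := by group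
  rw [hmain]
  have hπb : (u₀ * swap a f * v₀) b = b := by
    simp only [mul_apply]
    rw [hvb, swap_apply_of_ne_of_ne hab.symm hbf, hub]
  have hπd : (u₀ * swap a f * v₀) d = d := by
    simp only [mul_apply]
    rw [hvd, swap_apply_of_ne_of_ne had.symm hdf, hud]
  have hπe : (u₀ * swap a f * v₀) e = e := by
    simp only [mul_apply]
    rw [hve, swap_apply_of_ne_of_ne hae.symm hef, hue]
  have hπc : (u₀ * swap a f * v₀) c = c := by
    simp only [mul_apply]
    rw [hvc, swap_apply_of_ne_of_ne hac.symm hcf, huc]
  have hne : ∀ w w' : α, v₀ w = w' → ∀ {t : α}, v₀ t = t → w' ≠ t → w ≠ t := by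
    intro w w' h1 t h2 h3 h4
    apply h3
    rw [← h1, h4, h2]
  have ha'b : a' ≠ b := hne a' a hva' hvb hab
  have ha'd : a' ≠ d := hne a' a hva' hvd had
  have ha'e : a' ≠ e := hne a' a hva' hve hae
  have ha'c : a' ≠ c := hne a' a hva' hvc hac
  have hf'e : f' ≠ e := hne f' f hvf' hve hef.symm
  have hf'c : f' ≠ c := hne f' f hvf' hvc hcf.symm
  have h1 := insert1 (u₀ * swap a f * v₀) a' b d ha'b ha'd hbd hπb hπd h
  have hπ₁e : ((u₀ * swap a f * v₀) * (swap a' b * swap b d)) e = e := by
    rw [mul_apply, mul_apply (swap a' b), swap_apply_of_ne_of_ne hbe.symm hde.symm,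
      swap_apply_of_ne_of_ne ha'e.symm hbe.symm, hπe]
  have hπ₁c : ((u₀ * swap a f * v₀) * (swap a' b * swap b d)) c = c := by
    rw [mul_apply, mul_apply (swap a' b), swap_apply_of_ne_of_ne hbc.symm hcd,
      swap_apply_of_ne_of_ne ha'c.symm hbc.symm, hπc]
  exact insert1 _ f' e c hf'e hf'c hce.symm hπ₁e hπ₁c h1

end Cfsg.Agent.Lib.InvolChar.SymOdd
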